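import Mathlib

set_option autoImplicit false

/-!
# Piece statements for S5886 (`ΓL_{n/r}(q^r)` is maximal in `GL_n(q)` and in `SL_n(q)`)

Abstract setting.  `L / F` a field extension of prime degree `r`, `V k L = Fin k → L`, `k ≥ 2`.
`c : Ctx F L k` carries a subgroup `c.M` of the `F`-linear automorphisms of `V k L` containing
every `L`-linear automorphism `h` with `Algebra.norm F (det h) = 1` (`c.hsub`); in particular
(`mem_tv`, `mem_dil`) the `L`-transvections `x ↦ x + φ x • u` (`φ u = 0`) and the dilations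
`x ↦ x + φ x • u` with `norm (1 + φ u) = 1`.

Goal (`Abs`): if some `g ∈ c.M` does not map `L`-lines into `L`-lines, then `c.M` contains every
`F`-transvection `x ↦ x + τ (φ x) • z` (`τ (φ z) = 0`).

`Zsub g w v = {a : L | g (a • w) ∈ L v}` (an `F`-subspace of `L`), `rk g w v = r - dim Zsub`.
START gives `1 ≤ rk ≤ r - 1`, REDUCE lowers `rk` to `1`, RANK1 gives `T ∈ c.M` with
`T (a • v) = (a + b a • e) • v` (`T = g ∘ transvection ∘ g⁻¹`).  Then `k ≥ 3`: K3;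
`k = 2, r ≥ 3`: K2COMM, K2EXT, K2A, K2B; `k = 2 = r`, `|F| > 2` or odd: ALG2, K2COMM, K2EXT,
R2SPECIAL; `k = 2 = r = |F|`: Z3, Z1B, R2SPECIAL.  This gives a "special" transvection
(`HasSpecial`: `φ z = 0`); ALL1A / ALL1B give all special ones, ALL2 all transvections.

Notation in the sketches: `m_a` = multiplication by `a` on `L`; `E(ν)` = the map
`x ↦ x + ν (ψ x) • v` (`InSig c v ψ ν` says `E(ν) ∈ c.M`); `σ` = Frobenius.
Useful: `Cfsg.Agent.Lib.Helper40.KStr.exists_rep τ hτ φ : ∃ c, ∀ a, φ a = τ (a * c)`,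
`KStr.tau_inj`; `LinearEquiv.transvection`, `LinearEquiv.dilatransvection`,
`LinearMap.transvection.det`, `LinearMap.det_restrictScalars`, `FiniteField.norm_surjective`.
-/

namespace Cfsg.Agent.Lib.Helper40.GFStmt

universe u

/-- the space `L ^ k` -/
abbrev V (k : ℕ) (L : Type u) : Type u := Fin k → L

section defs
variable {F L : Type u} [Field F] [Field L] [Algebra F L] {k : ℕ}

/-- `s : F` acts on `V k L` as `algebraMap F L s` -/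
theorem smulF (s : F) (x : V k L) : s • x = (algebraMap F L s) • x :=
  (algebraMap_smul L s x).symm

/-- the setting: a subgroup `M` of `F`-linear automorphisms containing all `L`-linear ones whose
determinant has norm `1` -/
structure Ctx (F L : Type u) [Field F] [Field L] [Algebra F L] (k : ℕ) where
  M : Subgroup (V k L ≃ₗ[F] V k L)
  hsub : ∀ h : V k L ≃ₗ[L] V k L,
    Algebra.norm F (LinearMap.det (h : V k L →ₗ[L] V k L)) = 1 → h.restrictScalars F ∈ M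

/-- `g` maps the `L`-line through `x` into the `L`-line through `g x` -/
def LineAt (g : V k L ≃ₗ[F] V k L) (x : V k L) : Prop :=
  ∀ a : L, ∃ a' : L, g (a • x) = a' • g x

/-- `e` is the `F`-transvection `x ↦ x + τ (φ x) • z` -/
def IsFtv (τ : L →ₗ[F] F) (e : V k L ≃ₗ[F] V k L) (z : V k L) (φ : V k L →ₗ[L] L) : Prop :=
  ∀ x : V k L, e x = x + τ (φ x) • z

/-- `c.M` contains a special transvection (`φ z = 0`) -/
def HasSpecial (c : Ctx F L k) (τ : L →ₗ[F] F) : Prop :=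
  ∃ e ∈ c.M, ∃ (z : V k L) (φ : V k L →ₗ[L] L), z ≠ 0 ∧ φ ≠ 0 ∧ φ z = 0 ∧ IsFtv τ e z φ

/-- `E(ν) : x ↦ x + ν (ψ x) • v` lies in `c.M` -/
def InSig (c : Ctx F L k) (v : V k L) (ψ : V k L →ₗ[L] L) (ν : L →ₗ[F] L) : Prop :=
  ∃ e ∈ c.M, ∀ x : V k L, e x = x + ν (ψ x) • v

/-- `Z = {a : L | g (a • w) ∈ L v}` -/
def Zsub (g : V k L ≃ₗ[F] V k L) (w v : V k L) : Submodule F L where
  carrier := {a | ∃ a' : L, g (a • w) = a' • v}
  add_mem' := by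
    rintro a b ⟨a', ha⟩ ⟨b', hb⟩
    exact ⟨a' + b', by rw [add_smul, map_add, ha, hb, add_smul]⟩
  zero_mem' := ⟨0, by rw [zero_smul, map_zero, zero_smul]⟩
  smul_mem' := by
    rintro s a ⟨a', ha⟩
    exact ⟨s • a', by rw [smul_assoc, map_smul, ha, smul_assoc]⟩

theorem mem_Zsub (g : V k L ≃ₗ[F] V k L) (w v : V k L) (a : L) :
    a ∈ Zsub g w v ↔ ∃ a' : L, g (a • w) = a' • v := Iff.rfl

/-- `rk g w v = [L : F] - dim_F (Zsub g w v)` -/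
noncomputable def rk (g : V k L ≃ₗ[F] V k L) (w v : V k L) : ℕ :=
  Module.finrank F L - Module.finrank F (Zsub g w v)

/-- `x ↦ A (d * A⁻¹ (c₀ * x))` for `A = 1 + b(·) e` (`A⁻¹ = 1 - b(·) e` when `b e = 0`) -/
def nu (b : L →ₗ[F] F) (e d c₀ : L) : L →ₗ[F] L :=
  (LinearMap.id + b.smulRight e) ∘ₗ LinearMap.mulLeft F d ∘ₗ
    (LinearMap.id - b.smulRight e) ∘ₗ LinearMap.mulLeft F c₀

theorem nu_apply (b : L →ₗ[F] F) (e d c₀ x : L) :
    nu b e d c₀ x = d * (c₀ * x - b (c₀ * x) • e) + b (d * (c₀ * x - b (c₀ * x) • e)) • e := rfl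

/-- the rank one map `x ↦ b (q * x) • z` -/
def rk1 (b : L →ₗ[F] F) (z q : L) : L →ₗ[F] L :=
  (b ∘ₗ LinearMap.mulLeft F q).smulRight z

theorem rk1_apply (b : L →ₗ[F] F) (z q x : L) : rk1 b z q x = b (q * x) • z := rfl

/-- `L`-transvections lie in `c.M` -/
theorem mem_tv (c : Ctx F L k) (φ : V k L →ₗ[L] L) (u : V k L) (h : φ u = 0) :
    (LinearEquiv.transvection h).restrictScalars F ∈ c.M :=
  c.hsub _ (by
    rw [LinearEquiv.transvection.coe_toLinearMap, LinearMap.transvection.det, h, add_zero,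
      map_one])

/-- dilations `x ↦ x + φ x • u` with `norm (1 + φ u) = 1` lie in `c.M` -/
theorem mem_dil (c : Ctx F L k) (φ : V k L →ₗ[L] L) (u : V k L) (h : IsUnit (1 + φ u))
    (hn : Algebra.norm F (1 + φ u) = 1) :
    (LinearEquiv.dilatransvection h).restrictScalars F ∈ c.M :=
  c.hsub _ (by
    rw [LinearEquiv.dilatransvection.coe_toLinearMap, LinearMap.transvection.det, hn])

theorem inSig_zero (c : Ctx F L k) (v : V k L) (ψ : V k L →ₗ[L] L) : InSig c v ψ 0 :=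
  ⟨1, c.M.one_mem, fun x => by
    rw [LinearMap.zero_apply, zero_smul, add_zero]
    rfl⟩

theorem inSig_add (c : Ctx F L k) (v : V k L) (ψ : V k L →ₗ[L] L) (hψ : ψ v = 0)
    {ν ν' : L →ₗ[F] L} (h : InSig c v ψ ν) (h' : InSig c v ψ ν') : InSig c v ψ (ν + ν') := by
  obtain ⟨e, he, hx⟩ := h
  obtain ⟨e', he', hx'⟩ := h'
  refine ⟨e * e', c.M.mul_mem he he', fun x => ?_⟩
  rw [LinearEquiv.mul_apply, hx', hx, map_add, map_smul, hψ, smul_zero, add_zero,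
    LinearMap.add_apply, add_smul]
  abel

theorem inSig_neg (c : Ctx F L k) (v : V k L) (ψ : V k L →ₗ[L] L) (hψ : ψ v = 0)
    {ν : L →ₗ[F] L} (h : InSig c v ψ ν) : InSig c v ψ (-ν) := by
  obtain ⟨e, he, hx⟩ := h
  refine ⟨e⁻¹, c.M.inv_mem he, fun x => ?_⟩
  apply e.injective
  have h1 : e (e⁻¹ x) = x := by
    rw [← LinearEquiv.mul_apply, mul_inv_cancel]
    rfl
  rw [h1, hx, map_add, map_smul, hψ, smul_zero, add_zero, LinearMap.neg_apply, neg_smul]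
  abel

theorem inSig_sub (c : Ctx F L k) (v : V k L) (ψ : V k L →ₗ[L] L) (hψ : ψ v = 0)
    {ν ν' : L →ₗ[F] L} (h : InSig c v ψ ν) (h' : InSig c v ψ ν') : InSig c v ψ (ν - ν') := by
  rw [sub_eq_add_neg]
  exact inSig_add c v ψ hψ h (inSig_neg c v ψ hψ h')

/-- `E(m_a) ∈ c.M` (an `L`-transvection) -/
theorem inSig_mulLeft (c : Ctx F L k) (v : V k L) (ψ : V k L →ₗ[L] L) (hψ : ψ v = 0) (a : L) :
    InSig c v ψ (LinearMap.mulLeft F a) := by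
  have h0 : (a • ψ) v = 0 := by rw [LinearMap.smul_apply, hψ, smul_zero]
  refine ⟨(LinearEquiv.transvection h0).restrictScalars F, mem_tv c (a • ψ) v h0, fun x => ?_⟩
  show (LinearEquiv.transvection h0) x = _
  rw [LinearEquiv.transvection.apply, LinearMap.smul_apply, LinearMap.mulLeft_apply, smul_eq_mul]

end defs

/-! ## the pieces -/

/-- [SPREAD] an `F`-linear bijection mapping `L`-lines into `L`-lines is `L`-semilinear.  Same
proof as `Cfsg.Agent.Lib.Helper77.SFSPREAD` (there for `Fin n ⊕ Fin n → L`): fix `a`; for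
`x ≠ 0` let `μ x` be an `a'` with `g (a • x) = a' • g x`; if `g x, g y` are `L`-independent then
`μ x = μ y` (use `x + y`); if dependent take `z` with `g z ∉ L (g x)` (`g` onto, `k ≥ 2`). -/
def Spread : Prop :=
  ∀ (F L : Type u) [Field F] [Field L] [Algebra F L] (k : ℕ), 2 ≤ k →
    ∀ g : V k L ≃ₗ[F] V k L, (∀ x, LineAt g x) →
      ∀ a : L, ∃ a' : L, ∀ x : V k L, g (a • x) = a' • g x

/-- [SEP] `b ∉ L w` is separated from `w` by a functional (`Submodule.exists_le_ker_of_notMem`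
/ `Submodule.exists_dual_map_eq_bot_of_notMem` for `span L {w}`; cf. `Helper11.SFSEP`). -/
def Sep : Prop :=
  ∀ (L : Type u) [Field L] (k : ℕ) (w b : V k L), (∀ a : L, b ≠ a • w) →
    ∃ φ : V k L →ₗ[L] L, φ w = 0 ∧ φ b ≠ 0

/-- [PSI] a nonzero functional vanishing at `v` (`k ≥ 2`): `x ↦ v 1 * x 0 - v 0 * x 1` if
`(v 0, v 1) ≠ 0`, else the projection to coordinate `0`. -/
def Psi : Prop :=
  ∀ (L : Type u) [Field L] (k : ℕ) (v : V k L), 2 ≤ k →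
    ∃ ψ : V k L →ₗ[L] L, ψ ≠ 0 ∧ ψ v = 0

/-- [GLTRANS] `GL_k(L)` is transitive on nonzero vectors. -/
def GLTrans : Prop :=
  ∀ (L : Type u) [Field L] (k : ℕ) (x y : V k L), x ≠ 0 → y ≠ 0 →
    ∃ h : V k L ≃ₗ[L] V k L, h x = y

/-- [START] `x` with `¬ LineAt g x`: `w = x`, `v = g x ≠ 0` (`x ≠ 0` as `LineAt g 0`).  Then
`1 ∈ Zsub` (so `Zsub ≠ ⊥`, `rk + 1 ≤ r`) and some `a ∉ Zsub` (so `Zsub ≠ ⊤`, `1 ≤ rk`). -/
def Start : Prop :=
  ∀ (F L : Type u) [Field F] [Field L] [Algebra F L] [FiniteDimensional F L] (k : ℕ)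
    (g : V k L ≃ₗ[F] V k L), (¬ ∀ x, LineAt g x) →
    ∃ w v : V k L, v ≠ 0 ∧ 1 ≤ rk g w v ∧ rk g w v + 1 ≤ Module.finrank F L

/-- [FL2] `[L : F]` prime, `Z` a proper nonzero `F`-subspace, `dim I ≥ 2`: some `a` has
`a I ∩ Z ≠ 0` and `a I ⊄ Z`.  (Otherwise for all `z ∈ Z \ 0`, `i ∈ I \ 0`: `(z / i) I ⊆ Z`; so
for `i, i' ∈ I \ 0`: `(i' / i) Z ⊆ Z`.  `S = {a | a Z ⊆ Z}` is a subalgebra, so `⊥` or `⊤`
(prime degree: `Subalgebra.isSimpleOrder_of_finrank_prime` or as in `Helper39.SFFIELD`);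
`S = ⊤` gives `Z = ⊤`; `S = ⊥` gives `I ⊆ F i`, `dim I ≤ 1`.) -/
def FL2 : Prop :=
  ∀ (F L : Type u) [Field F] [Field L] [Algebra F L] [FiniteDimensional F L],
    (Module.finrank F L).Prime → ∀ Z I : Submodule F L, Z ≠ ⊥ → Z ≠ ⊤ →
      2 ≤ Module.finrank F I →
      ∃ a : L, (∃ i ∈ I, i ≠ 0 ∧ a * i ∈ Z) ∧ (∃ i ∈ I, a * i ∉ Z)

/-- [REDUCE] (from `Sep`, `FL2`) rank reduction; `s = rk g w v ≥ 2`, `Z = Zsub g w v`
(`dim Z = r - s ≥ 1`, `Z ≠ ⊤`, `w ≠ 0`).  Some `a₀` has `y₀ = g⁻¹ (a₀ • v) ∉ L w` (else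
`L v ⊆ g (L w)`, equal by dimension, `Z = ⊤`).  `φ` with `φ w = 0`, `φ y₀ ≠ 0` (`Sep`),
`β a = φ (g⁻¹ (a • v))` (`F`-linear `L → L`, `β ≠ 0`), `I = range β`.  `ker β ⊇ {a | a • v ∈ g (L w)}`
which is `F`-isomorphic to `Z`, so `dim ker β ≥ r - s`.  For `a : L` let
`T = g * (transvection x ↦ x + (a * φ x) • w) * g⁻¹ ∈ c.M` (`mem_tv`); `g' = T`, `w' = v' = v`:
`T (a' • v) = a' • v + g ((a * β a') • w)`, so `Zsub T v v = {a' | a * β a' ∈ Z} ⊇ ker β`.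
If `dim I ≥ 2`: `a` from `FL2` (`Z`, `I`): some `a'` with `β a' ≠ 0`, `a * β a' ∈ Z` (so
`Zsub T v v ⊋ ker β`, `rk' ≤ s - 1`) and some `a'` with `a * β a' ∉ Z` (`rk' ≥ 1`).
If `dim I = 1`: `a = a₁ / i₀` with `a₁ ∉ Z`, `i₀ ∈ I \ 0`: `rk' ≥ 1` and
`rk' ≤ r - dim ker β = 1 < s`. -/
def Reduce : Prop :=
  ∀ (F L : Type u) [Field F] [Field L] [Algebra F L] [FiniteDimensional F L] (k : ℕ)
    (c : Ctx F L k), (Module.finrank F L).Prime → ∀ g ∈ c.M, ∀ w v : V k L, v ≠ 0 →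
      2 ≤ rk g w v → rk g w v + 1 ≤ Module.finrank F L →
      ∃ g' ∈ c.M, ∃ w' v' : V k L, v' ≠ 0 ∧ 1 ≤ rk g' w' v' ∧ rk g' w' v' < rk g w v

/-- [RANK1] (from `Sep`) `rk g w v = 1`: `Z = Zsub g w v` has `dim Z = r - 1 ≥ 1`; `a₁ ∉ Z`,
`p = g (a₁ • w)` (`L = Z ⊕ F a₁`, so `g (L w) ⊆ L v + F p`); `a₀` with
`y₁ = g⁻¹ (a₀ • v) ∉ L w`; `φ w = 0`, `φ y₁ = i₀ ≠ 0` (`Sep`); `K₀ = {a | g⁻¹ (a • v) ∈ L w}`
(`F`-isomorphic to `Z`, `L = K₀ ⊕ F a₀`), `b` the functional with kernel `K₀`, `b a₀ = 1`: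
`φ (g⁻¹ (a • v)) = b a • i₀`.  `z₀ ∈ Z \ 0`, `g (z₀ • w) = e • v` (`e ≠ 0`; `b e = 0` as
`g⁻¹ (e • v) ∈ L w`).  For `f : F`:
`T = g * (transvection x ↦ x + ((f • (z₀ / i₀)) * φ x) • w) * g⁻¹ ∈ c.M`;
`T (a • v) = a • v + g ((f * b a) • z₀ • w) = (a + b a • f • e) • v` and
`T x - x ∈ g (L w) ⊆ L v + F p`. -/
def Rank1 : Prop :=
  ∀ (F L : Type u) [Field F] [Field L] [Algebra F L] [FiniteDimensional F L] (k : ℕ)
    (c : Ctx F L k), 2 ≤ Module.finrank F L → ∀ g ∈ c.M, ∀ w v : V k L, v ≠ 0 →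
      rk g w v = 1 →
      ∃ (e : L) (b : L →ₗ[F] F) (p : V k L), e ≠ 0 ∧ b ≠ 0 ∧ b e = 0 ∧
        ∀ f : F, ∃ T ∈ c.M, (∀ a : L, T (a • v) = (a + b a • (f • e)) • v) ∧
          (∀ x : V k L, ∃ (a' : L) (s : F), T x - x = a' • v + s • p)

/-- [K3] `k ≥ 3`: `ψ ≠ 0` with `ψ v = 0 = ψ p` (the map `ψ ↦ (ψ v, ψ p)` on the dual has a
kernel); `t = transvection x ↦ x + ψ x • v ∈ c.M`; `u = T * t * T⁻¹ * t⁻¹`.  As
`ψ (T⁻¹ y) = ψ y`: `u x = x + b (ψ x) • (e • v)`.  With `b a = τ (a * c_b)` (`KStr.exists_rep`):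
`IsFtv τ u (e • v) (c_b • ψ)`. -/
def K3 : Prop :=
  ∀ (F L : Type u) [Field F] [Field L] [Algebra F L] [FiniteDimensional F L] (k : ℕ)
    (c : Ctx F L k), 3 ≤ k → ∀ τ : L →ₗ[F] F, τ ≠ 0 →
    ∀ (v : V k L) (e : L) (b : L →ₗ[F] F) (p : V k L), v ≠ 0 → e ≠ 0 → b ≠ 0 →
      (∃ T ∈ c.M, (∀ a : L, T (a • v) = (a + b a • e) • v) ∧
        (∀ x : V k L, ∃ (a' : L) (s : F), T x - x = a' • v + s • p)) → HasSpecial c τ

/-- [K2COMM] `A a = a + b a • e`, `A⁻¹ a = a - b a • e` (`b e = 0`), `T (a • v) = A a • v`.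
`φ₁` with `φ₁ v = 1`; `δ = dilation x ↦ x + ((d - 1) * φ₁ x) • v ∈ c.M` (`mem_dil`, `norm d = 1`);
`h' = T * δ * T⁻¹ * δ⁻¹`: `h' (a • v) = A (d * A⁻¹ (d⁻¹ * a)) • v` and `h' x - x ∈ L v` for all `x`
(`T (y + a • v) = T y + A a • v`).  `t = transvection x ↦ x + ((d * c₀) * ψ x) • v ∈ c.M`;
`u = h' * t * h'⁻¹`: `ψ (h'⁻¹ x) = ψ x`, so `u x = x + A (d * A⁻¹ (c₀ * ψ x)) • v`. -/
def K2Comm : Prop :=
  ∀ (F L : Type u) [Field F] [Field L] [Algebra F L] [FiniteDimensional F L] (k : ℕ)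
    (c : Ctx F L k) (v : V k L) (ψ : V k L →ₗ[L] L) (e : L) (b : L →ₗ[F] F),
    v ≠ 0 → ψ v = 0 → b e = 0 →
    (∃ T ∈ c.M, ∀ a : L, T (a • v) = (a + b a • e) • v) →
    ∀ d c₀ : L, Algebra.norm F d = 1 → InSig c v ψ (nu b e d c₀)

/-- [SPAN] the norm-one elements span `L` over `F`.  The span is closed under multiplication, so
it is a subalgebra: `⊥` or `⊤` (prime degree).  Not `⊥`: `a ^ (q - 1)` has norm `1`
(`q = |F|`); if all of these were in `F` then `a ^ ((q - 1) ^ 2) = 1` for all `a ≠ 0`, but `Lˣ`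
is cyclic of order `q ^ r - 1 > (q - 1) ^ 2`. -/
def SpanNorm : Prop :=
  ∀ (F L : Type u) [Field F] [Field L] [Algebra F L] [Finite L], (Module.finrank F L).Prime →
    Submodule.span F {d : L | Algebra.norm F d = 1} = ⊤

/-- [K2EXT] (from `SpanNorm`) `{d | ∀ c₀, InSig c v ψ (nu b e d c₀)}` is closed under addition
(`inSig_add`; `nu` is additive in `d`) and `F`-scaling (`nu b e (s • d) c₀ = nu b e d (s • c₀)`),
contains `0` and the norm-one elements: `Submodule.span_induction`. -/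
def K2Ext : Prop :=
  ∀ (F L : Type u) [Field F] [Field L] [Algebra F L] [Finite L] (k : ℕ)
    (c : Ctx F L k) (v : V k L) (ψ : V k L →ₗ[L] L) (e : L) (b : L →ₗ[F] F),
    (Module.finrank F L).Prime → ψ v = 0 →
    (∀ d c₀ : L, Algebra.norm F d = 1 → InSig c v ψ (nu b e d c₀)) →
    ∀ d c₀ : L, InSig c v ψ (nu b e d c₀)

/-- [K2A] `nu b e d c₀ - m_(d c₀) = rk1 b e (d * c₀) - rk1 b ((d + b (d e)) * e) c₀ ∈ Σ`
(`inSig_mulLeft`, `inSig_sub`).  For `p ≠ 0` take `v₂` with `ψ v₂ = 1`, `φ₁` with `φ₁ v = 1`,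
`φ₁ v₂ = 0`, and `s x = x + ((p - 1) * φ₁ x) • v + ((p⁻¹ - 1) * ψ x) • v₂` (`L`-linear, a
product of two dilations, determinant `p * p⁻¹ = 1`, so in `c.M` by `c.hsub`): `s v = p • v`,
`ψ (s⁻¹ x) = p * ψ x`, hence `s * E(ν) * s⁻¹ = E(m_p ∘ ν ∘ m_p)`; apply this to
`ν = rk1 b e (d * (c₀ / p)) - rk1 b ((d + b (d e)) * e) (c₀ / p)`.  (`p = 0`: `inSig_zero`.) -/
def K2A : Prop :=
  ∀ (F L : Type u) [Field F] [Field L] [Algebra F L] [Finite L] (k : ℕ)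
    (c : Ctx F L k) (v : V k L) (ψ : V k L →ₗ[L] L) (e : L) (b : L →ₗ[F] F),
    2 ≤ k → v ≠ 0 → ψ ≠ 0 → ψ v = 0 → b e = 0 →
    (∀ d c₀ : L, InSig c v ψ (nu b e d c₀)) →
    ∀ p d c₀ : L, InSig c v ψ
      (rk1 b (p * e) (d * c₀) - rk1 b (p * (d + algebraMap F L (b (d * e))) * e) c₀)

/-- [K2B] `[L : F] ≥ 3`.  Write `d~ = d + b (d e)`, `R(z, q) = rk1 b z q`; hypothesis:
`R(p e, d c₀) - R(p d~ e, c₀) ∈ Σ`.  Then (with `(p, d d', 1)`, `(p, d, d')`, `(p d~, d', 1)`)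
`R(p δ e, 1) ∈ Σ` for `δ = (d d')~ - d~ d'~ = b (d d' e) - d b (d' e) - d' b (d e) - b (d e) b (d' e)`.
Take `d' ∉ F` with `b (d' e) = 0` (`ker (b ∘ m_e)` has dimension `r - 1 ≥ 2`) and `d` with
`b (d e) ≠ 0`: `δ = b (d d' e) - d' b (d e) ≠ 0`.  With `p = 1`: `u ∈ c.M`,
`u x = x + b (ψ x) • (δ e) • v`; `b a = τ (a * c_b)`: `IsFtv τ u ((δ * e) • v) (c_b • ψ)`. -/
def K2B : Prop :=
  ∀ (F L : Type u) [Field F] [Field L] [Algebra F L] [Finite L] (k : ℕ)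
    (c : Ctx F L k), (Module.finrank F L).Prime → 3 ≤ Module.finrank F L →
    ∀ τ : L →ₗ[F] F, τ ≠ 0 → ∀ (v : V k L) (ψ : V k L →ₗ[L] L) (e : L) (b : L →ₗ[F] F),
    v ≠ 0 → ψ ≠ 0 → ψ v = 0 → e ≠ 0 → b ≠ 0 → b e = 0 →
    (∀ p d c₀ : L, InSig c v ψ
      (rk1 b (p * e) (d * c₀) - rk1 b (p * (d + algebraMap F L (b (d * e))) * e) c₀)) →
    HasSpecial c τ

/-- [ALG2] `[L : F] = 2`.  For `f ≠ 0`, `e' = f • e`, `A a = a + b a • e'`: if for every `d`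
some `c'` has `nu b e' d 1 = m_c'`, then (at `x = e'`) `c' = d + b (d e')` and (at
`x = (d + b (d e')) e' = A (d e')`) `b (d² e') = 2 d b (d e') + b (d e')²`.  Take `d` with
`b (d e) ≠ 0`.  If `2 ≠ 0` this forces `d ∈ F`, so `b (d e) = d b e = 0`: contradiction, `f = 1`
works.  If `2 = 0` it says `b (d² e) = f * b (d e)²`, which fails for one of two distinct
nonzero `f` (`2 < |F|`). -/
def Alg2 : Prop :=
  ∀ (F L : Type u) [Field F] [Field L] [Algebra F L] [Finite L], Module.finrank F L = 2 →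
    ((2 : F) ≠ 0 ∨ 2 < Nat.card F) →
    ∀ (e : L) (b : L →ₗ[F] F), e ≠ 0 → b ≠ 0 → b e = 0 →
      ∃ f : F, ∃ d : L, ∀ c' : L, nu b (f • e) d 1 ≠ LinearMap.mulLeft F c'

/-- [R2SPECIAL] `[L : F] = 2`, `E(ν) ∈ c.M`, `ν` not a multiplication.  `ν' = ν - m_(ν 1) ∈ Σ`
(`inSig_mulLeft`, `inSig_sub`), `ν' 1 = 0`, `ν' ≠ 0`: `ν' x₁ = z' ≠ 0`, `L = F ⊕ F x₁`,
`ν' x = b' x • z'` for a functional `b' ≠ 0`, `b' a = τ (a * c_b)`: the element is
`x ↦ x + τ ((c_b • ψ) x) • (z' • v)`. -/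
def R2Special : Prop :=
  ∀ (F L : Type u) [Field F] [Field L] [Algebra F L] [Finite L] (k : ℕ)
    (c : Ctx F L k), Module.finrank F L = 2 → ∀ τ : L →ₗ[F] F, τ ≠ 0 →
    ∀ (v : V k L) (ψ : V k L →ₗ[L] L) (ν : L →ₗ[F] L), v ≠ 0 → ψ ≠ 0 → ψ v = 0 →
      (∀ c' : L, ν ≠ LinearMap.mulLeft F c') → InSig c v ψ ν → HasSpecial c τ

/-- [Z2] `|F| = 2`, `|L| = 4`, `ω ∈ L \ {0, 1}` (`ω² = ω + 1`), `h² + h + 1 = 0`.  Put
`α = h + ω h ω² + ω² h ω`, `β = h + α` (scalars as maps): `α (ω x) = ω α x`,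
`β (ω x) = ω² β x`.  Claim: `α x = 0` or `β x = 0` for some `x ≠ 0`; then
`h (ω x) = ω α x + ω² β x ∈ {ω² h x, ω h x}` and `LineAt h x` (`L = {0, 1, ω, ω + 1}`).
Otherwise `α, β` are injective.  `h² = h + 1` splits into `α² + β² = α + 1`, `α β + β α = β`
(linear and semilinear parts).  `α' = α + ω` commutes with `β` and `β² = α' (α' + 1)`, so
`α', α' + 1` are injective.  `α'` has no eigenvector (`α' x = λ x` gives `α' (β x) = λ² β x`;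
`λ ∈ {0, 1}` impossible; `λ ∈ {ω, ω²}` gives eigenvalue `ω`, `α` not injective).  So `x, α' x`
is a basis, `α'² = t α' + d` on `V`; conjugating by `β`: `t² = t`, `d² = d`, `t, d ∈ {0, 1}`;
each of the four cases gives an eigenvector of `α'` (`X²`, `X² + 1 = (X + 1)²`, `X (X + 1)`,
`X² + X + 1 = (X + ω) (X + ω²)`). -/
def Z2 : Prop :=
  ∀ (F L : Type u) [Field F] [Field L] [Algebra F L] [Finite L], Nat.card F = 2 →
    Module.finrank F L = 2 → ∀ h : V 2 L ≃ₗ[F] V 2 L, (∀ x, h (h x) + h x + x = 0) →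
      ∃ x : V 2 L, x ≠ 0 ∧ LineAt h x

/-- [Z3] (from `Spread`, `Z2`) `|F| = 2`, `|L| = 4`: every `L`-linear automorphism is in `c.M`
(the norm of its determinant is a nonzero element of `F`).  `Ω` = multiplication by `ω`,
`h₀ = g⁻¹ * Ω * g ∈ c.M`, `h₀² + h₀ + 1 = 0`; `Z2` gives `x ≠ 0` with `LineAt h₀ x`.  If `h₀` is
not line preserving everywhere: `h = h₀`.  Otherwise (`Spread`) `h₀ (ω x) = c' h₀ x` for all
`x`; `c' = ω²` is impossible (`h₀ = h₀² + 1` would be `L`-linear); so `h₀` is `L`-linear and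
`(h₀ + ω) (h₀ + ω²) = 0`.  `h₀ = ω²` would make `g` line preserving (`g (ω² x) = ω g x`).  So
some `x = h₀ y + ω² y ≠ 0` has `h₀ x = ω x`, `g (ω x) = ω g x`: `LineAt g x`, `h = g`. -/
def Z3 : Prop :=
  ∀ (F L : Type u) [Field F] [Field L] [Algebra F L] [Finite L] (c : Ctx F L 2),
    Nat.card F = 2 → Module.finrank F L = 2 → ∀ g ∈ c.M, (¬ ∀ x, LineAt g x) →
      ∃ h ∈ c.M, (¬ ∀ x, LineAt h x) ∧ ∃ x : V 2 L, x ≠ 0 ∧ LineAt h x

/-- [Z1B] (from `GLTrans`) `|F| = 2`, `|L| = 4`, `k = 2`; all `L`-linear automorphisms are in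
`c.M`.  Composing with `L`-linear maps: `h₁ ∈ c.M`, not line preserving, `v = x₀`,
`h₁ (a • v) = A a • v`, `A 1 = 1`, and for `ψ` with kernel `L v`: `ψ (h₁ x) = D (ψ x)`, `D 1 = 1`
(`A, D` additive bijections of `L` fixing `1`: the identity or `σ : a ↦ a²`).
* `A ≠ D`: `h₁ * (transvection x ↦ x + ψ x • v) * h₁⁻¹ = E(A ∘ D⁻¹) = E(σ)`.
* `A = D = 1`: `h₁ = E(ν)`, and `ν` is not a multiplication (else `h₁` is `L`-linear).
* `A = D = σ`: `δ, δ'` dilations, identity on `L v`, `ψ ∘ δ = ω ψ`, `ψ ∘ δ' = ω² ψ`;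
  `h₁ * δ * h₁⁻¹ * δ'⁻¹ = E(ν₃)`; in a basis `v, v₂`: `h₁ = [[σ, X], [0, σ]]`, `ν₃ = X ∘ m_ω ∘ σ`,
  a multiplication only if `X (a y) = a² X y`, i.e. `h₁` `σ`-semilinear (line preserving). -/
def Z1B : Prop :=
  ∀ (F L : Type u) [Field F] [Field L] [Algebra F L] [Finite L] (c : Ctx F L 2),
    Nat.card F = 2 → Module.finrank F L = 2 → ∀ h ∈ c.M, (¬ ∀ x, LineAt h x) →
    ∀ x₀ : V 2 L, x₀ ≠ 0 → LineAt h x₀ →
      ∃ (v : V 2 L) (ψ : V 2 L →ₗ[L] L) (ν : L →ₗ[F] L), v ≠ 0 ∧ ψ ≠ 0 ∧ ψ v = 0 ∧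
        (∀ c' : L, ν ≠ LinearMap.mulLeft F c') ∧ InSig c v ψ ν

/-- [ALL1A] `k ≥ 3`.  Conjugating by `L`-transvections `t` (`mem_tv`): `(z, φ) ↦ (t z, φ ∘ t⁻¹)`.
Transvections are transitive on nonzero vectors, so every `z ≠ 0` has some `φ₀ ≠ 0`,
`φ₀ z = 0` with `(z, φ₀)` in `c.M`.  For fixed `z`, `S = {φ | φ z = 0, (z, φ) ∈ c.M}` is an
additive subgroup; conjugating by `x ↦ x + χ x • y` (`χ z = 0`, `χ y = 0`) gives
`φ₀ - φ₀ y • χ ∈ S`; so `χ ∈ S` for all `χ` with `χ z = 0` not proportional to `φ₀`, and then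
for all `χ` with `χ z = 0` (differences).  `z = 0`: the identity. -/
def All1A : Prop :=
  ∀ (F L : Type u) [Field F] [Field L] [Algebra F L] (k : ℕ) (c : Ctx F L k), 3 ≤ k →
    ∀ τ : L →ₗ[F] F, HasSpecial c τ →
    ∀ (z : V k L) (φ : V k L →ₗ[L] L), φ z = 0 → ∃ e ∈ c.M, IsFtv τ e z φ

/-- [ALL1B] (from `SpanNorm`) `k = 2`.  For `z ≠ 0` the functionals vanishing at `z` are
`a • ψ_z`, `ψ_z x = x 0 * z 1 - x 1 * z 0`; `ψ_(h z) (h x) = det h * ψ_z x`.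
`A = {a | ∀ z, (z, a • ψ_z) ∈ c.M}` contains some `a₀ ≠ 0` (conjugate by `L`-linear maps of
determinant `1`), is closed under addition, under multiplication by norm-one `d` (conjugate by
maps of determinant `d`) and by squares `s²`, `s ∈ Fˣ` (`IsFtv τ e (s • z) φ ↔ IsFtv τ e z (s • φ)`),
hence by `F` (sums of two squares) and by `span F {norm one} = L`. -/
def All1B : Prop :=
  ∀ (F L : Type u) [Field F] [Field L] [Algebra F L] [Finite L] (c : Ctx F L 2),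
    (Module.finrank F L).Prime → ∀ τ : L →ₗ[F] F, HasSpecial c τ →
    ∀ (z : V 2 L) (φ : V 2 L →ₗ[L] L), φ z = 0 → ∃ e ∈ c.M, IsFtv τ e z φ

/-- [ALL2] if `(z, φ)`, `(z', φ')` are special (`φ z = 0 = φ' z'`) with `τ (φ' z) = 0` then
`T' * e * T'⁻¹` is the transvection `(z, φ - τ (φ z') • φ')`.  Target `(z, φ*)` with
`κ = φ* z ≠ 0`, `τ κ = 0`: `c₋` with `τ c₋ = -1`, `y ≠ 0` with `φ* y = 0`, `z' = (c₋ / κ) • z + y`
(`z' ∉ L z`, `φ* z' = c₋`), `φ'` with `φ' z = κ`, `φ' z' = 0`, `φ = φ* - φ'`. -/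
def All2 : Prop :=
  ∀ (F L : Type u) [Field F] [Field L] [Algebra F L] [FiniteDimensional F L] (k : ℕ)
    (c : Ctx F L k), 2 ≤ k → ∀ τ : L →ₗ[F] F, τ ≠ 0 →
    (∀ (z : V k L) (φ : V k L →ₗ[L] L), φ z = 0 → ∃ e ∈ c.M, IsFtv τ e z φ) →
    ∀ (z : V k L) (φ : V k L →ₗ[L] L), τ (φ z) = 0 → ∃ e ∈ c.M, IsFtv τ e z φ

/-- [COORD] `F ^ N` is an `L`-vector space through `ι` (`Module.compHom`), so `L`-isomorphic to
`Fin k → L`; restrict scalars to `F`. -/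
def Coord : Prop :=
  ∀ (F L : Type u) [Field F] [Field L] [Algebra F L] [FiniteDimensional F L] (N : ℕ)
    (ι : L →ₐ[F] Matrix (Fin N) (Fin N) F),
    ∃ (k : ℕ) (Φ : (Fin N → F) ≃ₗ[F] V k L),
      ∀ (a : L) (x : Fin N → F), Φ (Matrix.mulVec (ι a) x) = a • Φ x

/-- [DUALREP] every `F`-functional on `V k L` is `τ ∘ φ` (coordinatewise `KStr.exists_rep`). -/
def DualRep : Prop :=
  ∀ (F L : Type u) [Field F] [Field L] [Algebra F L] [FiniteDimensional F L] (k : ℕ)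
    (τ : L →ₗ[F] F), τ ≠ 0 → ∀ χ : V k L →ₗ[F] F,
      ∃ φ : V k L →ₗ[L] L, ∀ x : V k L, χ x = τ (φ x)

/-- [DETSURJ] `a` with `norm a = s` (`FiniteField.norm_surjective`), `h` the dilation
`x ↦ x + ((a - 1) * x 0) • e₀` (`LinearEquiv.dilatransvection`, `det = a`), and
`LinearMap.det_restrictScalars`. -/
def DetSurj : Prop :=
  ∀ (F L : Type u) [Field F] [Field L] [Algebra F L] [Finite L] (k : ℕ), 1 ≤ k →
    ∀ s : F, s ≠ 0 → ∃ h : V k L ≃ₗ[L] V k L,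
      LinearMap.det ((h.restrictScalars F : V k L ≃ₗ[F] V k L) : V k L →ₗ[F] V k L) = s

/-- the abstract main theorem -/
def Abs : Prop :=
  ∀ (F L : Type u) [Field F] [Field L] [Algebra F L] [Finite L] (k : ℕ) (c : Ctx F L k),
    (Module.finrank F L).Prime → 2 ≤ k → (∃ g ∈ c.M, ¬ ∀ x, LineAt g x) →
    ∀ τ : L →ₗ[F] F, τ ≠ 0 → ∀ (z : V k L) (φ : V k L →ₗ[L] L), τ (φ z) = 0 →
      ∃ e ∈ c.M, IsFtv τ e z φ

end Cfsg.Agent.Lib.Helper40.GFStmt
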