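import Mathlib
import Cfsg.Agent.Lib.Helper40.SSConj
import Cfsg.Agent.S2568

set_option autoImplicit false

namespace Cfsg.Agent.Lib.Helper40.InvDims

open Polynomial UniqueFactorizationMonoid Cfsg.Agent.Lib.Helper40.SSConj

section general
variable {F : Type*} [Field F] {V : Type*} [AddCommGroup V] [Module F V]

/-- The restriction of an endomorphism to an invariant subspace. -/
abbrev res (φ : Module.End F V) (p : Submodule F V) (hp : p ∈ φ.invtSubmodule) :
    Module.End F p :=
  LinearMap.restrict φ (p := p) (q := p) hp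

theorem pow_restrict_coe (φ : Module.End F V) (p : Submodule F V) (hp : p ∈ φ.invtSubmodule)
    (k : ℕ) (u : p) : (((res φ p hp) ^ k) u : V) = (φ ^ k) u := by
  induction k generalizing u with
  | zero => rfl
  | succ k ih =>
    rw [pow_succ, pow_succ, Module.End.mul_apply, Module.End.mul_apply, ih]
    rfl

theorem aeval_restrict_coe (φ : Module.End F V) (p : Submodule F V) (hp : p ∈ φ.invtSubmodule)
    (f : F[X]) (u : p) : ((aeval (res φ p hp) f) u : V) = aeval φ f u := by
  induction f using Polynomial.induction_on' with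
  | add a b ha hb =>
    rw [map_add, map_add, LinearMap.add_apply, LinearMap.add_apply, Submodule.coe_add, ha, hb]
  | monomial k a =>
    rw [aeval_monomial, aeval_monomial, Module.End.mul_apply, Module.End.mul_apply,
      Module.algebraMap_end_apply, Module.algebraMap_end_apply, Submodule.coe_smul,
      pow_restrict_coe]

/-- The characteristic polynomial of the restriction to a direct sum of invariant subspaces. -/
theorem charpoly_sup [FiniteDimensional F V] (φ : Module.End F V) (A B : Submodule F V)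
    (hA : A ∈ φ.invtSubmodule) (hB : B ∈ φ.invtSubmodule) (hAB : A ⊓ B = ⊥)
    (hS : A ⊔ B ∈ φ.invtSubmodule) :
    (res φ (A ⊔ B) hS).charpoly = (res φ A hA).charpoly * (res φ B hB).charpoly := by
  obtain ⟨L, hL⟩ : ∃ L : (A × B) →ₗ[F] ↥(A ⊔ B), ∀ x, (L x : V) = (x.1 : V) + (x.2 : V) :=
    ⟨{ toFun := fun x => ⟨(x.1 : V) + (x.2 : V),
          Submodule.add_mem_sup x.1.2 x.2.2⟩
       map_add' := by
         intro x y
         apply Subtype.ext
         simp only [Prod.fst_add, Prod.snd_add, Submodule.coe_add]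
         abel
       map_smul' := by
         intro c x
         apply Subtype.ext
         simp [smul_add] }, fun x => rfl⟩
  have hinj : Function.Injective L := by
    rw [injective_iff_map_eq_zero]
    intro x hx
    have h1 : (x.1 : V) + (x.2 : V) = 0 := by
      rw [← hL, hx]
      rfl
    have h2 : (x.1 : V) ∈ A ⊓ B := by
      refine ⟨x.1.2, ?_⟩
      have h3 : (x.1 : V) = -(x.2 : V) := eq_neg_of_add_eq_zero_left h1
      rw [h3]
      exact B.neg_mem x.2.2
    rw [hAB, Submodule.mem_bot] at h2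
    have h4 : (x.2 : V) = 0 := by
      rw [h2, zero_add] at h1
      exact h1
    exact Prod.ext (Subtype.ext h2) (Subtype.ext h4)
  have hsurj : Function.Surjective L := by
    rintro ⟨y, hy⟩
    obtain ⟨a, ha, b, hb, rfl⟩ := Submodule.mem_sup.mp hy
    exact ⟨(⟨a, ha⟩, ⟨b, hb⟩), Subtype.ext (hL _)⟩
  obtain ⟨e, he⟩ : ∃ e : (A × B) ≃ₗ[F] ↥(A ⊔ B), ∀ x, e x = L x :=
    ⟨LinearEquiv.ofBijective L ⟨hinj, hsurj⟩, fun x => rfl⟩
  have hconj : e.conj ((res φ A hA).prodMap (res φ B hB)) = res φ (A ⊔ B) hS := by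
    apply LinearMap.ext
    intro y
    obtain ⟨x, rfl⟩ := e.surjective y
    apply Subtype.ext
    rw [LinearEquiv.conj_apply, LinearMap.comp_apply, LinearMap.comp_apply]
    simp only [LinearEquiv.coe_coe, LinearEquiv.symm_apply_apply]
    rw [he, hL, he]
    show φ (x.1 : V) + φ (x.2 : V) = φ (L x : V)
    rw [hL, map_add]
  rw [← hconj, LinearEquiv.charpoly_conj, LinearMap.charpoly_prodMap]

/-- Restricting twice. -/
theorem charpoly_map_subtype [FiniteDimensional F V] (φ : Module.End F V) (A : Submodule F V)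
    (hA : A ∈ φ.invtSubmodule) (C : Submodule F A) (hC : C ∈ (res φ A hA).invtSubmodule) :
    ∃ hM : C.map A.subtype ∈ φ.invtSubmodule,
      (res φ (C.map A.subtype) hM).charpoly = (res (res φ A hA) C hC).charpoly := by
  have hM : C.map A.subtype ∈ φ.invtSubmodule := by
    rw [Module.End.mem_invtSubmodule]
    rintro _ ⟨c, hc, rfl⟩
    rw [Submodule.mem_comap]
    exact ⟨res φ A hA c, (Module.End.mem_invtSubmodule _).mp hC hc, rfl⟩
  refine ⟨hM, ?_⟩
  obtain ⟨e, he⟩ : ∃ e : C ≃ₗ[F] ↥(C.map A.subtype), ∀ x, (e x : V) = ((x : A) : V) :=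
    ⟨Submodule.equivSubtypeMap A C, fun x => rfl⟩
  have hconj : e.conj (res (res φ A hA) C hC) = res φ (C.map A.subtype) hM := by
    apply LinearMap.ext
    intro y
    obtain ⟨x, rfl⟩ := e.surjective y
    apply Subtype.ext
    rw [LinearEquiv.conj_apply, LinearMap.comp_apply, LinearMap.comp_apply]
    simp only [LinearEquiv.coe_coe, LinearEquiv.symm_apply_apply]
    rw [he]
    show φ ((x : A) : V) = φ (e x : V)
    rw [he]
  rw [← hconj, LinearEquiv.charpoly_conj]

/-- For a semisimple endomorphism the characteristic polynomial of a restriction divides. -/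
theorem charpoly_restrict_dvd [FiniteDimensional F V] (φ : Module.End F V) (hs : φ.IsSemisimple)
    (W : Submodule F V) (hW : W ∈ φ.invtSubmodule) : (res φ W hW).charpoly ∣ φ.charpoly := by
  obtain ⟨W', hW', hc⟩ := (Module.End.isSemisimple_iff.mp hs) W hW
  exact ⟨_, charpoly_eq_mul φ W W' hW hW' hc⟩

/-- The restriction to the cyclic submodule of a vector killed by an irreducible polynomial. -/
theorem charpoly_cycRes [FiniteDimensional F V] (φ : Module.End F V) (v : V) (hv : v ≠ 0)
    (f : F[X]) (hf : Irreducible f) (hfv : aeval φ f v = 0) :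
    Associated (cycRes φ v).charpoly f := by
  obtain ⟨ε, hε⟩ := model_iso φ v hv f hf hfv
  have hfin : Module.finrank F (LinearMap.range (ev φ v)) = f.natDegree := by
    rw [← LinearEquiv.finrank_eq ε, (AdjoinRoot.powerBasis hf.ne_zero).finrank,
      AdjoinRoot.powerBasis_dim]
  have hf0 : aeval (cycRes φ v) f = 0 := by
    apply LinearMap.ext
    intro u
    apply Subtype.ext
    rw [aeval_restrict_coe]
    obtain ⟨g, hg⟩ := u.2
    rw [← hg, ev_apply, ← Module.End.mul_apply, ← map_mul, mul_comm, map_mul, Module.End.mul_apply,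
      hfv, map_zero]
    rfl
  have hnt : Nontrivial (LinearMap.range (ev φ v)) :=
    ⟨⟨⟨v, mem_range_ev φ v⟩, 0, fun h => hv (congrArg Subtype.val h)⟩⟩
  have hdvd : minpoly F (cycRes φ v) ∣ f := minpoly.dvd F _ hf0
  have hass : Associated (minpoly F (cycRes φ v)) f := by
    obtain ⟨w, hw⟩ := hdvd
    rcases hf.isUnit_or_isUnit hw with h | h
    · exact absurd h (minpoly.not_isUnit F _)
    · obtain ⟨u, rfl⟩ := h
      exact ⟨u, hw.symm⟩
  have hdeg : (minpoly F (cycRes φ v)).natDegree = f.natDegree :=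
    natDegree_eq_of_degree_eq (degree_eq_degree_of_associated hass)
  have heq : (cycRes φ v).charpoly = minpoly F (cycRes φ v) := by
    apply Polynomial.eq_of_monic_of_dvd_of_natDegree_le
      (minpoly.monic (Algebra.IsIntegral.isIntegral _)) (LinearMap.charpoly_monic _)
      (LinearMap.minpoly_dvd_charpoly _)
    rw [LinearMap.charpoly_natDegree, hfin, hdeg]
  rw [heq]
  exact hass

/-- For a semisimple endomorphism, every divisor of the characteristic polynomial is (up to a
unit) the characteristic polynomial of the restriction to an invariant subspace. -/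
theorem exists_invt_of_dvd : ∀ (n : ℕ) {V : Type*} [AddCommGroup V] [Module F V]
    [FiniteDimensional F V] (φ : Module.End F V), Module.finrank F V = n → φ.IsSemisimple →
    ∀ D : F[X], D ∣ φ.charpoly →
    ∃ (W : Submodule F V) (hW : W ∈ φ.invtSubmodule), Associated (res φ W hW).charpoly D := by
  intro n
  induction n using Nat.strong_induction_on with
  | _ n ih =>
    intro V _ _ _ φ hn hs D hD
    have hD0 : D ≠ 0 := by
      rintro rfl
      exact (LinearMap.charpoly_monic φ).ne_zero (zero_dvd_iff.mp hD)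
    by_cases hDu : IsUnit D
    · have hbot : (⊥ : Submodule F V) ∈ φ.invtSubmodule := by
        rw [Module.End.mem_invtSubmodule]
        exact bot_le
      refine ⟨⊥, hbot, ?_⟩
      have h1 : (res φ ⊥ hbot).charpoly = 1 := by
        apply Polynomial.eq_one_of_monic_natDegree_zero (LinearMap.charpoly_monic _)
        rw [LinearMap.charpoly_natDegree, finrank_bot]
      rw [h1]
      exact (associated_one_iff_isUnit.mpr hDu).symm
    · obtain ⟨f, hf, g, hfg⟩ := WfDvdMonoid.exists_irreducible_factor hDu hD0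
      have hfχ : f ∣ φ.charpoly := (Dvd.intro g hfg.symm).trans hD
      obtain ⟨v, hv, hfv⟩ := exists_ker_of_dvd_charpoly φ f hf hfχ
      obtain ⟨U', hU', hc⟩ := (Module.End.isSemisimple_iff.mp hs) _ (range_ev_invt φ v)
      have hχ := charpoly_eq_mul φ _ U' (range_ev_invt φ v) hU' hc
      have hassU := charpoly_cycRes φ v hv f hf hfv
      have hg : g ∣ (res φ U' hU').charpoly := by
        obtain ⟨u, hu⟩ := hassU
        have h1 : (cycRes φ v).charpoly * ((u : F[X]) * g) ∣
            (cycRes φ v).charpoly * (res φ U' hU').charpoly := by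
          rw [← mul_assoc, hu, ← hfg]
          exact hχ ▸ hD
        have h2 := (mul_dvd_mul_iff_left (LinearMap.charpoly_monic _).ne_zero).mp h1
        exact (Dvd.intro_left _ rfl).trans h2
      have hlt : Module.finrank F U' < n := by
        have h1 := Submodule.finrank_add_eq_of_isCompl hc
        have h2 : 0 < Module.finrank F (LinearMap.range (ev φ v)) := by
          rw [Module.finrank_pos_iff_exists_ne_zero]
          exact ⟨⟨v, mem_range_ev φ v⟩, fun h => hv (congrArg Subtype.val h)⟩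
        omega
      obtain ⟨W', hW', hassW'⟩ := ih _ hlt (res φ U' hU') rfl (hs.restrict hU') g hg
      obtain ⟨hM, hMχ⟩ := charpoly_map_subtype φ U' hU' W' hW'
      have hS : LinearMap.range (ev φ v) ⊔ W'.map U'.subtype ∈ φ.invtSubmodule :=
        Sublattice.sup_mem (range_ev_invt φ v) hM
      have hdisj : LinearMap.range (ev φ v) ⊓ W'.map U'.subtype = ⊥ := by
        apply le_antisymm _ bot_le
        rw [← hc.inf_eq_bot]
        exact inf_le_inf_left _ (Submodule.map_subtype_le U' W')
      refine ⟨_, hS, ?_⟩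
      rw [charpoly_sup φ _ _ (range_ev_invt φ v) hM hdisj hS, hMχ, hfg]
      exact Associated.mul_mul hassU hassW'


/-- Dimensions of invariant subspaces of a semisimple endomorphism are the degrees of the divisors
of its characteristic polynomial. -/
theorem exists_invt_iff [FiniteDimensional F V] (φ : Module.End F V) (hs : φ.IsSemisimple)
    (m : ℕ) :
    (∃ W : Submodule F V, W ∈ φ.invtSubmodule ∧ Module.finrank F W = m) ↔
    ∃ D : F[X], D ∣ φ.charpoly ∧ D.natDegree = m := by
  constructor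
  · rintro ⟨W, hW, hm⟩
    exact ⟨(res φ W hW).charpoly, charpoly_restrict_dvd φ hs W hW, by
      rw [LinearMap.charpoly_natDegree, hm]⟩
  · rintro ⟨D, hD, hm⟩
    obtain ⟨W, hW, hass⟩ := exists_invt_of_dvd _ φ rfl hs D hD
    refine ⟨W, hW, ?_⟩
    rw [← LinearMap.charpoly_natDegree (res φ W hW), ← hm]
    exact natDegree_eq_of_degree_eq (degree_eq_degree_of_associated hass)

/-- Invariant flags of a semisimple endomorphism. -/
theorem exists_flag_iff [FiniteDimensional F V] (φ : Module.End F V) (hs : φ.IsSemisimple)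
    (m₁ m₂ : ℕ) :
    (∃ U W : Submodule F V, U ≤ W ∧ U ∈ φ.invtSubmodule ∧ W ∈ φ.invtSubmodule ∧
      Module.finrank F U = m₁ ∧ Module.finrank F W + m₂ = Module.finrank F V) ↔
    ∃ D₁ D₂ : F[X], D₁ * D₂ ∣ φ.charpoly ∧ D₁.natDegree = m₁ ∧ D₂.natDegree = m₂ := by
  constructor
  · rintro ⟨U, W, hUW, hU, hW, hm₁, hm₂⟩
    obtain ⟨W', hW', hc⟩ := (Module.End.isSemisimple_iff.mp hs) W hW
    have hdisj : U ⊓ W' = ⊥ := by
      apply le_antisymm _ bot_le
      rw [← hc.inf_eq_bot]
      exact inf_le_inf_right _ hUW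
    have hS : U ⊔ W' ∈ φ.invtSubmodule := Sublattice.sup_mem hU hW'
    refine ⟨(res φ U hU).charpoly, (res φ W' hW').charpoly, ?_, ?_, ?_⟩
    · rw [← charpoly_sup φ U W' hU hW' hdisj hS]
      exact charpoly_restrict_dvd φ hs _ hS
    · rw [LinearMap.charpoly_natDegree, hm₁]
    · rw [LinearMap.charpoly_natDegree]
      have h1 := Submodule.finrank_add_eq_of_isCompl hc
      omega
  · rintro ⟨D₁, D₂, hD, hm₁, hm₂⟩
    have hD0 : D₁ * D₂ ≠ 0 := by
      intro h0
      rw [h0] at hD
      exact (LinearMap.charpoly_monic φ).ne_zero (zero_dvd_iff.mp hD)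
    obtain ⟨Y, hY, hassY⟩ := exists_invt_of_dvd _ φ rfl hs (D₁ * D₂) hD
    have hD₁ : D₁ ∣ (res φ Y hY).charpoly := (Dvd.intro D₂ rfl).trans hassY.symm.dvd
    obtain ⟨U₀, hU₀, hassU⟩ := exists_invt_of_dvd _ (res φ Y hY) rfl (hs.restrict hY) D₁ hD₁
    obtain ⟨hM, hMχ⟩ := charpoly_map_subtype φ Y hY U₀ hU₀
    obtain ⟨R, hR, hc⟩ := (Module.End.isSemisimple_iff.mp hs) Y hY
    have hfU : Module.finrank F (U₀.map Y.subtype) = m₁ := by
      rw [← LinearMap.charpoly_natDegree (res φ _ hM), hMχ, ← hm₁]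
      exact natDegree_eq_of_degree_eq (degree_eq_degree_of_associated hassU)
    have hfY : Module.finrank F Y = m₁ + m₂ := by
      rw [← LinearMap.charpoly_natDegree (res φ Y hY), ← hm₁, ← hm₂,
        ← natDegree_mul (left_ne_zero_of_mul hD0) (right_ne_zero_of_mul hD0)]
      exact natDegree_eq_of_degree_eq (degree_eq_degree_of_associated hassY)
    have hdisj : U₀.map Y.subtype ⊓ R = ⊥ := by
      apply le_antisymm _ bot_le
      rw [← hc.inf_eq_bot]
      exact inf_le_inf_right _ (Submodule.map_subtype_le Y U₀)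
    refine ⟨U₀.map Y.subtype, U₀.map Y.subtype ⊔ R, le_sup_left, hM, Sublattice.sup_mem hM hR,
      hfU, ?_⟩
    have h1 := Submodule.finrank_sup_add_finrank_inf_eq (U₀.map Y.subtype) R
    rw [hdisj, finrank_bot, add_zero] at h1
    have h2 := Submodule.finrank_add_eq_of_isCompl hc
    omega

end general

section poly
variable {F : Type*} [Field F] [DecidableEq F]

theorem exists_le_card {α : Type*} (M : Multiset α) (m : ℕ) (h : m ≤ Multiset.card M) :
    ∃ M' ≤ M, Multiset.card M' = m := by
  induction M using Multiset.induction_on generalizing m with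
  | empty =>
    refine ⟨0, le_rfl, ?_⟩
    simp only [Multiset.card_zero, Nat.le_zero] at h
    rw [h, Multiset.card_zero]
  | cons a s ih =>
    rcases m with _ | m
    · exact ⟨0, Multiset.zero_le _, rfl⟩
    · rw [Multiset.card_cons] at h
      obtain ⟨M', hM', hc⟩ := ih m (by omega)
      exact ⟨a ::ₘ M', Multiset.cons_le_cons a hM', by rw [Multiset.card_cons, hc]⟩

/-- Degrees of divisors in terms of sub-multisets of the normalized factors. -/
theorem dvd_degree_iff (χ : F[X]) (hχ : χ.Monic) (m : ℕ) :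
    (∃ D : F[X], D ∣ χ ∧ D.natDegree = m) ↔
    ∃ M' ≤ normalizedFactors χ, (M'.map natDegree).sum = m := by
  classical
  constructor
  · rintro ⟨D, hD, hm⟩
    have hD0 : D ≠ 0 := by
      rintro rfl
      exact hχ.ne_zero (zero_dvd_iff.mp hD)
    refine ⟨normalizedFactors D,
      (dvd_iff_normalizedFactors_le_normalizedFactors hD0 hχ.ne_zero).mp hD, ?_⟩
    rw [← hm, ← natDegree_multiset_prod_of_monic _
      (fun P hP => Cfsg.Agent.S2568.monic_of_mem_nf D P hP)]
    exact natDegree_eq_of_degree_eq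
      (degree_eq_degree_of_associated (prod_normalizedFactors hD0))
  · rintro ⟨M', hM', hm⟩
    refine ⟨M'.prod, ?_, ?_⟩
    · rw [← Cfsg.Agent.S2568.prod_nf χ hχ]
      exact Multiset.prod_dvd_prod_of_le hM'
    · rw [natDegree_multiset_prod_of_monic _
        (fun P hP => Cfsg.Agent.S2568.monic_of_mem_nf χ P (Multiset.mem_of_le hM' hP)), hm]

theorem dvd_degree_iff₂ (χ : F[X]) (hχ : χ.Monic) (m₁ m₂ : ℕ) :
    (∃ D₁ D₂ : F[X], D₁ * D₂ ∣ χ ∧ D₁.natDegree = m₁ ∧ D₂.natDegree = m₂) ↔
    ∃ M₁ M₂ : Multiset F[X], M₁ + M₂ ≤ normalizedFactors χ ∧ (M₁.map natDegree).sum = m₁ ∧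
      (M₂.map natDegree).sum = m₂ := by
  classical
  constructor
  · rintro ⟨D₁, D₂, hD, hm₁, hm₂⟩
    have hD0 : D₁ * D₂ ≠ 0 := by
      intro h0
      rw [h0] at hD
      exact hχ.ne_zero (zero_dvd_iff.mp hD)
    have h1 := left_ne_zero_of_mul hD0
    have h2 := right_ne_zero_of_mul hD0
    refine ⟨normalizedFactors D₁, normalizedFactors D₂, ?_, ?_, ?_⟩
    · rw [← normalizedFactors_mul h1 h2]
      exact (dvd_iff_normalizedFactors_le_normalizedFactors hD0 hχ.ne_zero).mp hD
    · rw [← hm₁, ← natDegree_multiset_prod_of_monic _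
        (fun P hP => Cfsg.Agent.S2568.monic_of_mem_nf D₁ P hP)]
      exact natDegree_eq_of_degree_eq
        (degree_eq_degree_of_associated (prod_normalizedFactors h1))
    · rw [← hm₂, ← natDegree_multiset_prod_of_monic _
        (fun P hP => Cfsg.Agent.S2568.monic_of_mem_nf D₂ P hP)]
      exact natDegree_eq_of_degree_eq
        (degree_eq_degree_of_associated (prod_normalizedFactors h2))
  · rintro ⟨M₁, M₂, hM, hm₁, hm₂⟩
    refine ⟨M₁.prod, M₂.prod, ?_, ?_, ?_⟩
    · rw [← Cfsg.Agent.S2568.prod_nf χ hχ, ← Multiset.prod_add]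
      exact Multiset.prod_dvd_prod_of_le hM
    · rw [natDegree_multiset_prod_of_monic _ (fun P hP => Cfsg.Agent.S2568.monic_of_mem_nf χ P
        (Multiset.mem_of_le hM (Multiset.mem_add.mpr (Or.inl hP)))), hm₁]
    · rw [natDegree_multiset_prod_of_monic _ (fun P hP => Cfsg.Agent.S2568.monic_of_mem_nf χ P
        (Multiset.mem_of_le hM (Multiset.mem_add.mpr (Or.inr hP)))), hm₂]

/-- The degree sum of a multiset of polynomials of degrees `1` and `d`. -/
theorem degsum_eq (M : Multiset F[X]) (d : ℕ)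
    (h : ∀ P ∈ M, P.natDegree = 1 ∨ P.natDegree = d) :
    (M.map natDegree).sum = Multiset.card (M.filter (fun P => P.natDegree = 1)) +
      d * Multiset.card (M.filter (fun P => ¬ P.natDegree = 1)) := by
  conv_lhs => rw [← Multiset.filter_add_not (fun P => P.natDegree = 1) M]
  rw [Multiset.map_add, Multiset.sum_add]
  congr 1
  · rw [Multiset.map_congr rfl (fun P hP => (Multiset.mem_filter.mp hP).2), Multiset.map_const',
      Multiset.sum_replicate, smul_eq_mul, mul_one]
  · have h1 : ∀ P ∈ M.filter (fun P => ¬ P.natDegree = 1), P.natDegree = d := by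
      intro P hP
      obtain ⟨hPM, hP1⟩ := Multiset.mem_filter.mp hP
      rcases h P hPM with h2 | h2
      · exact absurd h2 hP1
      · exact h2
    rw [Multiset.map_congr rfl h1, Multiset.map_const', Multiset.sum_replicate, smul_eq_mul,
      mul_comm]

theorem submultiset_iff (M : Multiset F[X]) (d : ℕ)
    (h : ∀ P ∈ M, P.natDegree = 1 ∨ P.natDegree = d) (m : ℕ) :
    (∃ M' ≤ M, (M'.map natDegree).sum = m) ↔
    ∃ l j, l ≤ Multiset.card (M.filter (fun P => P.natDegree = 1)) ∧
      j ≤ Multiset.card (M.filter (fun P => ¬ P.natDegree = 1)) ∧ l + d * j = m := by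
  constructor
  · rintro ⟨M', hM', hm⟩
    refine ⟨_, _, Multiset.card_le_card (Multiset.filter_le_filter _ hM'),
      Multiset.card_le_card (Multiset.filter_le_filter _ hM'), ?_⟩
    rw [← hm, degsum_eq M' d (fun P hP => h P (Multiset.mem_of_le hM' hP))]
  · rintro ⟨l, j, hl, hj, hm⟩
    obtain ⟨A, hA, hAc⟩ := exists_le_card _ l hl
    obtain ⟨B, hB, hBc⟩ := exists_le_card _ j hj
    have hAB : A + B ≤ M := by
      conv_rhs => rw [← Multiset.filter_add_not (fun P => P.natDegree = 1) M]
      exact add_le_add hA hB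
    refine ⟨A + B, hAB, ?_⟩
    rw [Multiset.map_add, Multiset.sum_add]
    have hA1 : ∀ P ∈ A, P.natDegree = 1 := fun P hP =>
      (Multiset.mem_filter.mp (Multiset.mem_of_le hA hP)).2
    have hB1 : ∀ P ∈ B, P.natDegree = d := by
      intro P hP
      obtain ⟨hPM, hP1⟩ := Multiset.mem_filter.mp (Multiset.mem_of_le hB hP)
      rcases h P hPM with h2 | h2
      · exact absurd h2 hP1
      · exact h2
    rw [Multiset.map_congr rfl hA1, Multiset.map_congr rfl hB1, Multiset.map_const',
      Multiset.map_const', Multiset.sum_replicate, Multiset.sum_replicate, hAc, hBc, smul_eq_mul,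
      smul_eq_mul, mul_one, ← hm, mul_comm]

theorem submultiset_iff₂ (M : Multiset F[X]) (d : ℕ)
    (h : ∀ P ∈ M, P.natDegree = 1 ∨ P.natDegree = d) (m₁ m₂ : ℕ) :
    (∃ M₁ M₂ : Multiset F[X], M₁ + M₂ ≤ M ∧ (M₁.map natDegree).sum = m₁ ∧
      (M₂.map natDegree).sum = m₂) ↔
    ∃ l₁ j₁ l₂ j₂, l₁ + l₂ ≤ Multiset.card (M.filter (fun P => P.natDegree = 1)) ∧
      j₁ + j₂ ≤ Multiset.card (M.filter (fun P => ¬ P.natDegree = 1)) ∧ l₁ + d * j₁ = m₁ ∧
      l₂ + d * j₂ = m₂ := by
  constructor
  · rintro ⟨M₁, M₂, hM, hm₁, hm₂⟩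
    have hM₁ : ∀ P ∈ M₁, P.natDegree = 1 ∨ P.natDegree = d := fun P hP =>
      h P (Multiset.mem_of_le hM (Multiset.mem_add.mpr (Or.inl hP)))
    have hM₂ : ∀ P ∈ M₂, P.natDegree = 1 ∨ P.natDegree = d := fun P hP =>
      h P (Multiset.mem_of_le hM (Multiset.mem_add.mpr (Or.inr hP)))
    refine ⟨_, _, _, _, ?_, ?_, (degsum_eq M₁ d hM₁).symm.trans hm₁,
      (degsum_eq M₂ d hM₂).symm.trans hm₂⟩
    · rw [← Multiset.card_add, ← Multiset.filter_add]
      exact Multiset.card_le_card (Multiset.filter_le_filter _ hM)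
    · rw [← Multiset.card_add, ← Multiset.filter_add]
      exact Multiset.card_le_card (Multiset.filter_le_filter _ hM)
  · rintro ⟨l₁, j₁, l₂, j₂, hl, hj, hm₁, hm₂⟩
    obtain ⟨A, hA, hAc⟩ := exists_le_card _ (l₁ + l₂) hl
    obtain ⟨B, hB, hBc⟩ := exists_le_card _ (j₁ + j₂) hj
    obtain ⟨A₁, hA₁, hA₁c⟩ := exists_le_card A l₁ (by omega)
    obtain ⟨B₁, hB₁, hB₁c⟩ := exists_le_card B j₁ (by omega)
    obtain ⟨A₂, hA₂⟩ := Multiset.le_iff_exists_add.mp hA₁
    obtain ⟨B₂, hB₂⟩ := Multiset.le_iff_exists_add.mp hB₁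
    have hA₂c : Multiset.card A₂ = l₂ := by
      have := congrArg Multiset.card hA₂
      rw [Multiset.card_add] at this
      omega
    have hB₂c : Multiset.card B₂ = j₂ := by
      have := congrArg Multiset.card hB₂
      rw [Multiset.card_add] at this
      omega
    have hAB : A + B ≤ M := by
      conv_rhs => rw [← Multiset.filter_add_not (fun P => P.natDegree = 1) M]
      exact add_le_add hA hB
    have hA1 : ∀ P ∈ A, P.natDegree = 1 := fun P hP =>
      (Multiset.mem_filter.mp (Multiset.mem_of_le hA hP)).2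
    have hB1 : ∀ P ∈ B, P.natDegree = d := by
      intro P hP
      obtain ⟨hPM, hP1⟩ := Multiset.mem_filter.mp (Multiset.mem_of_le hB hP)
      rcases h P hPM with h2 | h2
      · exact absurd h2 hP1
      · exact h2
    have hsum : ∀ (A' B' : Multiset F[X]), A' ≤ A → B' ≤ B →
        ((A' + B').map natDegree).sum = Multiset.card A' + d * Multiset.card B' := by
      intro A' B' hA' hB'
      rw [Multiset.map_add, Multiset.sum_add,
        Multiset.map_congr rfl (fun P hP => hA1 P (Multiset.mem_of_le hA' hP)),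
        Multiset.map_congr rfl (fun P hP => hB1 P (Multiset.mem_of_le hB' hP)),
        Multiset.map_const', Multiset.map_const', Multiset.sum_replicate, Multiset.sum_replicate,
        smul_eq_mul, smul_eq_mul, mul_one, mul_comm]
    refine ⟨A₁ + B₁, A₂ + B₂, ?_, ?_, ?_⟩
    · have e : A₁ + B₁ + (A₂ + B₂) = A + B := by
        rw [hA₂, hB₂]
        abel
      rw [e]
      exact hAB
    · rw [hsum A₁ B₁ hA₁ hB₁, hA₁c, hB₁c, hm₁]
    · rw [hsum A₂ B₂ (hA₂ ▸ Multiset.le_add_left _ _) (hB₂ ▸ Multiset.le_add_left _ _), hA₂c,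
        hB₂c, hm₂]

end poly

section mat
variable {F : Type*} [Field F] [DecidableEq F] {n : ℕ}

/-- The number of linear normalized factors of the characteristic polynomial. -/
noncomputable def cntOne (x : Matrix (Fin n) (Fin n) F) : ℕ :=
  Multiset.card ((normalizedFactors x.charpoly).filter (fun P => P.natDegree = 1))

/-- The number of non-linear normalized factors of the characteristic polynomial. -/
noncomputable def cntBig (x : Matrix (Fin n) (Fin n) F) : ℕ :=
  Multiset.card ((normalizedFactors x.charpoly).filter (fun P => ¬ P.natDegree = 1))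

theorem cnt_sum (x : Matrix (Fin n) (Fin n) F) (d : ℕ)
    (hdeg : ∀ P ∈ normalizedFactors x.charpoly, P.natDegree = 1 ∨ P.natDegree = d) :
    cntOne x + d * cntBig x = n := by
  unfold cntOne cntBig
  rw [← degsum_eq _ d hdeg, ← Cfsg.Agent.S2568.natDegree_eq_sum_nf _ (Matrix.charpoly_monic x),
    Matrix.charpoly_natDegree_eq_dim, Fintype.card_fin]

theorem map_le_iff (x : Matrix (Fin n) (Fin n) F) (W : Submodule F (Fin n → F)) :
    W.map (Matrix.toLin' x) ≤ W ↔ W ∈ Module.End.invtSubmodule (Matrix.toLin' x) := by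
  rw [Module.End.mem_invtSubmodule, Submodule.map_le_iff_le_comap]

/-- Dimensions of the invariant subspaces of a semisimple matrix whose characteristic polynomial
has irreducible factors of degrees `1` and `d` only. -/
theorem fix_iff (x : Matrix (Fin n) (Fin n) F) (hs : Module.End.IsSemisimple (Matrix.toLin' x)) (d : ℕ)
    (hdeg : ∀ P ∈ normalizedFactors x.charpoly, P.natDegree = 1 ∨ P.natDegree = d) (m : ℕ) :
    (∃ W : Submodule F (Fin n → F), Module.finrank F W = m ∧ W.map (Matrix.toLin' x) ≤ W) ↔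
    ∃ l j, l ≤ cntOne x ∧ j ≤ cntBig x ∧ l + d * j = m := by
  unfold cntOne cntBig
  rw [← submultiset_iff _ d hdeg m, ← dvd_degree_iff _ (Matrix.charpoly_monic x) m,
    ← Matrix.charpoly_toLin', ← exists_invt_iff _ hs m]
  constructor
  · rintro ⟨W, h1, h2⟩
    exact ⟨W, (map_le_iff x W).mp h2, h1⟩
  · rintro ⟨W, h1, h2⟩
    exact ⟨W, h2, (map_le_iff x W).mpr h1⟩

/-- Invariant flags `U ≤ W` with `dim U = m`, `dim W = n - m`. -/
theorem flag_iff (x : Matrix (Fin n) (Fin n) F) (hs : Module.End.IsSemisimple (Matrix.toLin' x)) (d : ℕ)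
    (hdeg : ∀ P ∈ normalizedFactors x.charpoly, P.natDegree = 1 ∨ P.natDegree = d) (m : ℕ)
    (hm : m ≤ n) :
    (∃ U W : Submodule F (Fin n → F), U ≤ W ∧ Module.finrank F U = m ∧
      Module.finrank F W = n - m ∧ U.map (Matrix.toLin' x) ≤ U ∧
      W.map (Matrix.toLin' x) ≤ W) ↔
    ∃ l₁ j₁ l₂ j₂, l₁ + l₂ ≤ cntOne x ∧ j₁ + j₂ ≤ cntBig x ∧ l₁ + d * j₁ = m ∧
      l₂ + d * j₂ = m := by
  unfold cntOne cntBig
  rw [← submultiset_iff₂ _ d hdeg m m, ← dvd_degree_iff₂ _ (Matrix.charpoly_monic x) m m,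
    ← Matrix.charpoly_toLin', ← exists_flag_iff _ hs m m]
  have hfin : Module.finrank F (Fin n → F) = n := by
    rw [Module.finrank_pi, Fintype.card_fin]
  constructor
  · rintro ⟨U, W, h1, h2, h3, h4, h5⟩
    refine ⟨U, W, h1, (map_le_iff x U).mp h4, (map_le_iff x W).mp h5, h2, ?_⟩
    rw [hfin, h3]
    omega
  · rintro ⟨U, W, h1, h2, h3, h4, h5⟩
    refine ⟨U, W, h1, h4, ?_, (map_le_iff x U).mpr h2, (map_le_iff x W).mpr h3⟩
    rw [hfin] at h5
    omega

/-- A semisimple matrix is annihilated by any polynomial a power of which is divisible by its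
characteristic polynomial. -/
theorem aeval_eq_zero_of_charpoly_dvd_pow (x : Matrix (Fin n) (Fin n) F)
    (hs : Module.End.IsSemisimple (Matrix.toLin' x)) (D : F[X]) (k : ℕ) (h : x.charpoly ∣ D ^ k) :
    aeval x D = 0 := by
  rcases Nat.eq_zero_or_pos n with h0 | hpos
  · subst h0
    exact Subsingleton.elim _ _
  have hk : k ≠ 0 := by
    rintro rfl
    rw [pow_zero] at h
    have h1 := natDegree_eq_zero_of_isUnit (isUnit_of_dvd_one h)
    rw [Matrix.charpoly_natDegree_eq_dim, Fintype.card_fin] at h1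
    omega
  have hsq : Squarefree (minpoly F x) := by
    rw [← Matrix.minpoly_toLin']
    exact hs.minpoly_squarefree
  have h1 : minpoly F x ∣ D ^ k := (Matrix.minpoly_dvd_charpoly x).trans h
  exact (minpoly.dvd_iff).mp ((hsq.dvd_pow_iff_dvd hk).mp h1)

theorem isSemisimple_of_pow_eq_smul (x : Matrix (Fin n) (Fin n) F) (r : ℕ) (z : F) (hz : z ≠ 0)
    (hr : (r : F) ≠ 0) (hx : x ^ r = z • (1 : Matrix (Fin n) (Fin n) F)) :
    Module.End.IsSemisimple (Matrix.toLin' x) := by
  apply Module.End.isSemisimple_of_squarefree_aeval_eq_zero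
    (p := X ^ r - C z) (separable_X_pow_sub_C z hr hz).squarefree
  rw [map_sub, map_pow, aeval_X, aeval_C, ← Matrix.toLin'_pow, hx, map_smul, Matrix.toLin'_one,
    Algebra.algebraMap_eq_smul_one]
  exact sub_self _

end mat

end Cfsg.Agent.Lib.Helper40.InvDims
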