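import Mathlib

set_option autoImplicit false

namespace Cfsg.Agent.Lib.Helper40.CycloVal

section
variable (q r : ℕ) [Fact r.Prime]

theorem order_pos (hrq : ¬ r ∣ q) : 0 < orderOf (q : ZMod r) := by
  have hq0 : (q : ZMod r) ≠ 0 := by
    rw [Ne, ZMod.natCast_eq_zero_iff]
    exact hrq
  rw [orderOf_pos_iff, isOfFinOrder_iff_pow_eq_one]
  exact ⟨r - 1, Nat.sub_pos_of_lt (Fact.out : r.Prime).one_lt, ZMod.pow_card_sub_one_eq_one hq0⟩

theorem dvd_pow_sub_one_iff (hq : 1 ≤ q) (j : ℕ) :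
    r ∣ q ^ j - 1 ↔ orderOf (q : ZMod r) ∣ j := by
  rw [orderOf_dvd_iff_pow_eq_one, ← ZMod.natCast_eq_zero_iff, Nat.cast_sub (Nat.one_le_pow _ _ hq),
    Nat.cast_pow, Nat.cast_one, sub_eq_zero]

theorem padicValNat_finset_prod {ι : Type*} (s : Finset ι) (f : ι → ℕ) (h : ∀ i ∈ s, f i ≠ 0) :
    padicValNat r (∏ i ∈ s, f i) = ∑ i ∈ s, padicValNat r (f i) := by
  classical
  induction s using Finset.induction_on with
  | empty => simp
  | insert a s ha ih =>
    rw [Finset.prod_insert ha, Finset.sum_insert ha,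
      padicValNat.mul (h a (Finset.mem_insert_self a s))
        (Finset.prod_ne_zero_iff.mpr (fun i hi => h i (Finset.mem_insert_of_mem hi))),
      ih (fun i hi => h i (Finset.mem_insert_of_mem hi))]

/-- The `r`-part of `q^d - 1` is that of the `d`-th cyclotomic value, `d` the order of `q` mod `r`. -/
theorem padicValNat_pow_order_sub_one (hq : 2 ≤ q) (hrq : ¬ r ∣ q) :
    padicValNat r (q ^ orderOf (q : ZMod r) - 1) =
      padicValNat r ((Polynomial.cyclotomic (orderOf (q : ZMod r)) ℤ).eval (q : ℤ)).natAbs := by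
  obtain ⟨d, hd⟩ : ∃ d, d = orderOf (q : ZMod r) := ⟨_, rfl⟩
  rw [← hd]
  have hdpos : 0 < d := hd ▸ order_pos q r hrq
  have hprod : ((q : ℤ) ^ d - 1) =
      (Polynomial.cyclotomic d ℤ).eval (q : ℤ) *
        ∏ e ∈ Nat.properDivisors d, (Polynomial.cyclotomic e ℤ).eval (q : ℤ) := by
    have h1 := Polynomial.prod_cyclotomic_eq_X_pow_sub_one hdpos ℤ
    rw [← Nat.insert_self_properDivisors hdpos.ne', Finset.prod_insert (by simp)] at h1
    have h2 := congrArg (Polynomial.eval (q : ℤ)) h1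
    rw [Polynomial.eval_mul, Polynomial.eval_prod] at h2
    rw [h2]
    simp
  have hne : ((q : ℤ) ^ d - 1) ≠ 0 := by
    have : (1 : ℤ) < (q : ℤ) ^ d := by
      have h2 : (1 : ℤ) < (q : ℤ) := by exact_mod_cast hq
      exact one_lt_pow₀ h2 hdpos.ne'
    omega
  have hnat : q ^ d - 1 = ((q : ℤ) ^ d - 1).natAbs := by
    have h1 : ((q ^ d - 1 : ℕ) : ℤ) = (q : ℤ) ^ d - 1 := by
      rw [Nat.cast_sub (Nat.one_le_pow _ _ (by omega))]
      simp
    rw [← h1, Int.natAbs_natCast]
  have hcop : ¬ r ∣ (∏ e ∈ Nat.properDivisors d, (Polynomial.cyclotomic e ℤ).eval (q : ℤ)).natAbs := by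
    rw [← Int.natCast_dvd]
    intro hdvd
    rw [(Nat.prime_iff_prime_int.mp (Fact.out : r.Prime)).dvd_finsetProd_iff] at hdvd
    obtain ⟨e, he, hre⟩ := hdvd
    rw [Nat.mem_properDivisors] at he
    have hepos : 0 < e := Nat.pos_of_dvd_of_pos he.1 hdpos
    have h1 : (Polynomial.cyclotomic e ℤ).eval (q : ℤ) ∣ (q : ℤ) ^ e - 1 := by
      have h2 := Polynomial.cyclotomic.dvd_X_pow_sub_one e ℤ
      have h3 := Polynomial.eval_dvd (x := (q : ℤ)) h2
      simpa using h3
    have h4 : (r : ℤ) ∣ ((q ^ e - 1 : ℕ) : ℤ) := by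
      rw [Nat.cast_sub (Nat.one_le_pow _ _ (by omega))]
      simpa using hre.trans h1
    rw [Int.natCast_dvd_natCast, dvd_pow_sub_one_iff q r (by omega), ← hd] at h4
    exact absurd (Nat.le_of_dvd hepos h4) (not_le.mpr he.2)
  rw [hnat, hprod, Int.natAbs_mul, padicValNat.mul, padicValNat.eq_zero_of_not_dvd hcop, add_zero]
  · intro h0
    apply hne
    rw [hprod, Int.natAbs_eq_zero.mp h0, zero_mul]
  · intro h0
    apply hne
    rw [hprod, Int.natAbs_eq_zero.mp h0, mul_zero]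

theorem geom (x : ℕ) (hx : 1 ≤ x) (m : ℕ) : (x - 1) * (∑ l ∈ Finset.range m, x ^ l) + 1 = x ^ m := by
  induction m with
  | zero => simp
  | succ m ih =>
    rw [Finset.sum_range_succ, mul_add, pow_succ]
    obtain ⟨y, rfl⟩ : ∃ y, x = y + 1 := ⟨x - 1, by omega⟩
    simp only [Nat.add_sub_cancel] at ih ⊢
    nlinarith

/-- For `1 ≤ k < r` the `r`-part of `q^(dk) - 1` is that of `q^d - 1`. -/
theorem padicValNat_pow_mul_sub_one (hq : 2 ≤ q) (k : ℕ) (hk : 0 < k) (hkr : k < r) :
    padicValNat r (q ^ (orderOf (q : ZMod r) * k) - 1) =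
      padicValNat r (q ^ orderOf (q : ZMod r) - 1) := by
  obtain ⟨d, hd⟩ : ∃ d, d = orderOf (q : ZMod r) := ⟨_, rfl⟩
  rw [← hd]
  by_cases hd0 : d = 0
  · rw [hd0]; simp
  have hx : 2 ≤ q ^ d := by
    calc 2 ≤ q := hq
      _ = q ^ 1 := (pow_one q).symm
      _ ≤ q ^ d := Nat.pow_le_pow_right (by omega) (by omega)
  have h1 := geom (q ^ d) (by omega) k
  have h2 : q ^ (d * k) - 1 = (q ^ d - 1) * ∑ l ∈ Finset.range k, (q ^ d) ^ l := by
    rw [pow_mul, ← h1, Nat.add_sub_cancel]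
  have hS : ¬ r ∣ ∑ l ∈ Finset.range k, (q ^ d) ^ l := by
    rw [← ZMod.natCast_eq_zero_iff]
    push_cast
    have h3 : (q : ZMod r) ^ d = 1 := by rw [hd]; exact pow_orderOf_eq_one _
    rw [h3]
    simp only [one_pow, Finset.sum_const, Finset.card_range, nsmul_eq_mul, mul_one]
    rw [ZMod.natCast_eq_zero_iff]
    intro h4
    exact absurd (Nat.le_of_dvd hk h4) (not_le.mpr hkr)
  have hS0 : ∑ l ∈ Finset.range k, (q ^ d) ^ l ≠ 0 := by
    intro h0
    apply hS
    rw [h0]
    exact dvd_zero r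
  rw [h2, padicValNat.mul (by omega) hS0, padicValNat.eq_zero_of_not_dvd hS, add_zero]

/-- The `r`-part of the order of `GL_n(q)` for a prime `r > n` not dividing `q`. -/
theorem padicValNat_card_GL (hq : 2 ≤ q) (hrq : ¬ r ∣ q) (n : ℕ) (hrn : n < r) :
    padicValNat r (∏ i : Fin n, (q ^ n - q ^ (i : ℕ))) =
      (n / orderOf (q : ZMod r)) *
        padicValNat r ((Polynomial.cyclotomic (orderOf (q : ZMod r)) ℤ).eval (q : ℤ)).natAbs := by
  rw [← padicValNat_pow_order_sub_one q r hq hrq]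
  obtain ⟨d, hd⟩ : ∃ d, d = orderOf (q : ZMod r) := ⟨_, rfl⟩
  have hdpos : 0 < d := hd ▸ order_pos q r hrq
  have hterm : ∀ j : ℕ, 0 < j → j ≤ n → padicValNat r (q ^ j - 1) =
      if d ∣ j then padicValNat r (q ^ d - 1) else 0 := by
    intro j hj hjn
    split_ifs with h
    · obtain ⟨k, rfl⟩ := h
      have hk : 0 < k := Nat.pos_of_ne_zero (by rintro rfl; simp at hj)
      have hkn : k ≤ n := le_trans (Nat.le_mul_of_pos_left k hdpos) hjn
      rw [hd]
      exact padicValNat_pow_mul_sub_one q r hq k hk (lt_of_le_of_lt hkn hrn)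
    · apply padicValNat.eq_zero_of_not_dvd
      rw [dvd_pow_sub_one_iff q r (by omega), ← hd]
      exact h
  have hfac : ∀ i : Fin n, q ^ n - q ^ (i : ℕ) = q ^ (i : ℕ) * (q ^ (n - (i : ℕ)) - 1) := by
    intro i
    have : q ^ n = q ^ (i : ℕ) * q ^ (n - (i : ℕ)) := by
      rw [← pow_add]; congr 1; have := i.isLt; omega
    rw [this, Nat.mul_sub, mul_one]
  have hne : ∀ i : Fin n, q ^ (n - (i : ℕ)) - 1 ≠ 0 := by
    intro i
    have h1 : 2 ≤ q ^ (n - (i : ℕ)) := by
      calc 2 ≤ q := hq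
        _ = q ^ 1 := (pow_one q).symm
        _ ≤ q ^ (n - (i : ℕ)) := Nat.pow_le_pow_right (by omega) (by have := i.isLt; omega)
    omega
  rw [padicValNat_finset_prod]
  · have h1 : ∀ i : Fin n, padicValNat r (q ^ n - q ^ (i : ℕ)) =
        if d ∣ (n - (i : ℕ)) then padicValNat r (q ^ d - 1) else 0 := by
      intro i
      rw [hfac i, padicValNat.mul (pow_ne_zero _ (by omega)) (hne i),
        padicValNat.eq_zero_of_not_dvd (fun h => hrq ((Fact.out : r.Prime).dvd_of_dvd_pow h)), zero_add]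
      exact hterm _ (by have := i.isLt; omega) (Nat.sub_le _ _)
    rw [Finset.sum_congr rfl (fun i _ => h1 i), ← hd]
    rw [← Finset.sum_filter, Finset.sum_const, smul_eq_mul]
    congr 1
    rw [← Nat.card_multiples n d]
    apply Finset.card_bij (fun (i : Fin n) _ => n - 1 - (i : ℕ))
    · intro i hi
      simp only [Finset.mem_filter, Finset.mem_univ, true_and] at hi
      simp only [Finset.mem_filter, Finset.mem_range]
      have := i.isLt
      refine ⟨by omega, ?_⟩
      have e : n - 1 - (i : ℕ) + 1 = n - (i : ℕ) := by omega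
      rw [e]
      exact hi
    · intro i _ j _ h
      have := i.isLt
      have := j.isLt
      apply Fin.ext
      omega
    · intro e he
      simp only [Finset.mem_filter, Finset.mem_range] at he
      refine ⟨⟨n - 1 - e, by omega⟩, ?_, ?_⟩
      · simp only [Finset.mem_filter, Finset.mem_univ, true_and]
        have e' : n - (n - 1 - e) = e + 1 := by omega
        rw [e']
        exact he.2
      · show n - 1 - (n - 1 - e) = e
        omega
  · intro i _
    rw [hfac i]
    exact mul_ne_zero (pow_ne_zero _ (by omega)) (hne i)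

end

end Cfsg.Agent.Lib.Helper40.CycloVal
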