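import Mathlib
import Cfsg.Agent.Lib.Helper40.HermAdj
import Cfsg.Agent.Lib.Helper40.SympConj
import Cfsg.Agent.Lib.Helper40.RecipPoly
import Cfsg.Agent.S2389

set_option autoImplicit false

namespace Cfsg.Agent.Lib.Helper40.SpGU

open Matrix
open Cfsg.Agent.Lib.Helper40.HermAdj Cfsg.Agent.Lib.Helper40.SympConj

section T
variable {F : Type*} [Field F] {m : ℕ}

/-- The block matrix of multiplication by `A + Bω` (`ω² + ω + 1 = 0`). -/
def T (A B : Matrix (Fin m) (Fin m) F) : Matrix (Fin m ⊕ Fin m) (Fin m ⊕ Fin m) F :=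
  Matrix.fromBlocks A (-B) B (A - B)

theorem T_mul (A B A' B' : Matrix (Fin m) (Fin m) F) :
    T A B * T A' B' = T (A * A' - B * B') (A * B' + B * A' - B * B') := by
  unfold T
  rw [Matrix.fromBlocks_multiply]
  congr 1 <;> noncomm_ring

theorem T_one : T (1 : Matrix (Fin m) (Fin m) F) 0 = 1 := by
  unfold T
  rw [neg_zero, sub_zero, Matrix.fromBlocks_one]

theorem T_inj (A B A' B' : Matrix (Fin m) (Fin m) F) (h : T A B = T A' B') : A = A' ∧ B = B' := by
  unfold T at h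
  rw [Matrix.fromBlocks_inj] at h
  exact ⟨h.1, h.2.2.1⟩

theorem sadj_T (A B : Matrix (Fin m) (Fin m) F) : sadj (T A B) = T (Aᵀ - Bᵀ) (-Bᵀ) := by
  unfold sadj T Matrix.J
  rw [Matrix.fromBlocks_transpose, Matrix.fromBlocks_neg, Matrix.fromBlocks_multiply,
    Matrix.fromBlocks_multiply]
  congr 1 <;> simp

theorem comm_iff (N : Matrix (Fin m ⊕ Fin m) (Fin m ⊕ Fin m) F) :
    N * T 0 1 = T 0 1 * N ↔ ∃ A B, N = T A B := by
  constructor
  · intro h
    refine ⟨N.toBlocks₁₁, N.toBlocks₂₁, ?_⟩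
    rw [← Matrix.fromBlocks_toBlocks N] at h
    unfold T at h
    rw [Matrix.fromBlocks_multiply, Matrix.fromBlocks_multiply, Matrix.fromBlocks_inj] at h
    obtain ⟨h1, h2, h3, h4⟩ := h
    simp only [mul_zero, mul_one, zero_add, zero_mul, neg_mul, one_mul, zero_sub, mul_neg] at h1 h2 h3 h4
    conv_lhs => rw [← Matrix.fromBlocks_toBlocks N]
    unfold T
    congr 1
    rw [h3]
    abel
  · rintro ⟨A, B, rfl⟩
    rw [T_mul, T_mul]
    congr 1 <;> simp

end T

section abs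
variable {F : Type*} [Field F] {K : Type*} [Field K] [Algebra F K] {m : ℕ}

/-- The matrix `A + ωB` over `K`. -/
def Psi (ω : K) (A B : Matrix (Fin m) (Fin m) F) : Matrix (Fin m) (Fin m) K :=
  A.map (algebraMap F K) + ω • B.map (algebraMap F K)

theorem Psi_mul (ω : K) (hω : ω ^ 2 + ω + 1 = 0) (A B A' B' : Matrix (Fin m) (Fin m) F) :
    Psi ω A B * Psi ω A' B' = Psi ω (A * A' - B * B') (A * B' + B * A' - B * B') := by
  unfold Psi
  have h2 : ω * ω = -ω - 1 := by linear_combination hω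
  have e : ∀ M : Matrix (Fin m) (Fin m) F,
      M.map (algebraMap F K) = (algebraMap F K).mapMatrix M := fun M => rfl
  simp only [e, map_sub, map_add, map_mul]
  rw [add_mul, mul_add, mul_add, Matrix.smul_mul, Matrix.smul_mul, Matrix.mul_smul,
    Matrix.mul_smul, smul_smul, h2]
  module

theorem Psi_one (ω : K) : Psi ω (1 : Matrix (Fin m) (Fin m) F) 0 = 1 := by
  unfold Psi
  rw [Matrix.map_one _ (map_zero _) (map_one _), Matrix.map_zero _ (map_zero _), smul_zero,
    add_zero]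

theorem Psi_inj (ω : K)
    (hinj : ∀ a b : F, algebraMap F K a + ω * algebraMap F K b = 0 → a = 0 ∧ b = 0)
    (A B A' B' : Matrix (Fin m) (Fin m) F) (h : Psi ω A B = Psi ω A' B') : A = A' ∧ B = B' := by
  have key : ∀ i j, A i j = A' i j ∧ B i j = B' i j := by
    intro i j
    have h1 := congrFun (congrFun h i) j
    unfold Psi at h1
    simp only [Matrix.add_apply, Matrix.map_apply, Matrix.smul_apply, smul_eq_mul] at h1
    have h2 := hinj (A i j - A' i j) (B i j - B' i j) (by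
      rw [map_sub, map_sub]
      linear_combination h1)
    exact ⟨sub_eq_zero.mp h2.1, sub_eq_zero.mp h2.2⟩
  exact ⟨Matrix.ext fun i j => (key i j).1, Matrix.ext fun i j => (key i j).2⟩

theorem Psi_surj (ω : K)
    (hsurj : ∀ z : K, ∃ a b : F, z = algebraMap F K a + ω * algebraMap F K b)
    (M : Matrix (Fin m) (Fin m) K) : ∃ A B : Matrix (Fin m) (Fin m) F, M = Psi ω A B := by
  choose a b hab using hsurj
  refine ⟨Matrix.of fun i j => a (M i j), Matrix.of fun i j => b (M i j), ?_⟩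
  ext i j
  unfold Psi
  simp only [Matrix.add_apply, Matrix.map_apply, Matrix.smul_apply, smul_eq_mul, Matrix.of_apply]
  exact hab (M i j)

theorem adj_Psi (ω : K) (φ : K →+* K) (hφω : φ ω = -1 - ω)
    (hφF : ∀ a : F, φ (algebraMap F K a) = algebraMap F K a) (A B : Matrix (Fin m) (Fin m) F) :
    adj φ (Psi ω A B) = Psi ω (Aᵀ - Bᵀ) (-Bᵀ) := by
  ext i j
  rw [adj_apply]
  unfold Psi
  simp only [Matrix.add_apply, Matrix.map_apply, Matrix.smul_apply, smul_eq_mul, map_add, map_mul,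
    hφω, hφF, Matrix.sub_apply, Matrix.transpose_apply, Matrix.neg_apply, map_sub, map_neg]
  ring

theorem cond_iff (ω : K) (hω : ω ^ 2 + ω + 1 = 0)
    (hinj : ∀ a b : F, algebraMap F K a + ω * algebraMap F K b = 0 → a = 0 ∧ b = 0)
    (φ : K →+* K) (hφω : φ ω = -1 - ω)
    (hφF : ∀ a : F, φ (algebraMap F K a) = algebraMap F K a) (A B : Matrix (Fin m) (Fin m) F) :
    sadj (T A B) * T A B = 1 ↔ adj φ (Psi ω A B) * Psi ω A B = 1 := by
  rw [sadj_T, T_mul, adj_Psi ω φ hφω hφF, Psi_mul ω hω, ← T_one, ← Psi_one (F := F) ω]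
  constructor
  · intro h
    obtain ⟨h1, h2⟩ := T_inj _ _ _ _ h
    rw [h1, h2]
  · intro h
    obtain ⟨h1, h2⟩ := Psi_inj ω hinj _ _ _ _ h
    rw [h1, h2]

theorem card_eq (ω : K) (hω : ω ^ 2 + ω + 1 = 0)
    (hinj : ∀ a b : F, algebraMap F K a + ω * algebraMap F K b = 0 → a = 0 ∧ b = 0)
    (hsurj : ∀ z : K, ∃ a b : F, z = algebraMap F K a + ω * algebraMap F K b)
    (φ : K →+* K) (hφω : φ ω = -1 - ω)
    (hφF : ∀ a : F, φ (algebraMap F K a) = algebraMap F K a) :
    Nat.card {M : Matrix (Fin m) (Fin m) K // adj φ M * M = 1} =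
      Nat.card {N : Matrix (Fin m ⊕ Fin m) (Fin m ⊕ Fin m) F //
        sadj N * N = 1 ∧ N * T 0 1 = T 0 1 * N} := by
  have h1 : Function.Bijective (fun p : {p : Matrix (Fin m) (Fin m) F × Matrix (Fin m) (Fin m) F //
      sadj (T p.1 p.2) * T p.1 p.2 = 1} =>
      (⟨T p.1.1 p.1.2, p.2, (comm_iff _).mpr ⟨_, _, rfl⟩⟩ :
        {N : Matrix (Fin m ⊕ Fin m) (Fin m ⊕ Fin m) F //
          sadj N * N = 1 ∧ N * T 0 1 = T 0 1 * N})) := by
    constructor
    · rintro ⟨⟨A, B⟩, hp⟩ ⟨⟨A', B'⟩, hp'⟩ h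
      have h2 := congrArg Subtype.val h
      obtain ⟨h3, h4⟩ := T_inj _ _ _ _ h2
      simp only at h3 h4
      subst h3
      subst h4
      rfl
    · rintro ⟨N, hN1, hN2⟩
      obtain ⟨A, B, rfl⟩ := (comm_iff N).mp hN2
      exact ⟨⟨(A, B), hN1⟩, rfl⟩
  have h2 : Function.Bijective (fun p : {p : Matrix (Fin m) (Fin m) F × Matrix (Fin m) (Fin m) F //
      sadj (T p.1 p.2) * T p.1 p.2 = 1} =>
      (⟨Psi ω p.1.1 p.1.2, (cond_iff ω hω hinj φ hφω hφF _ _).mp p.2⟩ :
        {M : Matrix (Fin m) (Fin m) K // adj φ M * M = 1})) := by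
    constructor
    · rintro ⟨⟨A, B⟩, hp⟩ ⟨⟨A', B'⟩, hp'⟩ h
      have h2 := congrArg Subtype.val h
      obtain ⟨h3, h4⟩ := Psi_inj ω hinj _ _ _ _ h2
      simp only at h3 h4
      subst h3
      subst h4
      rfl
    · rintro ⟨M, hM⟩
      obtain ⟨A, B, rfl⟩ := Psi_surj ω hsurj M
      exact ⟨⟨(A, B), (cond_iff ω hω hinj φ hφω hφF _ _).mpr hM⟩, rfl⟩
  rw [← Nat.card_eq_of_bijective _ h1, ← Nat.card_eq_of_bijective _ h2]

end abs

section conc
open Polynomial

universe u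
variable {F : Type u} [Field F] [Fintype F]

theorem three_ne_zero_of {q : ℕ} (hF : Fintype.card F = q) (hq : q % 3 = 2) : (3 : F) ≠ 0 := by
  intro h3
  obtain ⟨p, hp⟩ := CharP.exists F
  have hpp : Fact p.Prime := ⟨CharP.char_is_prime F p⟩
  obtain ⟨n, -, hn⟩ := FiniteField.card F p
  have h1 : ((3 : ℕ) : F) = 0 := by
    rw [Nat.cast_ofNat]
    exact h3
  have h2 := (CharP.cast_eq_zero_iff F p 3).mp h1
  have h4 : p = 3 := (Nat.prime_dvd_prime_iff_eq hpp.out Nat.prime_three).mp h2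
  rw [hF, h4] at hn
  have h5 : 3 ∣ q := by
    rw [hn]
    exact dvd_pow_self 3 n.ne_zero
  omega

theorem irred {q : ℕ} (hF : Fintype.card F = q) (hq : q % 3 = 2) :
    Irreducible (X ^ 2 + X + 1 : F[X]) := by
  have hdeg : (X ^ 2 + X + 1 : F[X]).natDegree = 2 := by compute_degree!
  apply Polynomial.irreducible_of_degree_le_three_of_not_isRoot
  · rw [hdeg]
    decide
  · intro a ha
    have h1 : a ^ 2 + a + 1 = 0 := by
      simpa [IsRoot] using ha
    have h3 : a ^ 3 = 1 := by linear_combination (a - 1) * h1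
    have ha0 : a ≠ 0 := by
      rintro rfl
      simp at h1
    have hq1 : a ^ (q - 1) = 1 := by
      rw [← hF]
      exact FiniteField.pow_card_sub_one_eq_one a ha0
    obtain ⟨k, hk⟩ : ∃ k, q - 1 = 3 * k + 1 := ⟨(q - 1) / 3, by omega⟩
    rw [hk, pow_succ, pow_mul, h3, one_pow, one_mul] at hq1
    rw [hq1] at h1
    apply three_ne_zero_of hF hq
    linear_combination h1

theorem exists_K {q : ℕ} (hF : Fintype.card F = q) (hq : q % 3 = 2) :
    ∃ (K : Type u) (_ : Field K) (_ : Fintype K) (_ : Algebra F K) (ω : K),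
      Fintype.card K = q ^ 2 ∧ ω ^ 2 + ω + 1 = 0 ∧
      (∀ a b : F, algebraMap F K a + ω * algebraMap F K b = 0 → a = 0 ∧ b = 0) ∧
      (∀ z : K, ∃ a b : F, z = algebraMap F K a + ω * algebraMap F K b) := by
  classical
  obtain ⟨f, hf⟩ : ∃ f : F[X], f = X ^ 2 + X + 1 := ⟨_, rfl⟩
  have hirr : Irreducible f := hf ▸ irred hF hq
  have hfact : Fact (Irreducible f) := ⟨hirr⟩
  have hdeg : f.natDegree = 2 := by
    rw [hf]
    compute_degree!
  have hmonic : f.Monic := by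
    rw [hf]
    monicity!
  have hω : (AdjoinRoot.root f) ^ 2 + AdjoinRoot.root f + 1 = 0 := by
    have h2 : ∀ g : F[X], g = X ^ 2 + X + 1 →
        eval₂ (AdjoinRoot.of f) (AdjoinRoot.root f) g =
          (AdjoinRoot.root f) ^ 2 + AdjoinRoot.root f + 1 := by
      intro g hg
      rw [hg]
      simp [eval₂_add, eval₂_pow, eval₂_X, eval₂_one]
    rw [← h2 f hf]
    exact AdjoinRoot.eval₂_root f
  have hinj : ∀ a b : F, algebraMap F (AdjoinRoot f) a +
      AdjoinRoot.root f * algebraMap F (AdjoinRoot f) b = 0 → a = 0 ∧ b = 0 := by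
    intro a b hab
    have h1 : AdjoinRoot.mk f (C a + X * C b) = 0 := by
      rw [map_add, map_mul, AdjoinRoot.mk_X, AdjoinRoot.mk_C, AdjoinRoot.mk_C]
      exact hab
    rw [AdjoinRoot.mk_eq_zero] at h1
    have h2 : (C a + X * C b : F[X]).natDegree < f.natDegree := by
      rw [hdeg]
      have : (C a + X * C b : F[X]).natDegree ≤ 1 := by compute_degree
      omega
    have h3 := Polynomial.eq_zero_of_dvd_of_natDegree_lt h1 h2
    have h4 := congrArg (fun g => g.coeff 0) h3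
    have h5 := congrArg (fun g => g.coeff 1) h3
    simp at h4 h5
    exact ⟨h4, h5⟩
  have hsurj : ∀ z : AdjoinRoot f, ∃ a b : F, z = algebraMap F (AdjoinRoot f) a +
      AdjoinRoot.root f * algebraMap F (AdjoinRoot f) b := by
    intro z
    obtain ⟨g, rfl⟩ := AdjoinRoot.mk_surjective z
    have h1 := Polynomial.modByMonic_add_div g f
    have h2 : (g %ₘ f).natDegree ≤ 1 := by
      have h3 := Polynomial.natDegree_modByMonic_lt g hmonic (by
        intro h
        rw [h] at hirr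
        exact not_irreducible_one hirr)
      omega
    have h4 := Polynomial.eq_X_add_C_of_natDegree_le_one h2
    refine ⟨(g %ₘ f).coeff 0, (g %ₘ f).coeff 1, ?_⟩
    have h5 : AdjoinRoot.mk f g = AdjoinRoot.mk f (g %ₘ f) := by
      conv_lhs => rw [← h1]
      rw [map_add, map_mul, AdjoinRoot.mk_self, zero_mul, add_zero]
    rw [h5]
    conv_lhs => rw [h4]
    rw [map_add, map_mul, AdjoinRoot.mk_X, AdjoinRoot.mk_C, AdjoinRoot.mk_C]
    rw [add_comm, mul_comm]
    rfl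
  have hbij : Function.Bijective (fun ab : F × F =>
      algebraMap F (AdjoinRoot f) ab.1 + AdjoinRoot.root f * algebraMap F (AdjoinRoot f) ab.2) := by
    constructor
    · rintro ⟨a, b⟩ ⟨a', b'⟩ h
      simp only at h
      have h1 := hinj (a - a') (b - b') (by
        rw [map_sub, map_sub]
        linear_combination h)
      rw [Prod.mk.injEq]
      exact ⟨sub_eq_zero.mp h1.1, sub_eq_zero.mp h1.2⟩
    · intro z
      obtain ⟨a, b, hab⟩ := hsurj z
      exact ⟨(a, b), hab.symm⟩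
  have hfin : Finite (AdjoinRoot f) := Finite.of_surjective _ hbij.2
  have hft : Fintype (AdjoinRoot f) := Fintype.ofFinite _
  refine ⟨AdjoinRoot f, inferInstance, hft, inferInstance, AdjoinRoot.root f, ?_, hω, hinj, hsurj⟩
  rw [← Nat.card_eq_fintype_card, ← Nat.card_eq_of_bijective _ hbij, Nat.card_prod,
    Nat.card_eq_fintype_card, hF, pow_two]

end conc

section cards

theorem card_GU_eq {K : Type*} [Field K] [Fintype K] {q m : ℕ} (φ : K →+* K)
    (hφ : ∀ x, φ x = x ^ q) :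
    Nat.card ↥(Cfsg.GU m K q) = Nat.card {M : Matrix (Fin m) (Fin m) K // adj φ M * M = 1} := by
  apply Nat.card_eq_of_bijective (fun g : ↥(Cfsg.GU m K q) =>
    (⟨((g : GL (Fin m) K) : Matrix (Fin m) (Fin m) K), (mem_GU_iff φ hφ _).mp g.2⟩ :
      {M : Matrix (Fin m) (Fin m) K // adj φ M * M = 1}))
  constructor
  · intro g h hgh
    have := congrArg Subtype.val hgh
    exact Subtype.ext (Units.ext this)
  · rintro ⟨M, hM⟩
    exact ⟨⟨⟨M, adj φ M, mul_eq_one_comm.mp hM, hM⟩, (mem_GU_iff φ hφ _).mpr hM⟩, rfl⟩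

theorem card_centralizer_eq {F : Type*} [Field F] {m : ℕ}
    (x₀ : Matrix.symplecticGroup (Fin m) F) :
    Nat.card ↥(Subgroup.centralizer ({x₀} : Set (Matrix.symplecticGroup (Fin m) F))) =
      Nat.card {N : Matrix (Fin m ⊕ Fin m) (Fin m ⊕ Fin m) F // sadj N * N = 1 ∧
        N * (x₀ : Matrix (Fin m ⊕ Fin m) (Fin m ⊕ Fin m) F) =
          (x₀ : Matrix (Fin m ⊕ Fin m) (Fin m ⊕ Fin m) F) * N} := by
  apply Nat.card_eq_of_bijective
    (fun c : ↥(Subgroup.centralizer ({x₀} : Set (Matrix.symplecticGroup (Fin m) F))) =>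
    (⟨(c.1 : Matrix (Fin m ⊕ Fin m) (Fin m ⊕ Fin m) F), (mem_symp_iff _).mp c.1.2, by
      have h1 := (Subgroup.mem_centralizer_iff.mp c.2) x₀ (Set.mem_singleton x₀)
      exact (congrArg Subtype.val h1).symm⟩ :
      {N : Matrix (Fin m ⊕ Fin m) (Fin m ⊕ Fin m) F // sadj N * N = 1 ∧
        N * (x₀ : Matrix (Fin m ⊕ Fin m) (Fin m ⊕ Fin m) F) =
          (x₀ : Matrix (Fin m ⊕ Fin m) (Fin m ⊕ Fin m) F) * N}))
  constructor
  · intro g h hgh
    have := congrArg Subtype.val hgh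
    exact Subtype.ext (Subtype.ext this)
  · rintro ⟨N, hN1, hN2⟩
    refine ⟨⟨⟨N, (mem_symp_iff N).mpr hN1⟩, ?_⟩, rfl⟩
    rw [Subgroup.mem_centralizer_iff]
    intro h hh
    rw [Set.mem_singleton_iff] at hh
    subst hh
    exact Subtype.ext hN2.symm

theorem card_centralizer_conj {G : Type*} [Group G] (x c : G) :
    Nat.card ↥(Subgroup.centralizer ({c * x * c⁻¹} : Set G)) =
      Nat.card ↥(Subgroup.centralizer ({x} : Set G)) := by
  apply Nat.card_congr
  refine (Equiv.subtypeEquiv (MulAut.conj c).toEquiv ?_).symm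
  intro a
  simp only [Subgroup.mem_centralizer_iff, Set.mem_singleton_iff, forall_eq,
    MulEquiv.toEquiv_eq_coe, EquivLike.coe_coe, MulAut.conj_apply]
  constructor
  · intro h
    calc c * x * c⁻¹ * (c * a * c⁻¹) = c * (x * a) * c⁻¹ := by group
      _ = c * (a * x) * c⁻¹ := by rw [h]
      _ = c * a * c⁻¹ * (c * x * c⁻¹) := by group
  · intro h
    have h2 : c * (x * a) * c⁻¹ = c * (a * x) * c⁻¹ := by
      calc c * (x * a) * c⁻¹ = c * x * c⁻¹ * (c * a * c⁻¹) := by group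
        _ = c * a * c⁻¹ * (c * x * c⁻¹) := h
        _ = c * (a * x) * c⁻¹ := by group
    exact mul_left_cancel (mul_right_cancel h2)

end cards

section final
open Polynomial UniqueFactorizationMonoid

universe u
variable {F : Type u} [Field F]

theorem charpoly_of_irred [DecidableEq F] {ι : Type*} [Fintype ι] [DecidableEq ι]
    (y : Matrix ι ι F) (f : F[X]) (hf : Irreducible f) (hfm : f.Monic) (hy : aeval y f = 0) :
    ∃ k : ℕ, y.charpoly = f ^ k := by
  refine ⟨Multiset.card (normalizedFactors y.charpoly), ?_⟩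
  have h1 : normalizedFactors y.charpoly =
      Multiset.replicate (Multiset.card (normalizedFactors y.charpoly)) f := by
    rw [Multiset.eq_replicate]
    refine ⟨rfl, ?_⟩
    intro P hP
    have hdvd := Cfsg.Agent.Lib.Helper40.RecipPoly.dvd_of_mem_nf_charpoly' y f hy P hP
    exact eq_of_monic_of_associated (Cfsg.Agent.S2568.monic_of_mem_nf _ P hP) hfm
      ((irreducible_of_normalized_factor P hP).associated_of_dvd hf hdvd)
  conv_lhs => rw [← Cfsg.Agent.S2568.prod_nf y.charpoly (Matrix.charpoly_monic y), h1]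
  rw [Multiset.prod_replicate]

theorem T_quad {m : ℕ} :
    T (0 : Matrix (Fin m) (Fin m) F) 1 * T 0 1 + T 0 1 + 1 = 0 := by
  rw [T_mul]
  unfold T
  rw [Matrix.fromBlocks_add, ← Matrix.fromBlocks_one, Matrix.fromBlocks_add,
    ← Matrix.fromBlocks_zero]
  congr 1 <;> simp

theorem T_symp {m : ℕ} : sadj (T (0 : Matrix (Fin m) (Fin m) F) 1) * T 0 1 = 1 := by
  rw [sadj_T, T_mul, ← T_one]
  congr 1 <;> simp

theorem card_centralizer [Fintype F] {q : ℕ} (hF : Fintype.card F = q) (hq : q % 3 = 2) {m : ℕ}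
    (x : Matrix.symplecticGroup (Fin m) F) (hx3 : x ^ 3 = 1)
    (hfpf : IsUnit ((x : Matrix (Fin m ⊕ Fin m) (Fin m ⊕ Fin m) F) - 1)) :
    ∃ (K : Type u) (_ : Field K) (_ : Fintype K), Fintype.card K = q ^ 2 ∧
      Nat.card ↥(Subgroup.centralizer ({x} : Set ↥(Matrix.symplecticGroup (Fin m) F))) =
        Nat.card ↥(Cfsg.GU m K q) := by
  classical
  obtain ⟨K, instK, instFK, instAlg, ω, hK, hω, hinj, hsurj⟩ := exists_K hF hq
  refine ⟨K, instK, instFK, hK, ?_⟩
  obtain ⟨φ, hφ, hφ2, -⟩ := Cfsg.Agent.Lib.Helper40.HermAdj.exists_phi hK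
  have hω3 : ω ^ 3 = 1 := by linear_combination (ω - 1) * hω
  have hφω : φ ω = -1 - ω := by
    obtain ⟨k, hk⟩ : ∃ k, q = 3 * k + 2 := ⟨q / 3, by omega⟩
    rw [hφ, hk, pow_add, pow_mul, hω3, one_pow, one_mul]
    linear_combination hω
  have hφF : ∀ a : F, φ (algebraMap F K a) = algebraMap F K a := by
    intro a
    rw [hφ, ← map_pow, ← hF, FiniteField.pow_card]
  -- the model element
  obtain ⟨x₀, hx₀⟩ : ∃ x₀ : Matrix.symplecticGroup (Fin m) F,
      (x₀ : Matrix (Fin m ⊕ Fin m) (Fin m ⊕ Fin m) F) = T 0 1 :=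
    ⟨⟨T 0 1, (mem_symp_iff _).mpr T_symp⟩, rfl⟩
  have hcard₀ : Nat.card ↥(Subgroup.centralizer ({x₀} : Set ↥(Matrix.symplecticGroup (Fin m) F))) =
      Nat.card ↥(Cfsg.GU m K q) := by
    rw [card_centralizer_eq x₀, card_GU_eq φ hφ, card_eq ω hω hinj hsurj φ hφω hφF, hx₀]
  -- conjugacy of x and x₀
  obtain ⟨p, hp⟩ := CharP.exists F
  have hpp : Fact p.Prime := ⟨CharP.char_is_prime F p⟩
  have h3 : (3 : F) ≠ 0 := three_ne_zero_of hF hq
  have hp3 : Nat.Coprime 3 p := by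
    rw [Nat.coprime_primes Nat.prime_three hpp.out]
    rintro rfl
    apply h3
    have := CharP.cast_eq_zero F 3
    rw [Nat.cast_ofNat] at this
    exact this
  obtain ⟨f, hf⟩ : ∃ f : F[X], f = X ^ 2 + X + 1 := ⟨_, rfl⟩
  have hirr : Irreducible f := hf ▸ irred hF hq
  have hdeg : f.natDegree = 2 := by
    rw [hf]
    compute_degree!
  have hmonic : f.Monic := by
    rw [hf]
    monicity!
  have hxq : aeval (x : Matrix (Fin m ⊕ Fin m) (Fin m ⊕ Fin m) F) f = 0 := by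
    rw [hf]
    simp only [map_add, map_pow, aeval_X, map_one]
    obtain ⟨u, hu⟩ := hfpf.exists_left_inv
    have h4 : (x : Matrix (Fin m ⊕ Fin m) (Fin m ⊕ Fin m) F) ^ 3 = 1 := by
      have := congrArg Subtype.val hx3
      exact this
    have h5 : ((x : Matrix (Fin m ⊕ Fin m) (Fin m ⊕ Fin m) F) - 1) *
        ((x : Matrix (Fin m ⊕ Fin m) (Fin m ⊕ Fin m) F) ^ 2 +
          (x : Matrix (Fin m ⊕ Fin m) (Fin m ⊕ Fin m) F) + 1) = 0 := by
      have h6 : ((x : Matrix (Fin m ⊕ Fin m) (Fin m ⊕ Fin m) F) - 1) *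
        ((x : Matrix (Fin m ⊕ Fin m) (Fin m ⊕ Fin m) F) ^ 2 +
          (x : Matrix (Fin m ⊕ Fin m) (Fin m ⊕ Fin m) F) + 1) =
          (x : Matrix (Fin m ⊕ Fin m) (Fin m ⊕ Fin m) F) ^ 3 - 1 := by noncomm_ring
      rw [h6, h4, sub_self]
    calc (x : Matrix (Fin m ⊕ Fin m) (Fin m ⊕ Fin m) F) ^ 2 +
          (x : Matrix (Fin m ⊕ Fin m) (Fin m ⊕ Fin m) F) + 1
        = u * (((x : Matrix (Fin m ⊕ Fin m) (Fin m ⊕ Fin m) F) - 1) *
          ((x : Matrix (Fin m ⊕ Fin m) (Fin m ⊕ Fin m) F) ^ 2 +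
          (x : Matrix (Fin m ⊕ Fin m) (Fin m ⊕ Fin m) F) + 1)) := by
          rw [← mul_assoc, hu, one_mul]
      _ = 0 := by rw [h5, mul_zero]
  have hx₀q : aeval (x₀ : Matrix (Fin m ⊕ Fin m) (Fin m ⊕ Fin m) F) f = 0 := by
    rw [hf, hx₀]
    simp only [map_add, map_pow, aeval_X, map_one]
    rw [pow_two]
    exact T_quad
  have hcp : ∀ y : Matrix (Fin m ⊕ Fin m) (Fin m ⊕ Fin m) F, aeval y f = 0 →
      y.charpoly = f ^ m := by
    intro y hy
    obtain ⟨k, hk⟩ := charpoly_of_irred y f hirr hmonic hy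
    have h1 := congrArg natDegree hk
    rw [Matrix.charpoly_natDegree_eq_dim, Fintype.card_sum, Fintype.card_fin,
      hmonic.natDegree_pow, hdeg] at h1
    have h2 : k = m := by omega
    rw [hk, h2]
  have hx₀3 : x₀ ^ 3 = 1 := by
    apply Subtype.ext
    show (x₀ : Matrix (Fin m ⊕ Fin m) (Fin m ⊕ Fin m) F) ^ 3 = 1
    rw [hx₀]
    have h := T_quad (F := F) (m := m)
    calc T (0 : Matrix (Fin m) (Fin m) F) 1 ^ 3
        = (T 0 1 - 1) * (T 0 1 * T 0 1 + T 0 1 + 1) + 1 := by noncomm_ring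
      _ = 1 := by rw [h, mul_zero, zero_add]
  have hconj : IsConj x x₀ := by
    apply Cfsg.Agent.S2389.result p m x x₀
      (Nat.Coprime.coprime_dvd_left (orderOf_dvd_of_pow_eq_one hx3) hp3)
      (Nat.Coprime.coprime_dvd_left (orderOf_dvd_of_pow_eq_one hx₀3) hp3)
    rw [hcp _ hxq, hcp _ hx₀q]
  obtain ⟨c, hc⟩ := isConj_iff.mp hconj
  rw [← hcard₀, ← hc, card_centralizer_conj]

end final

end Cfsg.Agent.Lib.Helper40.SpGU
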