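import Mathlib
import Cfsg.Prelude.Def_ClassicalGeometry
import Cfsg.Prelude.Def_GeometricClasses
import Cfsg.Agent.Lib.Helper40.HermAdj
import Cfsg.Agent.Lib.Helper40.SympConj
import Cfsg.Agent.Lib.Helper40.SpGU
import Cfsg.Agent.Lib.Helper45.GUCard
import Cfsg.Agent.Lib.Helper5.SpCard
import Cfsg.Agent.S2389

set_option autoImplicit false

namespace Cfsg.Agent.Lib.Helper40.FExt

open Matrix
open Cfsg.Agent.Lib.Helper40.HermAdj Cfsg.Agent.Lib.Helper40.SympConj

section bridge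
variable {F : Type*} [Field F] {m : ℕ}

theorem mem_spGL_iff (g : GL (Fin m ⊕ Fin m) F) :
    g ∈ Cfsg.spGL m F ↔ sadj g.val * g.val = 1 := by
  constructor
  · intro h
    apply eq_of_form
    intro u w
    have h1 : Cfsg.sympForm m F (g.val *ᵥ u) (g.val *ᵥ w) = Cfsg.sympForm m F u w := h u w
    unfold Cfsg.sympForm at h1
    rw [adjoint_rel] at h1
    rw [← Matrix.mulVec_mulVec, Matrix.one_mulVec]
    exact h1
  · intro h u w
    show Cfsg.sympForm m F (g.val *ᵥ u) (g.val *ᵥ w) = Cfsg.sympForm m F u w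
    unfold Cfsg.sympForm
    rw [adjoint_rel, Matrix.mulVec_mulVec w (sadj g.val) g.val, h, Matrix.one_mulVec]

theorem adj_eq_sadj (k k' : Matrix (Fin m ⊕ Fin m) (Fin m ⊕ Fin m) F)
    (h : ∀ u v, Cfsg.sympForm m F (k *ᵥ u) v = Cfsg.sympForm m F u (k' *ᵥ v)) : k' = sadj k := by
  apply eq_of_form
  intro u w
  have h1 := h u w
  unfold Cfsg.sympForm at h1
  rw [adjoint_rel] at h1
  exact h1.symm

theorem conj_cancel {n : Type*} [Fintype n] [DecidableEq n] (g : GL n F) (k : Matrix n n F) :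
    (g⁻¹).val * (g.val * k * (g⁻¹).val) * g.val = k := by
  have h1 : (g⁻¹).val * g.val = 1 := Units.inv_mul g
  calc (g⁻¹).val * (g.val * k * (g⁻¹).val) * g.val
      = ((g⁻¹).val * g.val) * k * ((g⁻¹).val * g.val) := by simp only [Matrix.mul_assoc]
    _ = k := by rw [h1, Matrix.one_mul, Matrix.mul_one]

end bridge

section struct
variable {F : Type*} [Field F] {m : ℕ}

theorem struct_K (h2 : (2 : F) ≠ 0) (K : Subalgebra F (Matrix (Fin m ⊕ Fin m) (Fin m ⊕ Fin m) F))
    (hK : Cfsg.Geo.IsFieldSubalgebra 2 K)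
    (hKf : Cfsg.Geo.IsAdjointClosedFor (Cfsg.sympForm m F) K)
    (hKns : ¬ Cfsg.Geo.IsSelfAdjointFor (Cfsg.sympForm m F) K) :
    ∃ (J : Matrix (Fin m ⊕ Fin m) (Fin m ⊕ Fin m) F) (l : F), sadj J = -J ∧ J * J = l • 1 ∧
      ¬ IsSquare l ∧ (∀ k, k ∈ K ↔ ∃ a b : F, k = a • 1 + b • J) ∧
      (∀ a b : F, a • (1 : Matrix (Fin m ⊕ Fin m) (Fin m ⊕ Fin m) F) + b • J = 0 →
        a = 0 ∧ b = 0) := by
  classical
  unfold Cfsg.Geo.IsSelfAdjointFor at hKns
  push Not at hKns
  obtain ⟨k, hk, u, v, huv⟩ := hKns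
  obtain ⟨k', hk', hadj⟩ := hKf k hk
  have hk'e : k' = sadj k := adj_eq_sadj k k' hadj
  subst hk'e
  have hne : sadj k ≠ k := by
    intro h
    apply huv
    rw [hadj u v, h]
  obtain ⟨J, hJdef⟩ : ∃ J, J = k - sadj k := ⟨_, rfl⟩
  have hJK : J ∈ K := hJdef ▸ K.sub_mem hk hk'
  have hJs : sadj J = -J := by
    rw [hJdef, sadj_sub, sadj_sadj, neg_sub]
  have hJ0 : J ≠ 0 := by
    intro h
    apply hne
    rw [hJdef, sub_eq_zero] at h
    exact h.symm
  have h1ne : (1 : Matrix (Fin m ⊕ Fin m) (Fin m ⊕ Fin m) F) ≠ 0 := by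
    intro h
    apply hJ0
    rw [← Matrix.mul_one J, h, Matrix.mul_zero]
  have hns : ∀ c : F, J ≠ c • 1 := by
    intro c hc
    have h3 : sadj J = J := by rw [hc, sadj_smul, sadj_one]
    rw [hJs] at h3
    apply hJ0
    have h4 : (2 : F) • J = 0 := by
      rw [two_smul]
      nth_rewrite 1 [← h3]
      exact neg_add_cancel J
    rcases smul_eq_zero.mp h4 with h | h
    · exact absurd h h2
    · exact h
  have hind : ∀ a b : F, a • (1 : Matrix (Fin m ⊕ Fin m) (Fin m ⊕ Fin m) F) + b • J = 0 →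
      a = 0 ∧ b = 0 := by
    intro a b hab
    by_cases hb : b = 0
    · subst hb
      rw [zero_smul, add_zero] at hab
      rcases smul_eq_zero.mp hab with h | h
      · exact ⟨h, rfl⟩
      · exact absurd h h1ne
    · exfalso
      apply hns (-(b⁻¹ * a))
      have h3 : b • J = -(a • 1) := eq_neg_of_add_eq_zero_right hab
      calc J = b⁻¹ • (b • J) := by rw [smul_smul, inv_mul_cancel₀ hb, one_smul]
        _ = (-(b⁻¹ * a)) • 1 := by rw [h3, smul_neg, smul_smul, neg_smul]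
  have hspan : ∀ k₁, k₁ ∈ K → ∃ a b : F, k₁ = a • 1 + b • J := by
    intro k₁ hk₁
    have hli : LinearIndependent F ![(1 : K), (⟨J, hJK⟩ : K)] := by
      rw [LinearIndependent.pair_iff]
      intro s t hst
      have h3 := congrArg Subtype.val hst
      exact hind s t (by simpa using h3)
    have hfin : Module.Finite F K :=
      Module.finite_of_finrank_pos (by rw [hK.finrank_eq]; norm_num)
    have hsp : Submodule.span F (Set.range ![(1 : K), (⟨J, hJK⟩ : K)]) = ⊤ :=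
      hli.span_eq_top_of_card_eq_finrank' (by rw [Fintype.card_fin, hK.finrank_eq])
    have hmem : (⟨k₁, hk₁⟩ : K) ∈ Submodule.span F (Set.range ![(1 : K), (⟨J, hJK⟩ : K)]) := by
      rw [hsp]
      exact Submodule.mem_top
    obtain ⟨c, hc⟩ := (Submodule.mem_span_range_iff_exists_fun F).mp hmem
    rw [Fin.sum_univ_two] at hc
    refine ⟨c 0, c 1, ?_⟩
    have h3 := congrArg Subtype.val hc
    simpa using h3.symm
  have hKiff : ∀ k₁, k₁ ∈ K ↔ ∃ a b : F, k₁ = a • 1 + b • J := by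
    intro k₁
    constructor
    · exact hspan k₁
    · rintro ⟨a, b, rfl⟩
      exact K.add_mem (K.smul_mem K.one_mem a) (K.smul_mem hJK b)
  obtain ⟨a, b, hab⟩ := hspan (J * J) (K.mul_mem hJK hJK)
  have hb0 : b = 0 := by
    have h3 : sadj (J * J) = J * J := by rw [sadj_mul, hJs, neg_mul_neg]
    rw [hab, sadj_add, sadj_smul, sadj_smul, sadj_one, hJs] at h3
    have h4 : (0 : F) • (1 : Matrix (Fin m ⊕ Fin m) (Fin m ⊕ Fin m) F) + (b + b) • J = 0 := by
      rw [zero_smul, zero_add, add_smul]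
      have h5 := add_left_cancel h3
      rw [smul_neg] at h5
      nth_rewrite 1 [← h5]
      exact neg_add_cancel _
    have h6 := (hind 0 (b + b) h4).2
    have h7 : (2 : F) * b = 0 := by
      rw [two_mul]
      exact h6
    rcases mul_eq_zero.mp h7 with h | h
    · exact absurd h h2
    · exact h
  subst hb0
  rw [zero_smul, add_zero] at hab
  refine ⟨J, a, hJs, hab, ?_, hKiff, hind⟩
  rintro ⟨μ, hμ⟩
  have h3 : (J - μ • 1) * (J + μ • 1) = 0 := by
    rw [sub_mul, mul_add, mul_add, hab, hμ]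
    simp only [Matrix.mul_smul, Matrix.smul_mul, Matrix.mul_one, Matrix.one_mul, smul_smul]
    abel
  have h4 : J - μ • 1 ≠ 0 := by
    intro h
    exact hns μ (sub_eq_zero.mp h)
  have h5 : J - μ • 1 ∈ K := K.sub_mem hJK (K.smul_mem K.one_mem μ)
  obtain ⟨y, hy, hy1⟩ := hK.inv _ h5 h4
  have hy2 : y * (J - μ • 1) = 1 := by
    rw [hK.comm y hy _ h5]
    exact hy1
  have h6 : J + μ • 1 = 0 := by
    calc J + μ • 1 = y * (J - μ • 1) * (J + μ • 1) := by rw [hy2, Matrix.one_mul]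
      _ = 0 := by rw [Matrix.mul_assoc, h3, Matrix.mul_zero]
  have h7 := hind μ 1 (by rw [one_smul, add_comm]; exact h6)
  exact one_ne_zero h7.2

theorem mem_normalizer (K : Subalgebra F (Matrix (Fin m ⊕ Fin m) (Fin m ⊕ Fin m) F))
    (J : Matrix (Fin m ⊕ Fin m) (Fin m ⊕ Fin m) F)
    (hKJ : ∀ k, k ∈ K ↔ ∃ a b : F, k = a • 1 + b • J) (g : GL (Fin m ⊕ Fin m) F) (ε : F)
    (hε : ε ≠ 0) (hg : g.val * J = ε • (J * g.val)) : g ∈ Cfsg.Geo.subalgebraNormalizer K := by
  show ∀ k, k ∈ K ↔ g.val * k * (g⁻¹).val ∈ K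
  have h1 : g.val * J * (g⁻¹).val = ε • J := by
    rw [hg, Matrix.smul_mul, Matrix.mul_assoc, Units.mul_inv, Matrix.mul_one]
  have h3 : (g⁻¹).val * J * g.val = ε⁻¹ • J := by
    have h4 := conj_cancel g J
    rw [h1, Matrix.mul_smul, Matrix.smul_mul] at h4
    calc (g⁻¹).val * J * g.val = ε⁻¹ • (ε • ((g⁻¹).val * J * g.val)) := by
          rw [smul_smul, inv_mul_cancel₀ hε, one_smul]
      _ = ε⁻¹ • J := by rw [h4]
  intro k
  constructor
  · intro hk
    obtain ⟨a, b, rfl⟩ := (hKJ k).mp hk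
    rw [hKJ]
    refine ⟨a, b * ε, ?_⟩
    rw [Matrix.mul_add, Matrix.add_mul, Matrix.mul_smul, Matrix.mul_smul, Matrix.smul_mul,
      Matrix.smul_mul, Matrix.mul_one, Units.mul_inv, h1, smul_smul]
  · intro hk
    obtain ⟨a, b, hab⟩ := (hKJ _).mp hk
    rw [hKJ]
    refine ⟨a, b * ε⁻¹, ?_⟩
    rw [← conj_cancel g k, hab, Matrix.mul_add, Matrix.add_mul, Matrix.mul_smul, Matrix.mul_smul,
      Matrix.smul_mul, Matrix.smul_mul, Matrix.mul_one, Units.inv_mul, h3, smul_smul]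

theorem normalizer_comm (h2 : (2 : F) ≠ 0)
    (K : Subalgebra F (Matrix (Fin m ⊕ Fin m) (Fin m ⊕ Fin m) F))
    (J : Matrix (Fin m ⊕ Fin m) (Fin m ⊕ Fin m) F) (l : F) (hJJ : J * J = l • 1)
    (hl : ¬ IsSquare l) (hKJ : ∀ k, k ∈ K ↔ ∃ a b : F, k = a • 1 + b • J)
    (hind : ∀ a b : F, a • (1 : Matrix (Fin m ⊕ Fin m) (Fin m ⊕ Fin m) F) + b • J = 0 →
      a = 0 ∧ b = 0)
    (g : GL (Fin m ⊕ Fin m) F) (hg : g ∈ Cfsg.Geo.subalgebraNormalizer K) :
    g.val * J = J * g.val ∨ g.val * J = -(J * g.val) := by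
  have hg' : ∀ k, k ∈ K ↔ g.val * k * (g⁻¹).val ∈ K := hg
  have hJK : J ∈ K := (hKJ J).mpr ⟨0, 1, by rw [zero_smul, zero_add, one_smul]⟩
  obtain ⟨a, b, hab⟩ := (hKJ _).mp ((hg' J).mp hJK)
  have hl0 : l ≠ 0 := by
    rintro rfl
    exact hl ⟨0, by rw [mul_zero]⟩
  have hsq : (g.val * J * (g⁻¹).val) * (g.val * J * (g⁻¹).val) = l • 1 := by
    calc (g.val * J * (g⁻¹).val) * (g.val * J * (g⁻¹).val)
        = g.val * J * ((g⁻¹).val * g.val) * J * (g⁻¹).val := by simp only [Matrix.mul_assoc]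
      _ = g.val * (J * J) * (g⁻¹).val := by
          rw [Units.inv_mul, Matrix.mul_one]
          simp only [Matrix.mul_assoc]
      _ = l • 1 := by rw [hJJ, Matrix.mul_smul, Matrix.smul_mul, Matrix.mul_one, Units.mul_inv]
  rw [hab] at hsq
  have h3 : (a • (1 : Matrix (Fin m ⊕ Fin m) (Fin m ⊕ Fin m) F) + b • J) * (a • 1 + b • J) =
      (a * a + b * b * l) • 1 + (2 * a * b) • J := by
    rw [add_mul, mul_add, mul_add]
    simp only [Matrix.mul_smul, Matrix.smul_mul, Matrix.mul_one, Matrix.one_mul, smul_smul, hJJ]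
    module
  rw [h3] at hsq
  obtain ⟨h5, h6⟩ := hind (a * a + b * b * l - l) (2 * a * b) (by
    rw [sub_smul, sub_add_eq_add_sub, hsq, sub_self])
  have hb : b ≠ 0 := by
    rintro rfl
    apply hl
    exact ⟨a, by linear_combination -h5⟩
  have ha : a = 0 := by
    rcases mul_eq_zero.mp h6 with h | h
    · rcases mul_eq_zero.mp h with h' | h'
      · exact absurd h' h2
      · exact h'
    · exact absurd h hb
  subst ha
  have hbb : (b - 1) * (b + 1) = 0 := by
    have h7 : (b * b - 1) * l = 0 := by linear_combination h5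
    rcases mul_eq_zero.mp h7 with h | h
    · linear_combination h
    · exact absurd h hl0
  rw [zero_smul, zero_add] at hab
  have h7 : g.val * J = b • (J * g.val) := by
    calc g.val * J = g.val * J * ((g⁻¹).val * g.val) := by rw [Units.inv_mul, Matrix.mul_one]
      _ = (g.val * J * (g⁻¹).val) * g.val := by simp only [Matrix.mul_assoc]
      _ = b • (J * g.val) := by rw [hab, Matrix.smul_mul]
  rcases mul_eq_zero.mp hbb with h | h
  · left
    rw [h7, sub_eq_zero.mp h, one_smul]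
  · right
    rw [h7, eq_neg_of_add_eq_zero_left h, neg_smul, one_smul]

end struct

section Tl
variable {F : Type*} [Field F] {m : ℕ}

/-- The block matrix of multiplication by `A + B√l`. -/
def Tl (l : F) (A B : Matrix (Fin m) (Fin m) F) : Matrix (Fin m ⊕ Fin m) (Fin m ⊕ Fin m) F :=
  Matrix.fromBlocks A (l • B) B A

theorem Tl_mul (l : F) (A B A' B' : Matrix (Fin m) (Fin m) F) :
    Tl l A B * Tl l A' B' = Tl l (A * A' + l • (B * B')) (A * B' + B * A') := by
  unfold Tl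
  rw [Matrix.fromBlocks_multiply]
  congr 1
  · rw [Matrix.smul_mul]
  · rw [Matrix.mul_smul, Matrix.smul_mul, smul_add]
  · rw [add_comm]
  · rw [Matrix.mul_smul, add_comm]

theorem Tl_one (l : F) : Tl l (1 : Matrix (Fin m) (Fin m) F) 0 = 1 := by
  unfold Tl
  rw [smul_zero, Matrix.fromBlocks_one]

theorem Tl_inj (l : F) (A B A' B' : Matrix (Fin m) (Fin m) F) (h : Tl l A B = Tl l A' B') :
    A = A' ∧ B = B' := by
  unfold Tl at h
  rw [Matrix.fromBlocks_inj] at h
  exact ⟨h.1, h.2.2.1⟩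

theorem sadj_Tl (l : F) (A B : Matrix (Fin m) (Fin m) F) :
    sadj (Tl l A B) = Tl l Aᵀ (-Bᵀ) := by
  unfold sadj Tl Matrix.J
  rw [Matrix.fromBlocks_transpose, Matrix.fromBlocks_neg, Matrix.fromBlocks_multiply,
    Matrix.fromBlocks_multiply]
  congr 1 <;> simp

theorem comm_iff (l : F) (N : Matrix (Fin m ⊕ Fin m) (Fin m ⊕ Fin m) F) :
    N * Tl l 0 1 = Tl l 0 1 * N ↔ ∃ A B, N = Tl l A B := by
  constructor
  · intro h
    refine ⟨N.toBlocks₁₁, N.toBlocks₂₁, ?_⟩
    rw [← Matrix.fromBlocks_toBlocks N] at h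
    unfold Tl at h
    rw [Matrix.fromBlocks_multiply, Matrix.fromBlocks_multiply, Matrix.fromBlocks_inj] at h
    obtain ⟨h1, h2, h3, h4⟩ := h
    simp only [mul_zero, mul_one, zero_add, zero_mul, one_mul, add_zero, Matrix.smul_mul,
      Matrix.mul_smul] at h1 h2 h3 h4
    conv_lhs => rw [← Matrix.fromBlocks_toBlocks N]
    unfold Tl
    congr 1
  · rintro ⟨A, B, rfl⟩
    rw [Tl_mul, Tl_mul]
    congr 1 <;> simp

theorem Tl_sq (l : F) :
    Tl l (0 : Matrix (Fin m) (Fin m) F) 1 * Tl l 0 1 = l • 1 := by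
  rw [Tl_mul]
  unfold Tl
  rw [← Matrix.fromBlocks_one, Matrix.fromBlocks_smul]
  congr 1 <;> simp

theorem sadj_Tl_J (l : F) :
    sadj (Tl l (0 : Matrix (Fin m) (Fin m) F) 1) = -Tl l 0 1 := by
  rw [sadj_Tl]
  unfold Tl
  rw [Matrix.fromBlocks_neg]
  congr 1 <;> simp

end Tl

section abs
variable {F : Type*} [Field F] {K : Type*} [Field K] [Algebra F K] {m : ℕ}

open Cfsg.Agent.Lib.Helper40.SpGU

theorem Psi_mul' (ω : K) (l : F) (hω : ω * ω = algebraMap F K l)
    (A B A' B' : Matrix (Fin m) (Fin m) F) :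
    Psi ω A B * Psi ω A' B' = Psi ω (A * A' + l • (B * B')) (A * B' + B * A') := by
  unfold Psi
  have e : ∀ M : Matrix (Fin m) (Fin m) F,
      M.map (algebraMap F K) = (algebraMap F K).mapMatrix M := fun M => rfl
  have e2 : ∀ M : Matrix (Fin m) (Fin m) F, (algebraMap F K).mapMatrix (l • M) =
      algebraMap F K l • (algebraMap F K).mapMatrix M := by
    intro M
    ext i j
    simp [RingHom.mapMatrix_apply, Matrix.map_apply, Matrix.smul_apply, smul_eq_mul, map_mul]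
  simp only [e, map_add, map_mul, e2]
  rw [add_mul, mul_add, mul_add, Matrix.smul_mul, Matrix.smul_mul, Matrix.mul_smul,
    Matrix.mul_smul, smul_smul, hω]
  module

theorem adj_Psi' (ω : K) (φ : K →+* K) (hφω : φ ω = -ω)
    (hφF : ∀ a : F, φ (algebraMap F K a) = algebraMap F K a) (A B : Matrix (Fin m) (Fin m) F) :
    adj φ (Psi ω A B) = Psi ω Aᵀ (-Bᵀ) := by
  ext i j
  rw [adj_apply]
  unfold Psi
  simp only [Matrix.add_apply, Matrix.map_apply, Matrix.smul_apply, smul_eq_mul, map_add, map_mul,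
    hφω, hφF, Matrix.transpose_apply, Matrix.neg_apply, map_neg]
  ring

theorem cond_iff' (ω : K) (l : F) (hω : ω * ω = algebraMap F K l)
    (hinj : ∀ a b : F, algebraMap F K a + ω * algebraMap F K b = 0 → a = 0 ∧ b = 0)
    (φ : K →+* K) (hφω : φ ω = -ω)
    (hφF : ∀ a : F, φ (algebraMap F K a) = algebraMap F K a) (A B : Matrix (Fin m) (Fin m) F) :
    sadj (Tl l A B) * Tl l A B = 1 ↔ adj φ (Psi ω A B) * Psi ω A B = 1 := by
  rw [sadj_Tl, Tl_mul, adj_Psi' ω φ hφω hφF, Psi_mul' ω l hω, ← Tl_one l,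
    ← Psi_one (F := F) ω]
  constructor
  · intro h
    obtain ⟨h1, h2⟩ := Tl_inj _ _ _ _ _ h
    rw [h1, h2]
  · intro h
    obtain ⟨h1, h2⟩ := Psi_inj ω hinj _ _ _ _ h
    rw [h1, h2]

theorem card_eq' (ω : K) (l : F) (hω : ω * ω = algebraMap F K l)
    (hinj : ∀ a b : F, algebraMap F K a + ω * algebraMap F K b = 0 → a = 0 ∧ b = 0)
    (hsurj : ∀ z : K, ∃ a b : F, z = algebraMap F K a + ω * algebraMap F K b)
    (φ : K →+* K) (hφω : φ ω = -ω)
    (hφF : ∀ a : F, φ (algebraMap F K a) = algebraMap F K a) :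
    Nat.card {M : Matrix (Fin m) (Fin m) K // adj φ M * M = 1} =
      Nat.card {N : Matrix (Fin m ⊕ Fin m) (Fin m ⊕ Fin m) F //
        sadj N * N = 1 ∧ N * Tl l 0 1 = Tl l 0 1 * N} := by
  have h1 : Function.Bijective (fun p : {p : Matrix (Fin m) (Fin m) F × Matrix (Fin m) (Fin m) F //
      sadj (Tl l p.1 p.2) * Tl l p.1 p.2 = 1} =>
      (⟨Tl l p.1.1 p.1.2, p.2, (comm_iff l _).mpr ⟨_, _, rfl⟩⟩ :
        {N : Matrix (Fin m ⊕ Fin m) (Fin m ⊕ Fin m) F //
          sadj N * N = 1 ∧ N * Tl l 0 1 = Tl l 0 1 * N})) := by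
    constructor
    · rintro ⟨⟨A, B⟩, hp⟩ ⟨⟨A', B'⟩, hp'⟩ h
      have h2 := congrArg Subtype.val h
      obtain ⟨h3, h4⟩ := Tl_inj _ _ _ _ _ h2
      simp only at h3 h4
      subst h3
      subst h4
      rfl
    · rintro ⟨N, hN1, hN2⟩
      obtain ⟨A, B, rfl⟩ := (comm_iff l N).mp hN2
      exact ⟨⟨(A, B), hN1⟩, rfl⟩
  have h2 : Function.Bijective (fun p : {p : Matrix (Fin m) (Fin m) F × Matrix (Fin m) (Fin m) F //
      sadj (Tl l p.1 p.2) * Tl l p.1 p.2 = 1} =>
      (⟨Psi ω p.1.1 p.1.2, (cond_iff' ω l hω hinj φ hφω hφF _ _).mp p.2⟩ :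
        {M : Matrix (Fin m) (Fin m) K // adj φ M * M = 1})) := by
    constructor
    · rintro ⟨⟨A, B⟩, hp⟩ ⟨⟨A', B'⟩, hp'⟩ h
      have h2 := congrArg Subtype.val h
      obtain ⟨h3, h4⟩ := Psi_inj ω hinj _ _ _ _ h2
      simp only at h3 h4
      subst h3
      subst h4
      rfl
    · rintro ⟨M, hM⟩
      obtain ⟨A, B, rfl⟩ := Psi_surj ω hsurj M
      exact ⟨⟨(A, B), (cond_iff' ω l hω hinj φ hφω hφF _ _).mpr hM⟩, rfl⟩
  rw [← Nat.card_eq_of_bijective _ h1, ← Nat.card_eq_of_bijective _ h2]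

end abs

section conc
open Polynomial

universe u
variable {F : Type u} [Field F] [Fintype F]

theorem two_ne_zero_of {q : ℕ} (hF : Fintype.card F = q) (hodd : Odd q) : (2 : F) ≠ 0 := by
  intro h
  obtain ⟨p, hp⟩ := CharP.exists F
  have hpp : Fact p.Prime := ⟨CharP.char_is_prime F p⟩
  obtain ⟨n, -, hn⟩ := FiniteField.card F p
  have h1 : ((2 : ℕ) : F) = 0 := by
    rw [Nat.cast_ofNat]
    exact h
  have h2 := (CharP.cast_eq_zero_iff F p 2).mp h1
  have h4 : p = 2 := (Nat.prime_dvd_prime_iff_eq hpp.out Nat.prime_two).mp h2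
  rw [hF, h4] at hn
  have h5 : 2 ∣ q := by
    rw [hn]
    exact dvd_pow_self 2 n.ne_zero
  rcases hodd with ⟨k, hk⟩
  omega

theorem euler {q : ℕ} (hF : Fintype.card F = q) (l : F) (hl : ¬ IsSquare l) (k : ℕ)
    (hk : q = 2 * k + 1) : l ^ k = -1 := by
  have h2 : (2 : F) ≠ 0 := two_ne_zero_of hF ⟨k, hk⟩
  have hc : ringChar F ≠ 2 := by
    intro h
    have h3 : ((ringChar F : ℕ) : F) = 0 := ringChar.Nat.cast_ringChar
    rw [h] at h3
    exact h2 (by exact_mod_cast h3)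
  have hl0 : l ≠ 0 := by
    rintro rfl
    exact hl ⟨0, by rw [mul_zero]⟩
  have hk2 : Fintype.card F / 2 = k := by
    rw [hF, hk]
    omega
  rcases FiniteField.pow_dichotomy hc hl0 with h | h
  · exact absurd ((FiniteField.isSquare_iff hc hl0).mpr h) hl
  · rw [hk2] at h
    exact h

theorem irred_sq (l : F) (hl : ¬ IsSquare l) : Irreducible (X ^ 2 - C l : F[X]) := by
  have hdeg : (X ^ 2 - C l : F[X]).natDegree = 2 := natDegree_X_pow_sub_C
  apply Polynomial.irreducible_of_degree_le_three_of_not_isRoot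
  · rw [hdeg]
    decide
  · intro a ha
    have h1 : a ^ 2 - l = 0 := by
      simpa [IsRoot] using ha
    exact hl ⟨a, by linear_combination -h1⟩

theorem exists_K' (l : F) (hl : ¬ IsSquare l) {q : ℕ} (hF : Fintype.card F = q) :
    ∃ (K : Type u) (_ : Field K) (_ : Fintype K) (_ : Algebra F K) (ω : K),
      Fintype.card K = q ^ 2 ∧ ω * ω = algebraMap F K l ∧
      (∀ a b : F, algebraMap F K a + ω * algebraMap F K b = 0 → a = 0 ∧ b = 0) ∧
      (∀ z : K, ∃ a b : F, z = algebraMap F K a + ω * algebraMap F K b) := by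
  classical
  obtain ⟨f, hf⟩ : ∃ f : F[X], f = X ^ 2 - C l := ⟨_, rfl⟩
  have hirr : Irreducible f := hf ▸ irred_sq l hl
  have hfact : Fact (Irreducible f) := ⟨hirr⟩
  have hdeg : f.natDegree = 2 := by
    rw [hf]
    exact natDegree_X_pow_sub_C
  have hmonic : f.Monic := by
    rw [hf]
    exact monic_X_pow_sub_C l (by norm_num)
  have hω : AdjoinRoot.root f * AdjoinRoot.root f = algebraMap F (AdjoinRoot f) l := by
    have h2 : ∀ g : F[X], g = X ^ 2 - C l →
        eval₂ (AdjoinRoot.of f) (AdjoinRoot.root f) g =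
          (AdjoinRoot.root f) ^ 2 - AdjoinRoot.of f l := by
      intro g hg
      rw [hg]
      simp [eval₂_sub, eval₂_pow, eval₂_X, eval₂_C]
    have h3 := AdjoinRoot.eval₂_root f
    rw [h2 f hf] at h3
    rw [← pow_two, AdjoinRoot.algebraMap_eq]
    exact sub_eq_zero.mp h3
  have hinj : ∀ a b : F, algebraMap F (AdjoinRoot f) a +
      AdjoinRoot.root f * algebraMap F (AdjoinRoot f) b = 0 → a = 0 ∧ b = 0 := by
    intro a b hab
    have h1 : AdjoinRoot.mk f (C a + X * C b) = 0 := by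
      rw [map_add, map_mul, AdjoinRoot.mk_X, AdjoinRoot.mk_C, AdjoinRoot.mk_C]
      exact hab
    rw [AdjoinRoot.mk_eq_zero] at h1
    have h2 : (C a + X * C b : F[X]).natDegree < f.natDegree := by
      rw [hdeg]
      have : (C a + X * C b : F[X]).natDegree ≤ 1 := by compute_degree
      omega
    have h3 := Polynomial.eq_zero_of_dvd_of_natDegree_lt h1 h2
    have h4 := congrArg (fun g => g.coeff 0) h3
    have h5 := congrArg (fun g => g.coeff 1) h3
    simp at h4 h5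
    exact ⟨h4, h5⟩
  have hsurj : ∀ z : AdjoinRoot f, ∃ a b : F, z = algebraMap F (AdjoinRoot f) a +
      AdjoinRoot.root f * algebraMap F (AdjoinRoot f) b := by
    intro z
    obtain ⟨g, rfl⟩ := AdjoinRoot.mk_surjective z
    have h1 := Polynomial.modByMonic_add_div g f
    have h2 : (g %ₘ f).natDegree ≤ 1 := by
      have h3 := Polynomial.natDegree_modByMonic_lt g hmonic (by
        intro h
        rw [h] at hirr
        exact not_irreducible_one hirr)
      omega
    have h4 := Polynomial.eq_X_add_C_of_natDegree_le_one h2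
    refine ⟨(g %ₘ f).coeff 0, (g %ₘ f).coeff 1, ?_⟩
    have h5 : AdjoinRoot.mk f g = AdjoinRoot.mk f (g %ₘ f) := by
      conv_lhs => rw [← h1]
      rw [map_add, map_mul, AdjoinRoot.mk_self, zero_mul, add_zero]
    rw [h5]
    conv_lhs => rw [h4]
    rw [map_add, map_mul, AdjoinRoot.mk_X, AdjoinRoot.mk_C, AdjoinRoot.mk_C]
    rw [add_comm, mul_comm]
    rfl
  have hbij : Function.Bijective (fun ab : F × F =>
      algebraMap F (AdjoinRoot f) ab.1 + AdjoinRoot.root f * algebraMap F (AdjoinRoot f) ab.2) := by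
    constructor
    · rintro ⟨a, b⟩ ⟨a', b'⟩ h
      simp only at h
      have h1 := hinj (a - a') (b - b') (by
        rw [map_sub, map_sub]
        linear_combination h)
      rw [Prod.mk.injEq]
      exact ⟨sub_eq_zero.mp h1.1, sub_eq_zero.mp h1.2⟩
    · intro z
      obtain ⟨a, b, hab⟩ := hsurj z
      exact ⟨(a, b), hab.symm⟩
  have hfin : Finite (AdjoinRoot f) := Finite.of_surjective _ hbij.2
  have hft : Fintype (AdjoinRoot f) := Fintype.ofFinite _
  refine ⟨AdjoinRoot f, inferInstance, hft, inferInstance, AdjoinRoot.root f, ?_, hω, hinj, hsurj⟩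
  rw [← Nat.card_eq_fintype_card, ← Nat.card_eq_of_bijective _ hbij, Nat.card_prod,
    Nat.card_eq_fintype_card, hF, pow_two]

/-- The order of the centralizer of the standard `J` in the symplectic group. -/
theorem card_std {q : ℕ} (hF : Fintype.card F = q) (hodd : Odd q) (l : F) (hl : ¬ IsSquare l)
    (m : ℕ) :
    Nat.card {N : Matrix (Fin m ⊕ Fin m) (Fin m ⊕ Fin m) F //
        sadj N * N = 1 ∧ N * Tl l 0 1 = Tl l 0 1 * N} =
      q ^ (m * (m - 1) / 2) *
        ∏ i ∈ Finset.range m, (if Even i then q ^ (i + 1) + 1 else q ^ (i + 1) - 1) := by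
  classical
  obtain ⟨K, instK, instFK, instAlg, ω, hK, hω, hinj, hsurj⟩ := exists_K' l hl hF
  obtain ⟨φ, hφ, hφ2, -⟩ := Cfsg.Agent.Lib.Helper40.HermAdj.exists_phi hK
  have hφF : ∀ a : F, φ (algebraMap F K a) = algebraMap F K a := by
    intro a
    rw [hφ, ← map_pow, ← hF, FiniteField.pow_card]
  have hφω : φ ω = -ω := by
    obtain ⟨k, hk⟩ := hodd
    rw [hφ, hk, pow_succ, pow_mul, pow_two, hω, ← map_pow, euler hF l hl k hk, map_neg, map_one]
    ring
  rw [← card_eq' ω l hω hinj hsurj φ hφω hφF, ← Cfsg.Agent.Lib.Helper40.SpGU.card_GU_eq φ hφ]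
  exact Cfsg.Agent.Lib.Helper45.GUCard.card_GU hK m

end conc

end Cfsg.Agent.Lib.Helper40.FExt
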