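import Mathlib
import Cfsg.Agent.Lib.Helper40.GFStmt

set_option autoImplicit false

namespace Cfsg.Agent.Lib.Helper40.GFAbs

open Cfsg.Agent.Lib.Helper40.GFStmt

universe u

theorem abs_main (hPsi : Psi.{u}) (hStart : Start.{u}) (hReduce : Reduce.{u})
    (hRank1 : Rank1.{u}) (hK3 : K3.{u}) (hK2Comm : K2Comm.{u}) (hK2Ext : K2Ext.{u})
    (hK2A : K2A.{u}) (hK2B : K2B.{u}) (hAlg2 : Alg2.{u}) (hR2 : R2Special.{u}) (hZ3 : Z3.{u})
    (hZ1B : Z1B.{u}) (hAll1A : All1A.{u}) (hAll1B : All1B.{u}) (hAll2 : All2.{u}) : Abs.{u} := by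
  intro F L _ _ _ _ k c hr hk hex τ hτ
  have hfd : FiniteDimensional F L := Module.Finite.of_finite
  have hFfin : Finite F := Finite.of_injective (algebraMap F L) (algebraMap F L).injective
  obtain ⟨g, hgM, hg⟩ := hex
  have hspec : HasSpecial c τ := by
    have hdata : ∃ g₁ ∈ c.M, ∃ w₁ v₁ : V k L, v₁ ≠ 0 ∧ rk g₁ w₁ v₁ = 1 := by
      obtain ⟨w, v, hv, hrk1, hrk2⟩ := hStart F L k g hg
      have key : ∀ n : ℕ, ∀ g ∈ c.M, ∀ w v : V k L, v ≠ 0 → rk g w v = n → 1 ≤ n →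
          n + 1 ≤ Module.finrank F L →
          ∃ g' ∈ c.M, ∃ w' v' : V k L, v' ≠ 0 ∧ rk g' w' v' = 1 := by
        intro n
        induction n using Nat.strong_induction_on with
        | _ n ih =>
          intro g hg w v hv hn h1 h2
          by_cases hn1 : n = 1
          · exact ⟨g, hg, w, v, hv, hn.trans hn1⟩
          · obtain ⟨g', hg', w', v', hv', h3, h4⟩ :=
              hReduce F L k c hr g hg w v hv (by omega) (by omega)
            exact ih (rk g' w' v') (by omega) g' hg' w' v' hv' rfl h3 (by omega)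
      exact key _ g hgM w v hv rfl hrk1 hrk2
    by_cases hk3 : 3 ≤ k
    · obtain ⟨g₁, hg₁, w₁, v₁, hv₁, hrk⟩ := hdata
      obtain ⟨e, b, p, he, hb, hbe, hT⟩ := hRank1 F L k c hr.two_le g₁ hg₁ w₁ v₁ hv₁ hrk
      obtain ⟨T, hTM, hT1, hT2⟩ := hT 1
      exact hK3 F L k c hk3 τ hτ v₁ e b p hv₁ he hb
        ⟨T, hTM, fun a => by rw [hT1 a, one_smul], hT2⟩
    · have hk2 : k = 2 := by omega
      subst hk2
      by_cases hr3 : 3 ≤ Module.finrank F L
      · obtain ⟨g₁, hg₁, w₁, v₁, hv₁, hrk⟩ := hdata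
        obtain ⟨e, b, p, he, hb, hbe, hT⟩ := hRank1 F L 2 c hr.two_le g₁ hg₁ w₁ v₁ hv₁ hrk
        obtain ⟨T, hTM, hT1, -⟩ := hT 1
        obtain ⟨ψ, hψ, hψv⟩ := hPsi L 2 v₁ le_rfl
        have h1 := hK2Comm F L 2 c v₁ ψ e b hv₁ hψv hbe
          ⟨T, hTM, fun a => by rw [hT1 a, one_smul]⟩
        have h2 := hK2Ext F L 2 c v₁ ψ e b hr hψv h1
        have h3 := hK2A F L 2 c v₁ ψ e b le_rfl hv₁ hψ hψv hbe h2
        exact hK2B F L 2 c hr hr3 τ hτ v₁ ψ e b hv₁ hψ hψv he hb hbe h3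
      · have hr2 : Module.finrank F L = 2 := by
          have := hr.two_le
          omega
        by_cases hF : (2 : F) ≠ 0 ∨ 2 < Nat.card F
        · obtain ⟨g₁, hg₁, w₁, v₁, hv₁, hrk⟩ := hdata
          obtain ⟨e, b, p, he, hb, hbe, hT⟩ := hRank1 F L 2 c hr.two_le g₁ hg₁ w₁ v₁ hv₁ hrk
          obtain ⟨f, d, hfd'⟩ := hAlg2 F L hr2 hF e b he hb hbe
          obtain ⟨T, hTM, hT1, -⟩ := hT f
          obtain ⟨ψ, hψ, hψv⟩ := hPsi L 2 v₁ le_rfl
          have hbe' : b (f • e) = 0 := by rw [map_smul, hbe, smul_zero]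
          have h1 := hK2Comm F L 2 c v₁ ψ (f • e) b hv₁ hψv hbe' ⟨T, hTM, hT1⟩
          have h2 := hK2Ext F L 2 c v₁ ψ (f • e) b hr hψv h1
          exact hR2 F L 2 c hr2 τ hτ v₁ ψ (nu b (f • e) d 1) hv₁ hψ hψv hfd' (h2 d 1)
        · have hcard : Nat.card F = 2 := by
            have h1 : 1 < Nat.card F := Finite.one_lt_card
            have h2 : ¬ 2 < Nat.card F := fun h => hF (Or.inr h)
            omega
          obtain ⟨h, hhM, hh, x₀, hx₀, hline⟩ := hZ3 F L c hcard hr2 g hgM hg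
          obtain ⟨v, ψ, ν, hv, hψ, hψv, hν, hin⟩ := hZ1B F L c hcard hr2 h hhM hh x₀ hx₀ hline
          exact hR2 F L 2 c hr2 τ hτ v ψ ν hv hψ hψv hν hin
  have hall1 : ∀ (z : V k L) (φ : V k L →ₗ[L] L), φ z = 0 → ∃ e ∈ c.M, IsFtv τ e z φ := by
    by_cases hk3 : 3 ≤ k
    · exact hAll1A F L k c hk3 τ hspec
    · have hk2 : k = 2 := by omega
      subst hk2
      exact hAll1B F L c hr τ hspec
  exact hAll2 F L k c hk τ hτ hall1

end Cfsg.Agent.Lib.Helper40.GFAbs
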