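import Mathlib
import Cfsg.Prelude.Def_ClassicalGeometry
import Cfsg.Agent.S0752
import Cfsg.Agent.Lib.Helper13.SympMat
import Cfsg.Agent.Lib.Helper40.FExt

set_option autoImplicit false

namespace Cfsg.Agent.Lib.Helper40.KStr

open Cfsg.Agent.Lib.Helper13.SympMat Cfsg.Agent.Lib.Helper40.SympConj
open scoped Matrix

section dual
variable {F L : Type*} [Field F] [Field L] [Algebra F L] [FiniteDimensional F L]

omit [FiniteDimensional F L] in
theorem tau_inj (τ : L →ₗ[F] F) (hτ : τ ≠ 0) (c c' : L) (h : ∀ a, τ (a * c) = τ (a * c')) :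
    c = c' := by
  by_contra hne
  have hd : c - c' ≠ 0 := sub_ne_zero.mpr hne
  apply hτ
  ext a
  have h1 := h (a * (c - c')⁻¹)
  have h2 : τ (a * (c - c')⁻¹ * (c - c')) = 0 := by rw [mul_sub, map_sub, h1, sub_self]
  rw [mul_assoc, inv_mul_cancel₀ hd, mul_one] at h2
  rw [h2]
  rfl

theorem exists_rep (τ : L →ₗ[F] F) (hτ : τ ≠ 0) (φ : L →ₗ[F] F) :
    ∃ c : L, ∀ a, φ a = τ (a * c) := by
  obtain ⟨Ψ, hΨ⟩ : ∃ Ψ : L →ₗ[F] (L →ₗ[F] F), ∀ c a, Ψ c a = τ (a * c) :=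
    ⟨{ toFun := fun c => τ ∘ₗ (LinearMap.mulRight F c)
       map_add' := by
         intro c c'
         ext a
         simp [mul_add]
       map_smul' := by
         intro s c
         ext a
         simp }, fun c a => rfl⟩
  have hinj : Function.Injective Ψ := by
    intro c c' hcc
    apply tau_inj τ hτ
    intro a
    rw [← hΨ, ← hΨ, hcc]
  have hsurj : Function.Surjective Ψ :=
    (LinearMap.injective_iff_surjective_of_finrank_eq_finrank
      (Subspace.dual_finrank_eq (K := F) (V := L)).symm).mp hinj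
  obtain ⟨c, hc⟩ := hsurj φ
  exact ⟨c, fun a => by rw [← hΨ, hc]⟩

end dual

section main
variable {F L V : Type*} [Field F] [Field L] [Algebra F L] [FiniteDimensional F L]
  [AddCommGroup V] [Module F V] [Module L V] [IsScalarTower F L V] [FiniteDimensional L V]

/-- A self-adjoint, alternating action of an extension field: the form is the `τ`-image of an
`L`-bilinear alternating form, which has a Darboux basis over `L`. -/
theorem exists_darboux (f : LinearMap.BilinForm F V) (hnd : ∀ u, (∀ v, f u v = 0) → u = 0)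
    (hsa : ∀ (a : L) (u v : V), f (a • u) v = f u (a • v))
    (halt : ∀ (a : L) (v : V), f (a • v) v = 0)
    (τ : L →ₗ[F] F) (hτ : τ ≠ 0) :
    ∃ (m : ℕ) (Φ : V ≃ₗ[L] (Fin m ⊕ Fin m → L)),
      ∀ (a : L) (u v : V), f (a • u) v = τ (a * form m L (Φ u) (Φ v)) := by
  classical
  have hτ' : -τ ≠ 0 := neg_ne_zero.mpr hτ
  have hex : ∀ u v : V, ∃ c : L, ∀ a : L, f (a • u) v = (-τ) (a * c) := by
    intro u v
    obtain ⟨φ, hφ⟩ : ∃ φ : L →ₗ[F] F, ∀ a, φ a = f (a • u) v :=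
      ⟨{ toFun := fun a => f (a • u) v
         map_add' := by
           intro a b
           simp [add_smul]
         map_smul' := by
           intro s a
           simp [smul_assoc] }, fun a => rfl⟩
    obtain ⟨c, hc⟩ := exists_rep (-τ) hτ' φ
    exact ⟨c, fun a => by rw [← hφ, hc]⟩
  choose B hB using hex
  have huniq : ∀ c c' : L, (∀ a, (-τ) (a * c) = (-τ) (a * c')) → c = c' := tau_inj (-τ) hτ'
  have hB_add_left : ∀ u u' v, B (u + u') v = B u v + B u' v := by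
    intro u u' v
    apply huniq
    intro a
    rw [← hB, smul_add, map_add, LinearMap.add_apply, hB, hB, mul_add, map_add]
  have hB_smul_left : ∀ (c : L) u v, B (c • u) v = c * B u v := by
    intro c u v
    apply huniq
    intro a
    rw [← hB, smul_smul, hB, mul_assoc]
  have hB_add_right : ∀ u v v', B u (v + v') = B u v + B u v' := by
    intro u v v'
    apply huniq
    intro a
    rw [← hB, map_add, hB, hB, mul_add, map_add]
  have hB_smul_right : ∀ (c : L) u v, B u (c • v) = c * B u v := by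
    intro c u v
    apply huniq
    intro a
    rw [← hB, ← hsa, smul_smul, hB, mul_comm c a, mul_assoc]
  obtain ⟨Bf, hBf⟩ : ∃ Bf : LinearMap.BilinForm L V, ∀ u v, Bf u v = B u v :=
    ⟨LinearMap.mk₂ L B hB_add_left (fun c u v => by rw [hB_smul_left, smul_eq_mul]) hB_add_right
      (fun c u v => by rw [hB_smul_right, smul_eq_mul]), fun u v => rfl⟩
  have hBalt : Bf.IsAlt := by
    intro v
    rw [hBf]
    apply huniq
    intro a
    rw [← hB, halt, mul_zero, map_zero]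
  have hBnd : ∀ u, (∀ v, Bf u v = 0) → u = 0 := by
    intro u hu
    apply hnd
    intro v
    have h1 := hB u v 1
    rw [one_smul, one_mul, ← hBf, hu v, map_zero] at h1
    exact h1
  obtain ⟨m, k', b, h11, h12, h13, h14⟩ := Cfsg.Agent.S0752.result Bf hBalt
  have hk : k' = 0 := by
    by_contra hk
    obtain ⟨k, rfl⟩ := Nat.exists_eq_succ_of_ne_zero hk
    exact b.ne_zero (Sum.inr 0) (hBnd _ (h14 0))
  subst hk
  obtain ⟨b', hb'⟩ : ∃ b' : Module.Basis (Fin m ⊕ Fin m) L V, ∀ x, b' x = b (Sum.inl x) :=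
    ⟨b.reindex (Equiv.sumEmpty (Fin m ⊕ Fin m) (Fin 0)), fun x => by
      rw [Module.Basis.reindex_apply]
      rfl⟩
  refine ⟨m, b'.equivFun, ?_⟩
  have h1 : Bf = -((form m L).comp (b'.equivFun : V →ₗ[L] (Fin m ⊕ Fin m → L))
      (b'.equivFun : V →ₗ[L] (Fin m ⊕ Fin m → L))) := by
    apply LinearMap.BilinForm.ext_basis b'
    intro x y
    rw [LinearMap.neg_apply, LinearMap.neg_apply, LinearMap.BilinForm.comp_apply]
    simp only [LinearEquiv.coe_coe]
    have hsingle : ∀ z, b'.equivFun (b' z) = Pi.single z (1 : L) := by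
      intro z
      ext j
      rw [Module.Basis.equivFun_self, Pi.single_apply]
      simp [eq_comm]
    rw [hsingle, hsingle, form, Matrix.toBilin'_single, hb', hb']
    rcases x with i | i <;> rcases y with j | j
    · rw [h12]
      simp [Matrix.J]
    · rw [h11]
      simp [Matrix.J, Matrix.one_apply]
    · rw [← hBalt.neg_eq, h11]
      simp [Matrix.J, Matrix.one_apply, eq_comm]
    · rw [h13]
      simp [Matrix.J]
  have hBeq : ∀ u v, Bf u v = -form m L (b'.equivFun u) (b'.equivFun v) := by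
    intro u v
    rw [h1]
    rfl
  intro a u v
  rw [hB, ← hBf, hBeq, mul_neg, map_neg, LinearMap.neg_apply, neg_neg]

end main

section coords
universe u
variable {F : Type u} [Field F]

/-- A field subalgebra of matrices, as an abstract field with an embedding. -/
theorem exists_field {n : Type} [Fintype n] [DecidableEq n] (k : ℕ) (hk : 2 ≤ k)
    (K : Subalgebra F (Matrix n n F)) (hK : Cfsg.Geo.IsFieldSubalgebra k K) :
    ∃ (L : Type u) (_ : Field L) (_ : Algebra F L) (ι : L →ₐ[F] Matrix n n F),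
      (∀ a, ι a ∈ K) ∧ (∀ x ∈ K, ∃ a, ι a = x) ∧ Function.Injective ι ∧
        Module.finrank F L = k := by
  have hne : (0 : ↥K) ≠ 1 := by
    intro h01
    have hsub : Subsingleton ↥K := ⟨fun a b => by
      rw [← mul_one a, ← mul_one b, ← h01, mul_zero, mul_zero]⟩
    have h0 : Module.finrank F ↥K = 0 := Module.finrank_zero_of_subsingleton
    have h1 := hK.finrank_eq
    omega
  have hfld : IsField ↥K :=
    { exists_pair_ne := ⟨0, 1, hne⟩
      mul_comm := fun a b => Subtype.ext (hK.comm a.1 a.2 b.1 b.2)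
      mul_inv_cancel := fun {a} ha => by
        obtain ⟨y, hy, hxy⟩ := hK.inv a.1 a.2 (fun h => ha (Subtype.ext h))
        exact ⟨⟨y, hy⟩, Subtype.ext hxy⟩ }
  exact ⟨↥K, hfld.toField, (inferInstance : Algebra F ↥K), K.val, fun a => a.2,
    fun x hx => ⟨⟨x, hx⟩, rfl⟩, Subtype.val_injective, hK.finrank_eq⟩

theorem exists_coords {d : ℕ} {L : Type*} [Field L] [Algebra F L] [FiniteDimensional F L]
    (ι : L →ₐ[F] Matrix (Fin d ⊕ Fin d) (Fin d ⊕ Fin d) F)
    (hsa : ∀ a u v, Cfsg.sympForm d F (ι a *ᵥ u) v = Cfsg.sympForm d F u (ι a *ᵥ v))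
    (halt : ∀ a v, Cfsg.sympForm d F (ι a *ᵥ v) v = 0)
    (τ : L →ₗ[F] F) (hτ : τ ≠ 0) :
    ∃ (m : ℕ) (Φ : (Fin d ⊕ Fin d → F) ≃ₗ[F] (Fin m ⊕ Fin m → L)),
      (∀ a v, Φ (ι a *ᵥ v) = a • Φ v) ∧
      (∀ a u v, Cfsg.sympForm d F (ι a *ᵥ u) v =
        τ (a * Cfsg.sympForm m L (Φ u) (Φ v))) := by
  letI modL : Module L (Fin d ⊕ Fin d → F) :=
    Module.compHom (Fin d ⊕ Fin d → F) (ι : L →+* Matrix (Fin d ⊕ Fin d) (Fin d ⊕ Fin d) F)
  have hsmul : ∀ (a : L) (v : Fin d ⊕ Fin d → F), a • v = ι a *ᵥ v := fun a v => rfl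
  haveI : IsScalarTower F L (Fin d ⊕ Fin d → F) := ⟨fun s a v => by
    rw [hsmul, hsmul, map_smul, Matrix.smul_mulVec]⟩
  haveI : FiniteDimensional L (Fin d ⊕ Fin d → F) :=
    Module.Finite.of_restrictScalars_finite F L (Fin d ⊕ Fin d → F)
  obtain ⟨m, Φ, hΦ⟩ := exists_darboux (F := F) (L := L) (form d F)
    (fun u hu => (form_nondeg (F := F) d).1 u hu)
    (fun a u v => by rw [form_apply, form_apply, hsmul, hsmul]; exact hsa a u v)
    (fun a v => by rw [form_apply, hsmul]; exact halt a v) τ hτ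
  refine ⟨m, Φ.restrictScalars F, fun a v => ?_, fun a u v => ?_⟩
  · exact Φ.map_smul a v
  · have h1 := hΦ a u v
    rw [form_apply, form_apply, hsmul] at h1
    exact h1

theorem ext_mulVec {R : Type*} [Field R] {n : Type*} [Fintype n] [DecidableEq n]
    (A B : Matrix n n R) (h : ∀ v, A *ᵥ v = B *ᵥ v) : A = B := by
  apply Matrix.toLin'.injective
  apply LinearMap.ext
  intro v
  rw [Matrix.toLin'_apply, Matrix.toLin'_apply, h]

section rho
variable {d m : ℕ} {L : Type*} [Field L] [Algebra F L]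

/-- Transport of an `L`-matrix along coordinates. -/
noncomputable def rho (Φ : (Fin d ⊕ Fin d → F) ≃ₗ[F] (Fin m ⊕ Fin m → L))
    (M : Matrix (Fin m ⊕ Fin m) (Fin m ⊕ Fin m) L) :
    Matrix (Fin d ⊕ Fin d) (Fin d ⊕ Fin d) F :=
  LinearMap.toMatrix'
    (Φ.symm.toLinearMap ∘ₗ ((Matrix.toLin' M).restrictScalars F) ∘ₗ Φ.toLinearMap)

theorem rho_mulVec (Φ : (Fin d ⊕ Fin d → F) ≃ₗ[F] (Fin m ⊕ Fin m → L))
    (M : Matrix (Fin m ⊕ Fin m) (Fin m ⊕ Fin m) L) (v : Fin d ⊕ Fin d → F) :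
    rho Φ M *ᵥ v = Φ.symm (M *ᵥ Φ v) := by
  unfold rho
  rw [← Matrix.toLin'_apply, Matrix.toLin'_toMatrix']
  rfl

theorem rho_mul (Φ : (Fin d ⊕ Fin d → F) ≃ₗ[F] (Fin m ⊕ Fin m → L))
    (M N : Matrix (Fin m ⊕ Fin m) (Fin m ⊕ Fin m) L) :
    rho Φ (M * N) = rho Φ M * rho Φ N := by
  apply ext_mulVec
  intro v
  rw [← Matrix.mulVec_mulVec, rho_mulVec, rho_mulVec, rho_mulVec, LinearEquiv.apply_symm_apply,
    Matrix.mulVec_mulVec]

theorem rho_one (Φ : (Fin d ⊕ Fin d → F) ≃ₗ[F] (Fin m ⊕ Fin m → L)) : rho Φ 1 = 1 := by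
  apply ext_mulVec
  intro v
  rw [rho_mulVec, Matrix.one_mulVec, Matrix.one_mulVec, LinearEquiv.symm_apply_apply]

theorem rho_neg (Φ : (Fin d ⊕ Fin d → F) ≃ₗ[F] (Fin m ⊕ Fin m → L))
    (M : Matrix (Fin m ⊕ Fin m) (Fin m ⊕ Fin m) L) : rho Φ (-M) = -rho Φ M := by
  apply ext_mulVec
  intro v
  rw [rho_mulVec, Matrix.neg_mulVec, Matrix.neg_mulVec, rho_mulVec, map_neg]

theorem rho_inj (Φ : (Fin d ⊕ Fin d → F) ≃ₗ[F] (Fin m ⊕ Fin m → L))
    (M N : Matrix (Fin m ⊕ Fin m) (Fin m ⊕ Fin m) L) (h : rho Φ M = rho Φ N) : M = N := by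
  apply ext_mulVec
  intro w
  have h1 : rho Φ M *ᵥ (Φ.symm w) = rho Φ N *ᵥ (Φ.symm w) := by rw [h]
  rw [rho_mulVec, rho_mulVec, LinearEquiv.apply_symm_apply] at h1
  exact Φ.symm.injective h1

theorem rho_comm (Φ : (Fin d ⊕ Fin d → F) ≃ₗ[F] (Fin m ⊕ Fin m → L))
    (ι : L →ₐ[F] Matrix (Fin d ⊕ Fin d) (Fin d ⊕ Fin d) F)
    (hΦ : ∀ a v, Φ (ι a *ᵥ v) = a • Φ v)
    (M : Matrix (Fin m ⊕ Fin m) (Fin m ⊕ Fin m) L) (a : L) :
    rho Φ M * ι a = ι a * rho Φ M := by
  apply ext_mulVec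
  intro v
  rw [← Matrix.mulVec_mulVec, ← Matrix.mulVec_mulVec, rho_mulVec, rho_mulVec, hΦ]
  apply Φ.injective
  rw [hΦ, LinearEquiv.apply_symm_apply, LinearEquiv.apply_symm_apply, Matrix.mulVec_smul]

theorem rho_symp (Φ : (Fin d ⊕ Fin d → F) ≃ₗ[F] (Fin m ⊕ Fin m → L))
    (ι : L →ₐ[F] Matrix (Fin d ⊕ Fin d) (Fin d ⊕ Fin d) F) (τ : L →ₗ[F] F)
    (hf : ∀ a u v, Cfsg.sympForm d F (ι a *ᵥ u) v = τ (a * Cfsg.sympForm m L (Φ u) (Φ v)))
    (M : Matrix (Fin m ⊕ Fin m) (Fin m ⊕ Fin m) L)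
    (hM : M ∈ Matrix.symplecticGroup (Fin m) L) : sadj (rho Φ M) * rho Φ M = 1 := by
  apply (Cfsg.Agent.Lib.Helper40.SympConj.mem_symp_iff _).mp
  rw [Cfsg.Agent.Lib.Helper13.SympMat.mem_symp_iff]
  intro u v
  have h1 := hf 1 (rho Φ M *ᵥ u) (rho Φ M *ᵥ v)
  have h2 := hf 1 u v
  rw [map_one, Matrix.one_mulVec] at h1 h2
  rw [form_apply, form_apply, h1, h2, rho_mulVec, rho_mulVec, LinearEquiv.apply_symm_apply,
    LinearEquiv.apply_symm_apply]
  have h3 := (Cfsg.Agent.Lib.Helper13.SympMat.mem_symp_iff m M).mp hM (Φ u) (Φ v)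
  rw [form_apply, form_apply] at h3
  rw [h3]

theorem mem_normalizer_of_comm {n : Type} [Fintype n] [DecidableEq n]
    (K : Subalgebra F (Matrix n n F)) (g : GL n F)
    (h : ∀ x ∈ K, g.val * x = x * g.val) : g ∈ Cfsg.Geo.subalgebraNormalizer K := by
  show ∀ k : Matrix n n F, k ∈ K ↔ g.val * k * (g⁻¹).val ∈ K
  intro k
  have hc : ∀ x ∈ K, g.val * x * (g⁻¹).val = x := by
    intro x hx
    rw [h x hx, Matrix.mul_assoc, Units.mul_inv, Matrix.mul_one]
  constructor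
  · intro hk
    rw [hc k hk]
    exact hk
  · intro hk
    have h1 := Cfsg.Agent.Lib.Helper40.FExt.conj_cancel g k
    have h2 : (g⁻¹).val * (g.val * k * (g⁻¹).val) * g.val = g.val * k * (g⁻¹).val := by
      rw [Matrix.mul_assoc (g⁻¹).val, ← h _ hk, ← Matrix.mul_assoc (g⁻¹).val, Units.inv_mul,
        Matrix.one_mul]
    rw [h1] at h2
    rw [h2]
    exact hk

/-- The symplectic group over the extension field embeds in the normalizer. -/
theorem card_dvd (K : Subalgebra F (Matrix (Fin d ⊕ Fin d) (Fin d ⊕ Fin d) F))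
    (Φ : (Fin d ⊕ Fin d → F) ≃ₗ[F] (Fin m ⊕ Fin m → L))
    (ι : L →ₐ[F] Matrix (Fin d ⊕ Fin d) (Fin d ⊕ Fin d) F)
    (hKι : ∀ x ∈ K, ∃ a, ι a = x)
    (hΦ : ∀ a v, Φ (ι a *ᵥ v) = a • Φ v) (τ : L →ₗ[F] F)
    (hf : ∀ a u v, Cfsg.sympForm d F (ι a *ᵥ u) v = τ (a * Cfsg.sympForm m L (Φ u) (Φ v))) :
    Nat.card (Matrix.symplecticGroup (Fin m) L) ∣
      Nat.card ↥(Cfsg.Geo.subalgebraNormalizer K ⊓ Cfsg.spGL d F) := by
  have hex : ∀ M : Matrix.symplecticGroup (Fin m) L,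
      ∃ g : ↥(Cfsg.Geo.subalgebraNormalizer K ⊓ Cfsg.spGL d F), g.1.val = rho Φ M.1 := by
    intro M
    have hs := rho_symp Φ ι τ hf M.1 M.2
    refine ⟨⟨⟨rho Φ M.1, sadj (rho Φ M.1), mul_eq_one_comm.mp hs, hs⟩,
      Subgroup.mem_inf.mpr ⟨?_, (Cfsg.Agent.Lib.Helper40.FExt.mem_spGL_iff _).mpr hs⟩⟩, rfl⟩
    apply mem_normalizer_of_comm
    intro x hx
    obtain ⟨a, rfl⟩ := hKι x hx
    exact rho_comm Φ ι hΦ M.1 a
  choose ψ hψ using hex
  have hmul : ∀ M N, ψ (M * N) = ψ M * ψ N := by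
    intro M N
    apply Subtype.ext
    apply Units.ext
    rw [hψ, Subgroup.coe_mul, Units.val_mul, hψ, hψ, ← rho_mul]
    rfl
  apply Subgroup.card_dvd_of_injective (MonoidHom.mk' ψ hmul)
  intro M N hMN
  have h1 : ψ M = ψ N := hMN
  have h2 : rho Φ M.1 = rho Φ N.1 := by rw [← hψ, ← hψ, h1]
  exact Subtype.ext (rho_inj Φ _ _ h2)

theorem J_map (σ : L →+* L) : (Matrix.J (Fin m) L).map σ = Matrix.J (Fin m) L := by
  ext (i | i) (j | j) <;> simp [Matrix.J, Matrix.one_apply, apply_ite]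

theorem sympForm_map (σ : L →+* L) (u v : Fin m ⊕ Fin m → L) :
    Cfsg.sympForm m L (σ ∘ u) (σ ∘ v) = σ (Cfsg.sympForm m L u v) := by
  unfold Cfsg.sympForm
  rw [RingHom.map_dotProduct]
  congr 1
  funext i
  rw [Function.comp_apply, RingHom.map_mulVec, J_map]

/-- Transport of a field automorphism (acting on coordinates). -/
noncomputable def sig (Φ : (Fin d ⊕ Fin d → F) ≃ₗ[F] (Fin m ⊕ Fin m → L)) (σ : L ≃ₐ[F] L) :
    Matrix (Fin d ⊕ Fin d) (Fin d ⊕ Fin d) F :=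
  LinearMap.toMatrix'
    (Φ.symm.toLinearMap ∘ₗ (σ.toLinearMap.compLeft (Fin m ⊕ Fin m)) ∘ₗ Φ.toLinearMap)

theorem sig_mulVec (Φ : (Fin d ⊕ Fin d → F) ≃ₗ[F] (Fin m ⊕ Fin m → L)) (σ : L ≃ₐ[F] L)
    (v : Fin d ⊕ Fin d → F) : sig Φ σ *ᵥ v = Φ.symm (σ ∘ Φ v) := by
  unfold sig
  rw [← Matrix.toLin'_apply, Matrix.toLin'_toMatrix']
  rfl

theorem sig_sq (Φ : (Fin d ⊕ Fin d → F) ≃ₗ[F] (Fin m ⊕ Fin m → L)) (σ : L ≃ₐ[F] L)
    (hσ : ∀ a, σ (σ a) = a) : sig Φ σ * sig Φ σ = 1 := by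
  apply ext_mulVec
  intro v
  rw [← Matrix.mulVec_mulVec, sig_mulVec, sig_mulVec, LinearEquiv.apply_symm_apply,
    Matrix.one_mulVec]
  have h1 : (σ ∘ σ ∘ Φ v) = Φ v := by
    funext i
    exact hσ _
  rw [h1, LinearEquiv.symm_apply_apply]

theorem sig_comm (Φ : (Fin d ⊕ Fin d → F) ≃ₗ[F] (Fin m ⊕ Fin m → L)) (σ : L ≃ₐ[F] L)
    (ι : L →ₐ[F] Matrix (Fin d ⊕ Fin d) (Fin d ⊕ Fin d) F)
    (hΦ : ∀ a v, Φ (ι a *ᵥ v) = a • Φ v) (a : L) :
    sig Φ σ * ι a = ι (σ a) * sig Φ σ := by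
  apply ext_mulVec
  intro v
  rw [← Matrix.mulVec_mulVec, ← Matrix.mulVec_mulVec, sig_mulVec, sig_mulVec, hΦ]
  apply Φ.injective
  rw [hΦ, LinearEquiv.apply_symm_apply, LinearEquiv.apply_symm_apply]
  funext i
  simp

theorem sig_symp (Φ : (Fin d ⊕ Fin d → F) ≃ₗ[F] (Fin m ⊕ Fin m → L)) (σ : L ≃ₐ[F] L)
    (ι : L →ₐ[F] Matrix (Fin d ⊕ Fin d) (Fin d ⊕ Fin d) F) (τ : L →ₗ[F] F)
    (hτσ : ∀ a, τ (σ a) = τ a)
    (hf : ∀ a u v, Cfsg.sympForm d F (ι a *ᵥ u) v = τ (a * Cfsg.sympForm m L (Φ u) (Φ v))) :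
    sadj (sig Φ σ) * sig Φ σ = 1 := by
  apply (Cfsg.Agent.Lib.Helper40.SympConj.mem_symp_iff _).mp
  rw [Cfsg.Agent.Lib.Helper13.SympMat.mem_symp_iff]
  intro u v
  have h1 := hf 1 (sig Φ σ *ᵥ u) (sig Φ σ *ᵥ v)
  have h2 := hf 1 u v
  rw [map_one, Matrix.one_mulVec] at h1 h2
  rw [form_apply, form_apply, h1, h2, sig_mulVec, sig_mulVec, LinearEquiv.apply_symm_apply,
    LinearEquiv.apply_symm_apply]
  have h3 := sympForm_map (σ : L →+* L) (Φ u) (Φ v)
  have h4 : ((σ : L →+* L) : L → L) = (σ : L → L) := rfl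
  rw [h4] at h3
  rw [h3, one_mul, one_mul]
  exact hτσ _

end rho

section galois
variable {n : Type*} [Fintype n] [DecidableEq n] {L : Type*} [Field L] [Algebra F L] [Finite L]

/-- An element of prime order `r ≠ k` normalizing a field subalgebra of degree `k`
centralizes it. -/
theorem norm_comm (k : ℕ) (hk : k.Prime) (hfr : Module.finrank F L = k)
    (ι : L →ₐ[F] Matrix n n F) (hinj : Function.Injective ι)
    (y : Matrix n n F) (r : ℕ) (hr : r.Prime) (hrk : r ≠ k) (hyr : y ^ r = 1)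
    (hnorm : ∀ a, ∃ b, y * ι a = ι b * y) : ∀ a, y * ι a = ι a * y := by
  choose t ht using hnorm
  have hr1 : 1 ≤ r := hr.one_lt.le
  have hy1 : y * y ^ (r - 1) = 1 := by
    rw [← pow_succ', Nat.sub_add_cancel hr1, hyr]
  have hcan : ∀ A B : Matrix n n F, A * y = B * y → A = B := by
    intro A B h
    calc A = A * (y * y ^ (r - 1)) := by rw [hy1, Matrix.mul_one]
      _ = B * (y * y ^ (r - 1)) := by rw [← Matrix.mul_assoc, h, Matrix.mul_assoc]
      _ = B := by rw [hy1, Matrix.mul_one]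
  have ht_mul : ∀ a b, t (a * b) = t a * t b := by
    intro a b
    apply hinj
    apply hcan
    rw [← ht, map_mul, map_mul, ← Matrix.mul_assoc, ht, Matrix.mul_assoc, ht, Matrix.mul_assoc]
  have ht_add : ∀ a b, t (a + b) = t a + t b := by
    intro a b
    apply hinj
    apply hcan
    rw [← ht, map_add, map_add, Matrix.mul_add, Matrix.add_mul, ht, ht]
  have ht_alg : ∀ s : F, t (algebraMap F L s) = algebraMap F L s := by
    intro s
    apply hinj
    apply hcan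
    rw [← ht, AlgHom.commutes]
    exact (Algebra.commutes s y).symm
  have ht_one : t 1 = 1 := by
    have h1 := ht_alg 1
    rw [map_one] at h1
    exact h1
  have ht_zero : t 0 = 0 := by
    have h1 := ht_alg 0
    rw [map_zero] at h1
    exact h1
  obtain ⟨T, hT⟩ : ∃ T : L →ₐ[F] L, ∀ a, T a = t a :=
    ⟨{ toFun := t
       map_one' := ht_one
       map_mul' := ht_mul
       map_zero' := ht_zero
       map_add' := ht_add
       commutes' := ht_alg }, fun a => rfl⟩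
  obtain ⟨σ, hσ⟩ : ∃ σ : L ≃ₐ[F] L, ∀ a, σ a = t a :=
    ⟨AlgEquiv.ofBijective T (AlgHom.bijective T), fun a => hT a⟩
  have hpow : ∀ (j : ℕ) (a : L), ι ((σ ^ j) a) * y ^ j = y ^ j * ι a := by
    intro j
    induction j with
    | zero =>
      intro a
      rw [pow_zero, pow_zero, AlgEquiv.one_apply, Matrix.mul_one, Matrix.one_mul]
    | succ j ih =>
      intro a
      rw [pow_succ' σ, AlgEquiv.mul_apply, hσ, pow_succ', ← Matrix.mul_assoc, ← ht,
        Matrix.mul_assoc, ih, Matrix.mul_assoc]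
  have hσr : σ ^ r = 1 := by
    apply AlgEquiv.ext
    intro a
    have h1 := hpow r a
    rw [hyr, Matrix.mul_one, Matrix.one_mul] at h1
    rw [AlgEquiv.one_apply]
    exact hinj h1
  have hord : orderOf σ = 1 := by
    rcases (Nat.dvd_prime hr).mp (orderOf_dvd_of_pow_eq_one hσr) with h | h
    · exact h
    · exfalso
      have h1 : orderOf σ ∣ Nat.card (L ≃ₐ[F] L) := orderOf_dvd_natCard σ
      rw [IsGalois.card_aut_eq_finrank, hfr, h] at h1
      exact hrk ((Nat.prime_dvd_prime_iff_eq hr hk).mp h1)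
  have hσ1 : σ = 1 := orderOf_eq_one_iff.mp hord
  intro a
  have h1 := ht a
  rw [← hσ, hσ1, AlgEquiv.one_apply] at h1
  exact h1

/-- An invariant subspace is a vector space over the field subalgebra. -/
theorem dvd_finrank (ι : L →ₐ[F] Matrix n n F) (W : Submodule F (n → F))
    (hW : ∀ a, ∀ w ∈ W, ι a *ᵥ w ∈ W) : Module.finrank F L ∣ Module.finrank F W := by
  letI modL : Module L (n → F) := Module.compHom (n → F) (ι : L →+* Matrix n n F)
  have hsmul : ∀ (a : L) (v : n → F), a • v = ι a *ᵥ v := fun a v => rfl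
  haveI : IsScalarTower F L (n → F) := ⟨fun s a v => by
    rw [hsmul, hsmul, map_smul, Matrix.smul_mulVec]⟩
  let W' : Submodule L (n → F) :=
    { carrier := W
      add_mem' := fun ha hb => W.add_mem ha hb
      zero_mem' := W.zero_mem
      smul_mem' := fun a w hw => hW a w hw }
  have h1 := Module.finrank_mul_finrank F L ↥W'
  have h2 : Module.finrank F ↥W' = Module.finrank F ↥W :=
    LinearEquiv.finrank_eq
      { toFun := fun w => ⟨w.1, w.2⟩
        invFun := fun w => ⟨w.1, w.2⟩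
        map_add' := fun _ _ => rfl
        map_smul' := fun _ _ => rfl
        left_inv := fun _ => rfl
        right_inv := fun _ => rfl }
  rw [← h2, ← h1]
  exact Dvd.intro _ rfl

end galois

end coords

end Cfsg.Agent.Lib.Helper40.KStr
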