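import Mathlib
import Cfsg.Prelude.Def_ClassicalGeometry
import Cfsg.Prelude.Def_GeometricClasses
import Cfsg.Agent.Lib.Helper13.SympMat
import Cfsg.Agent.Lib.Helper40.FExt
import Cfsg.Agent.Lib.Helper40.KStr

set_option autoImplicit false

namespace Cfsg.Agent.Lib.Helper40.KWit

open Cfsg.Agent.Lib.Helper13.SympMat Cfsg.Agent.Lib.Helper40.SympConj
open Cfsg.Agent.Lib.Helper40.FExt Cfsg.Agent.Lib.Helper40.KStr
open scoped Matrix

section transv
variable {F : Type*} [Field F]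

theorem transv_witness' {p : ℕ} [Fact p.Prime] [CharP F p] {d : ℕ} (hd : 1 ≤ d) :
    ∃ v u : Fin d ⊕ Fin d → F, v ≠ 0 ∧ u ≠ 0 ∧
      sadj (1 + Matrix.vecMulVec v u) * (1 + Matrix.vecMulVec v u) = 1 ∧
      (1 + Matrix.vecMulVec v u) ^ p = 1 ∧ ∀ z : F, 1 + Matrix.vecMulVec v u ≠ z • 1 := by
  classical
  obtain ⟨v, hv⟩ : ∃ v : Fin d ⊕ Fin d → F, v = Pi.single (Sum.inl ⟨0, by omega⟩) 1 := ⟨_, rfl⟩
  have hv0 : v ≠ 0 := by
    intro h
    have h1 := congrFun h (Sum.inl ⟨0, by omega⟩)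
    rw [hv] at h1
    simp at h1
  obtain ⟨w, hw⟩ : ∃ w, form d F w v ≠ 0 := by
    by_contra hcon
    push Not at hcon
    exact hv0 ((form_nondeg (F := F) d).1 v (fun b => by
      rw [← (form_alt (F := F) d).neg_eq b v, hcon b, neg_zero]))
  have hT0 : Cfsg.sympTransvection d v (0 : F) = 1 := by
    unfold Cfsg.sympTransvection
    rw [zero_smul, add_zero]
  have hpow : ∀ k : ℕ, Cfsg.sympTransvection d v (1 : F) ^ k =
      Cfsg.sympTransvection d v (k : F) := by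
    intro k
    induction k with
    | zero => rw [pow_zero, Nat.cast_zero, hT0]
    | succ k ih => rw [pow_succ, ih, transvection_mul, Nat.cast_succ]
  have hx : Cfsg.sympTransvection d v (1 : F) =
      1 + Matrix.vecMulVec v (Matrix.J (Fin d) F *ᵥ v) := by
    unfold Cfsg.sympTransvection
    rw [one_smul]
  have hu0 : Matrix.J (Fin d) F *ᵥ v ≠ 0 := by
    intro h
    apply hv0
    have h1 : (-Matrix.J (Fin d) F) *ᵥ (Matrix.J (Fin d) F *ᵥ v) = v := by
      rw [Matrix.mulVec_mulVec, neg_J_mul_J, Matrix.one_mulVec]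
    rw [← h1, h, Matrix.mulVec_zero]
  refine ⟨v, Matrix.J (Fin d) F *ᵥ v, hv0, hu0, ?_, ?_, ?_⟩
  · rw [← hx]
    exact (Cfsg.Agent.Lib.Helper40.SympConj.mem_symp_iff _).mp (transvection_mem d v 1)
  · rw [← hx, hpow, CharP.cast_eq_zero, hT0]
  · rw [← hx]
    intro z hz
    have h1 : Cfsg.sympTransvection d v 1 *ᵥ v =
        (z • (1 : Matrix (Fin d ⊕ Fin d) (Fin d ⊕ Fin d) F)) *ᵥ v := by rw [hz]
    rw [transvection_mulVec, Matrix.smul_mulVec, Matrix.one_mulVec, one_mul,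
      (form_alt (F := F) d) v, zero_smul, add_zero] at h1
    have hz1 : z = 1 := by
      by_contra hne
      apply hv0
      have h3 : (1 - z) • v = 0 := by rw [sub_smul, one_smul, ← h1, sub_self]
      rcases smul_eq_zero.mp h3 with h | h
      · exact absurd (sub_eq_zero.mp h).symm hne
      · exact h
    have h2 : Cfsg.sympTransvection d v 1 *ᵥ w =
        (z • (1 : Matrix (Fin d ⊕ Fin d) (Fin d ⊕ Fin d) F)) *ᵥ w := by rw [hz]
    rw [transvection_mulVec, hz1, one_smul, Matrix.one_mulVec, one_mul] at h2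
    have h3 : form d F w v • v = 0 := by simpa using h2
    rcases smul_eq_zero.mp h3 with h | h
    · exact hw h
    · exact hv0 h

theorem transv_no_norm {n : Type*} [Fintype n] [DecidableEq n] (hn : 3 ≤ Fintype.card n)
    (K : Subalgebra F (Matrix n n F)) (hinv : ∀ x ∈ K, x ≠ 0 → ∃ y, x * y = 1)
    (v u : n → F) (hv : v ≠ 0) (hu : u ≠ 0) (yi : Matrix n n F)
    (hy1 : (1 + Matrix.vecMulVec v u) * yi = 1)
    (hnorm : ∀ a ∈ K, (1 + Matrix.vecMulVec v u) * a * yi ∈ K) :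
    ∀ a ∈ K, ∃ l : F, a = l • 1 := by
  classical
  obtain ⟨N, hN⟩ : ∃ N, N = Matrix.vecMulVec v u := ⟨_, rfl⟩
  rw [← hN] at hy1 hnorm
  have hy2 : yi * (1 + N) = 1 := mul_eq_one_comm.mp hy1
  have hNv : ∀ w, N *ᵥ w = (u ⬝ᵥ w) • v := by
    intro w
    rw [hN, Matrix.vecMulVec_mulVec]
    funext i
    simp [mul_comm]
  obtain ⟨j, hj⟩ : ∃ j, u j ≠ 0 := by
    by_contra h
    push Not at h
    exact hu (funext h)
  obtain ⟨w₀, hw₀⟩ : ∃ w₀, u ⬝ᵥ w₀ ≠ 0 :=
    ⟨Pi.single j 1, by rw [dotProduct_single, mul_one]; exact hj⟩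
  intro a ha
  obtain ⟨a', ha'⟩ : ∃ a', a' = (1 + N) * a * yi := ⟨_, rfl⟩
  have ha'K : a' ∈ K := ha' ▸ hnorm a ha
  have h1 : a' * (1 + N) = (1 + N) * a := by
    rw [ha', Matrix.mul_assoc, hy2, Matrix.mul_one]
  rw [Matrix.mul_add, Matrix.add_mul, Matrix.mul_one, Matrix.one_mul] at h1
  have h2 : a' - a = N * a - a' * N := by
    rw [sub_eq_sub_iff_add_eq_add, h1, add_comm]
  have hc0 : a' - a = 0 := by
    by_contra hne
    obtain ⟨c', hc'⟩ := hinv (a' - a) (K.sub_mem ha'K ha) hne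
    have hspan : ∀ w : n → F,
        w ∈ Submodule.span F ((({v, a' *ᵥ v} : Finset (n → F)) : Set (n → F))) := by
      intro w
      have h3 : w = (a' - a) *ᵥ (c' *ᵥ w) := by
        rw [Matrix.mulVec_mulVec, hc', Matrix.one_mulVec]
      rw [h3, h2, Matrix.sub_mulVec, ← Matrix.mulVec_mulVec, ← Matrix.mulVec_mulVec, hNv, hNv,
        Matrix.mulVec_smul]
      apply Submodule.sub_mem
      · apply Submodule.smul_mem
        apply Submodule.subset_span
        simp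
      · apply Submodule.smul_mem
        apply Submodule.subset_span
        simp
    have h5 : (⊤ : Submodule F (n → F)) ≤
        Submodule.span F ((({v, a' *ᵥ v} : Finset (n → F)) : Set (n → F))) := fun w _ => hspan w
    have h6 := Submodule.finrank_mono h5
    rw [finrank_top, Module.finrank_fintype_fun_eq_card] at h6
    have h7 := finrank_span_finset_le_card (R := F) ({v, a' *ᵥ v} : Finset (n → F))
    have h8 : ({v, a' *ᵥ v} : Finset (n → F)).card ≤ 2 := Finset.card_le_two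
    unfold Set.finrank at h7
    omega
  have haa : a' = a := sub_eq_zero.mp hc0
  rw [haa, sub_self] at h2
  have h3 : N * a = a * N := sub_eq_zero.mp h2.symm
  have h4 : a *ᵥ v = ((u ⬝ᵥ (a *ᵥ w₀)) / (u ⬝ᵥ w₀)) • v := by
    have h5 : (N * a) *ᵥ w₀ = (a * N) *ᵥ w₀ := by rw [h3]
    rw [← Matrix.mulVec_mulVec, ← Matrix.mulVec_mulVec, hNv, hNv, Matrix.mulVec_smul] at h5
    rw [div_eq_inv_mul, mul_smul, h5, smul_smul, inv_mul_cancel₀ hw₀, one_smul]
  obtain ⟨l, hl⟩ : ∃ l, l = (u ⬝ᵥ (a *ᵥ w₀)) / (u ⬝ᵥ w₀) := ⟨_, rfl⟩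
  rw [← hl] at h4
  refine ⟨l, ?_⟩
  by_contra hne
  have hmem : a - l • 1 ∈ K := K.sub_mem ha (K.smul_mem K.one_mem l)
  obtain ⟨c', hc'⟩ := hinv (a - l • 1) hmem (sub_ne_zero.mpr hne)
  have hc'' : c' * (a - l • 1) = 1 := mul_eq_one_comm.mp hc'
  apply hv
  have h6 : (a - l • (1 : Matrix n n F)) *ᵥ v = 0 := by
    rw [Matrix.sub_mulVec, h4, Matrix.smul_mulVec, Matrix.one_mulVec, sub_self]
  calc v = (c' * (a - l • 1)) *ᵥ v := by rw [hc'', Matrix.one_mulVec]
    _ = 0 := by rw [← Matrix.mulVec_mulVec, h6, Matrix.mulVec_zero]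

end transv

section invol
variable {F : Type*} [Field F]

theorem invol_witness (h2 : (2 : F) ≠ 0) {d : ℕ} (hd : 2 ≤ d) :
    ∃ x : Matrix (Fin d ⊕ Fin d) (Fin d ⊕ Fin d) F, sadj x * x = 1 ∧ x * x = 1 ∧
      (∀ z : F, x ≠ z • 1) ∧
      ∃ w₁ w₂ : Fin d ⊕ Fin d → F, ∀ v, ∃ s t : F, x *ᵥ v - v = s • w₁ + t • w₂ := by
  classical
  obtain ⟨i₀, hi₀⟩ : ∃ i₀ : Fin d, i₀ = ⟨0, by omega⟩ := ⟨_, rfl⟩
  obtain ⟨i₁, hi₁⟩ : ∃ i₁ : Fin d, i₁ = ⟨1, by omega⟩ := ⟨_, rfl⟩
  have hi01 : i₁ ≠ i₀ := by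
    rw [hi₀, hi₁]
    intro h
    have := congrArg Fin.val h
    simp at this
  obtain ⟨D, hD⟩ : ∃ D : Matrix (Fin d) (Fin d) F,
      D = Matrix.diagonal (fun i : Fin d => if i = i₀ then (-1 : F) else 1) := ⟨_, rfl⟩
  have hDD : D * D = 1 := by
    rw [hD, Matrix.diagonal_mul_diagonal, ← Matrix.diagonal_one]
    congr 1
    funext i
    split_ifs <;> simp
  have hDt : Dᵀ = D := by rw [hD, Matrix.diagonal_transpose]
  refine ⟨Tl 0 D 0, ?_, ?_, ?_, Pi.single (Sum.inl i₀) 1, Pi.single (Sum.inr i₀) 1, ?_⟩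
  · rw [sadj_Tl, hDt, Matrix.transpose_zero, neg_zero, Tl_mul, hDD]
    simp only [Matrix.mul_zero, Matrix.zero_mul, smul_zero, add_zero]
    exact Tl_one 0
  · rw [Tl_mul, hDD]
    simp only [Matrix.mul_zero, Matrix.zero_mul, smul_zero, add_zero]
    exact Tl_one 0
  · intro z hz
    have h0 := congrFun (congrFun hz (Sum.inl i₀)) (Sum.inl i₀)
    have h1 := congrFun (congrFun hz (Sum.inl i₁)) (Sum.inl i₁)
    simp [Tl, hD, hi01] at h0 h1
    exact h2 (by linear_combination h1 - h0)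
  · intro v
    refine ⟨-2 * v (Sum.inl i₀), -2 * v (Sum.inr i₀), ?_⟩
    funext i
    unfold Tl
    rw [Matrix.fromBlocks_mulVec, hD]
    rcases i with i | i
    · by_cases h : i = i₀
      · subst h
        simp [Matrix.mulVec_diagonal]
        ring
      · simp [Matrix.mulVec_diagonal, h]
    · by_cases h : i = i₀
      · subst h
        simp [Matrix.mulVec_diagonal]
        ring
      · simp [Matrix.mulVec_diagonal, h]

theorem invol_no_norm (h2 : (2 : F) ≠ 0) {d : ℕ} (k : ℕ) (hk : 2 ≤ k)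
    (K : Subalgebra F (Matrix (Fin d ⊕ Fin d) (Fin d ⊕ Fin d) F))
    (hK : Cfsg.Geo.IsFieldSubalgebra k K)
    (hKf : Cfsg.Geo.IsSelfAdjointFor (Cfsg.sympForm d F) K)
    (hKalt : ∀ a ∈ K, ∀ v : Fin d ⊕ Fin d → F, Cfsg.sympForm d F (a *ᵥ v) v = 0)
    (y : Matrix (Fin d ⊕ Fin d) (Fin d ⊕ Fin d) F) (hys : sadj y * y = 1) (hyy : y * y = 1)
    (hy1 : y ≠ 1) (w₁ w₂ : Fin d ⊕ Fin d → F)
    (hw : ∀ v, ∃ s t : F, y *ᵥ v - v = s • w₁ + t • w₂)
    (hnorm : ∀ a ∈ K, y * a * y ∈ K) : d ≤ 2 := by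
  classical
  have hinv : ∀ c ∈ K, c ≠ 0 → ∃ c', c * c' = 1 ∧ c' * c = 1 := by
    intro c hc hc0
    obtain ⟨c', -, hc'⟩ := hK.inv c hc hc0
    exact ⟨c', hc', mul_eq_one_comm.mp hc'⟩
  have hiso : ∀ u v, form d F (y *ᵥ u) (y *ᵥ v) = form d F u v :=
    (Cfsg.Agent.Lib.Helper13.SympMat.mem_symp_iff d y).mp
      ((Cfsg.Agent.Lib.Helper40.SympConj.mem_symp_iff y).mpr hys)
  by_cases hcomm : ∀ a ∈ K, y * a = a * y
  · exfalso
    obtain ⟨v₀, hv₀⟩ : ∃ v₀, y *ᵥ v₀ - v₀ ≠ 0 := by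
      by_contra h
      push Not at h
      apply hy1
      apply ext_mulVec
      intro v
      rw [Matrix.one_mulVec]
      exact sub_eq_zero.mp (h v)
    obtain ⟨w₀, hw₀⟩ : ∃ w₀, w₀ = y *ᵥ v₀ - v₀ := ⟨_, rfl⟩
    rw [← hw₀] at hv₀
    have hyw₀ : y *ᵥ w₀ = -w₀ := by
      rw [hw₀, Matrix.mulVec_sub, Matrix.mulVec_mulVec, hyy, Matrix.one_mulVec, neg_sub]
    obtain ⟨U, hU⟩ : ∃ U : Submodule F (Fin d ⊕ Fin d → F),
        U = LinearMap.range (Matrix.toLin' (y - 1)) := ⟨_, rfl⟩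
    have hUmem : ∀ v, y *ᵥ v - v ∈ U := by
      intro v
      rw [hU]
      refine ⟨v, ?_⟩
      rw [Matrix.toLin'_apply, Matrix.sub_mulVec, Matrix.one_mulVec]
    have hUle : U ≤ Submodule.span F
        ((({w₁, w₂} : Finset (Fin d ⊕ Fin d → F)) : Set (Fin d ⊕ Fin d → F))) := by
      rw [hU]
      rintro _ ⟨v, rfl⟩
      rw [Matrix.toLin'_apply, Matrix.sub_mulVec, Matrix.one_mulVec]
      obtain ⟨s, t, hst⟩ := hw v
      rw [hst]
      apply Submodule.add_mem
      · apply Submodule.smul_mem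
        apply Submodule.subset_span
        simp
      · apply Submodule.smul_mem
        apply Submodule.subset_span
        simp
    have hU2 : Module.finrank F U ≤ 2 := by
      have h6 := Submodule.finrank_mono hUle
      have h7 := finrank_span_finset_le_card (R := F) ({w₁, w₂} : Finset (Fin d ⊕ Fin d → F))
      have h8 : ({w₁, w₂} : Finset (Fin d ⊕ Fin d → F)).card ≤ 2 := Finset.card_le_two
      unfold Set.finrank at h7
      omega
    have haU : ∀ a : ↥K, a.1 *ᵥ w₀ ∈ U := by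
      intro a
      have h3 : a.1 *ᵥ w₀ = y *ᵥ (a.1 *ᵥ v₀) - a.1 *ᵥ v₀ := by
        rw [hw₀, Matrix.mulVec_sub, Matrix.mulVec_mulVec, Matrix.mulVec_mulVec, hcomm a.1 a.2]
      rw [h3]
      exact hUmem _
    obtain ⟨ψ, hψ⟩ : ∃ ψ : ↥K →ₗ[F] ↥U, ∀ a : ↥K, (ψ a).1 = a.1 *ᵥ w₀ :=
      ⟨LinearMap.codRestrict U
        { toFun := fun a : ↥K => a.1 *ᵥ w₀
          map_add' := fun a b => Matrix.add_mulVec _ _ _
          map_smul' := fun s a => Matrix.smul_mulVec _ _ _ } haU, fun a => rfl⟩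
    have hψinj : Function.Injective ψ := by
      rw [← LinearMap.ker_eq_bot, LinearMap.ker_eq_bot']
      intro a ha
      by_contra hne
      have hne' : a.1 ≠ 0 := fun h => hne (Subtype.ext h)
      obtain ⟨c', -, hc'⟩ := hinv a.1 a.2 hne'
      apply hv₀
      have h3 : a.1 *ᵥ w₀ = 0 := by
        rw [← hψ, ha]
        rfl
      calc w₀ = (c' * a.1) *ᵥ w₀ := by rw [hc', Matrix.one_mulVec]
        _ = 0 := by rw [← Matrix.mulVec_mulVec, h3, Matrix.mulVec_zero]
    have hle := LinearMap.finrank_le_finrank_of_injective hψinj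
    have hKk := hK.finrank_eq
    have heq : Module.finrank F ↥K = Module.finrank F ↥U := by omega
    have hψsurj : Function.Surjective ψ :=
      (LinearMap.injective_iff_surjective_of_finrank_eq_finrank heq).mp hψinj
    have hzero : ∀ u ∈ U, form d F w₀ u = 0 := by
      intro u hu
      obtain ⟨a, ha⟩ := hψsurj ⟨u, hu⟩
      have h3 : u = a.1 *ᵥ w₀ := by
        rw [← hψ, ha]
      rw [h3, form_apply, ← hKf a.1 a.2, hKalt a.1 a.2]
    obtain ⟨z, hz⟩ : ∃ z, form d F w₀ z ≠ 0 := by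
      by_contra hcon
      push Not at hcon
      exact hv₀ ((form_nondeg (F := F) d).1 w₀ hcon)
    have h4 := hzero _ (hUmem z)
    have h5 := hiso w₀ z
    rw [hyw₀, map_neg, LinearMap.neg_apply] at h5
    rw [map_sub, ← neg_eq_iff_eq_neg.mpr h5.symm] at h4
    have h6 : (2 : F) * form d F w₀ z = 0 := by linear_combination -h4
    rcases mul_eq_zero.mp h6 with h | h
    · exact h2 h
    · exact hz h
  · push Not at hcomm
    obtain ⟨a, ha, hay⟩ := hcomm
    obtain ⟨c, hc⟩ : ∃ c, c = y * a * y - a := ⟨_, rfl⟩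
    have hcK : c ∈ K := hc ▸ K.sub_mem (hnorm a ha) ha
    have hc0 : c ≠ 0 := by
      intro h
      apply hay
      rw [hc] at h
      have h3 : y * a * y = a := sub_eq_zero.mp h
      calc y * a = y * a * (y * y) := by rw [hyy, Matrix.mul_one]
        _ = (y * a * y) * y := by rw [Matrix.mul_assoc (y * a)]
        _ = a * y := by rw [h3]
    obtain ⟨c', hcc', hc'c⟩ := hinv c hcK hc0
    have hanti : y * c = -(c * y) := by
      have h3 : y * c = a * y - y * a := by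
        rw [hc, Matrix.mul_sub, ← Matrix.mul_assoc, ← Matrix.mul_assoc, hyy, Matrix.one_mul]
      have h4 : c * y = y * a - a * y := by
        rw [hc, Matrix.sub_mul, Matrix.mul_assoc (y * a), hyy, Matrix.mul_one]
      rw [h3, h4, neg_sub]
    have hkey : ∀ v, (2 : F) • v =
        -(y *ᵥ v - v) - c' *ᵥ (y *ᵥ (c *ᵥ v) - c *ᵥ v) := by
      intro v
      have h3 : y *ᵥ (c *ᵥ v) = -(c *ᵥ (y *ᵥ v)) := by
        rw [Matrix.mulVec_mulVec, hanti, Matrix.neg_mulVec, Matrix.mulVec_mulVec]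
      have h4 : c' *ᵥ (y *ᵥ (c *ᵥ v) - c *ᵥ v) = -(y *ᵥ v) - v := by
        rw [h3, Matrix.mulVec_sub, Matrix.mulVec_neg, Matrix.mulVec_mulVec (y *ᵥ v) c' c,
          Matrix.mulVec_mulVec v c' c, hc'c, Matrix.one_mulVec, Matrix.one_mulVec]
      rw [h4, two_smul]
      abel
    have hspan : ∀ v : Fin d ⊕ Fin d → F, v ∈ Submodule.span F
        ((({w₁, w₂, c' *ᵥ w₁, c' *ᵥ w₂} : Finset (Fin d ⊕ Fin d → F)) :
          Set (Fin d ⊕ Fin d → F))) := by
      intro v
      have h3 : v = (2 : F)⁻¹ • ((2 : F) • v) := by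
        rw [smul_smul, inv_mul_cancel₀ h2, one_smul]
      rw [h3, hkey]
      obtain ⟨s, t, hst⟩ := hw v
      obtain ⟨s', t', hst'⟩ := hw (c *ᵥ v)
      rw [hst, hst', Matrix.mulVec_add, Matrix.mulVec_smul, Matrix.mulVec_smul]
      apply Submodule.smul_mem
      apply Submodule.sub_mem
      · apply Submodule.neg_mem
        apply Submodule.add_mem
        · apply Submodule.smul_mem
          apply Submodule.subset_span
          simp
        · apply Submodule.smul_mem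
          apply Submodule.subset_span
          simp
      · apply Submodule.add_mem
        · apply Submodule.smul_mem
          apply Submodule.subset_span
          simp
        · apply Submodule.smul_mem
          apply Submodule.subset_span
          simp
    have h5 : (⊤ : Submodule F (Fin d ⊕ Fin d → F)) ≤ Submodule.span F
        ((({w₁, w₂, c' *ᵥ w₁, c' *ᵥ w₂} : Finset (Fin d ⊕ Fin d → F)) :
          Set (Fin d ⊕ Fin d → F))) := fun w _ => hspan w
    have h6 := Submodule.finrank_mono h5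
    rw [finrank_top, Module.finrank_fintype_fun_eq_card, Fintype.card_sum, Fintype.card_fin] at h6
    have h7 := finrank_span_finset_le_card (R := F)
      ({w₁, w₂, c' *ᵥ w₁, c' *ᵥ w₂} : Finset (Fin d ⊕ Fin d → F))
    have h8 : ({w₁, w₂, c' *ᵥ w₁, c' *ᵥ w₂} : Finset (Fin d ⊕ Fin d → F)).card ≤ 4 :=
      Finset.card_le_four
    unfold Set.finrank at h7
    omega

end invol

end Cfsg.Agent.Lib.Helper40.KWit
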