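import Mathlib
import Cfsg.Prelude.Def_GeometricClasses
import Cfsg.Agent.Lib.Helper40.GFStmt
import Cfsg.Agent.Lib.Helper40.KStr
import Cfsg.Agent.Lib.Helper40.KWit
import Cfsg.Agent.Lib.Helper94.Tv

set_option autoImplicit false

namespace Cfsg.Agent.Lib.Helper40.GFTop

open Cfsg.Agent.Lib.Helper40.GFStmt
open Cfsg.Agent.Lib.Helper94.Basic Cfsg.Agent.Lib.Helper94.GLAux
open scoped Matrix

universe u

section transfer
variable {F L : Type u} [Field F] [Field L] [Algebra F L] {N k : ℕ}

/-- transfer of a matrix over `F` to an `F`-linear automorphism of `V k L` -/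
noncomputable def tr (Φ : (Fin N → F) ≃ₗ[F] V k L) (g : GL (Fin N) F) :
    V k L ≃ₗ[F] V k L :=
  LinearEquiv.ofLinear
    (Φ.toLinearMap ∘ₗ Matrix.toLin' g.val ∘ₗ Φ.symm.toLinearMap)
    (Φ.toLinearMap ∘ₗ Matrix.toLin' (g⁻¹).val ∘ₗ Φ.symm.toLinearMap)
    (by
      apply LinearMap.ext
      intro x
      simp only [LinearMap.comp_apply, LinearEquiv.coe_coe, Matrix.toLin'_apply,
        LinearEquiv.symm_apply_apply, Matrix.mulVec_mulVec, Units.mul_inv, Matrix.one_mulVec,
        LinearEquiv.apply_symm_apply, LinearMap.id_apply])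
    (by
      apply LinearMap.ext
      intro x
      simp only [LinearMap.comp_apply, LinearEquiv.coe_coe, Matrix.toLin'_apply,
        LinearEquiv.symm_apply_apply, Matrix.mulVec_mulVec, Units.inv_mul, Matrix.one_mulVec,
        LinearEquiv.apply_symm_apply, LinearMap.id_apply])

theorem tr_apply (Φ : (Fin N → F) ≃ₗ[F] V k L) (g : GL (Fin N) F) (x : V k L) :
    tr Φ g x = Φ (g.val *ᵥ Φ.symm x) := rfl

/-- the transfer as a group homomorphism -/
noncomputable def trHom (Φ : (Fin N → F) ≃ₗ[F] V k L) :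
    GL (Fin N) F →* (V k L ≃ₗ[F] V k L) where
  toFun := tr Φ
  map_one' := by
    apply LinearEquiv.ext
    intro x
    rw [tr_apply, Units.val_one, Matrix.one_mulVec, LinearEquiv.apply_symm_apply]
    rfl
  map_mul' g h := by
    apply LinearEquiv.ext
    intro x
    rw [LinearEquiv.mul_apply, tr_apply, tr_apply, tr_apply, LinearEquiv.symm_apply_apply,
      Units.val_mul, Matrix.mulVec_mulVec]

theorem trHom_apply (Φ : (Fin N → F) ≃ₗ[F] V k L) (g : GL (Fin N) F) (x : V k L) :
    trHom Φ g x = Φ (g.val *ᵥ Φ.symm x) := rfl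

end transfer

theorem top (hAbs : Abs.{u}) (hSpread : Spread.{u}) (hCoord : Coord.{u}) (hDual : DualRep.{u})
    (hDet : DetSurj.{u}) {F : Type u} [Field F] [Fintype F] (n r : ℕ) (hr : r.Prime)
    (hlt : r < n) (K : Subalgebra F (Matrix (Fin n) (Fin n) F))
    (hK : Cfsg.Geo.IsFieldSubalgebra r K) :
    IsCoatom (Cfsg.Geo.subalgebraNormalizer K) ∧
      Cfsg.Geo.IsMaximalIn (Cfsg.Geo.specialLinear (Fin n) F)
        (Cfsg.Geo.subalgebraNormalizer K ⊓ Cfsg.Geo.specialLinear (Fin n) F) := by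
  classical
  obtain ⟨L, instL, instA, ι, hιK, hKι, hinj, hfr⟩ :=
    Cfsg.Agent.Lib.Helper40.KStr.exists_field r hr.two_le K hK
  have hfd : FiniteDimensional F L := Module.finite_of_finrank_pos (by rw [hfr]; exact hr.pos)
  have hfin : Finite L := Module.finite_of_finite F
  obtain ⟨a₁, ha₁⟩ := Algebra.trace_surjective F L (1 : F)
  have hτ : Algebra.trace F L ≠ 0 := by
    intro h
    rw [h] at ha₁
    simp at ha₁
  obtain ⟨k, Φ, hΦ⟩ := hCoord F L n ι
  have hdim : n = k * r := by
    have h3 := LinearEquiv.finrank_eq Φ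
    rw [Module.finrank_fintype_fun_eq_card, Fintype.card_fin,
      Module.finrank_pi_fintype, Finset.sum_const, Finset.card_univ,
      Fintype.card_fin, smul_eq_mul, hfr] at h3
    exact h3
  have hr2 := hr.two_le
  have hk2 : 2 ≤ k := by
    by_contra hk
    have h01 : k = 0 ∨ k = 1 := by omega
    rcases h01 with h | h
    · rw [h, zero_mul] at hdim
      omega
    · rw [h, one_mul] at hdim
      omega
  have hn3 : 3 ≤ n := by omega
  -- matrices of `L`-linear automorphisms
  have hmat : ∀ h : V k L ≃ₗ[L] V k L, ∃ y ∈ Cfsg.Geo.subalgebraNormalizer K,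
      y.val.det = LinearMap.det ((h.restrictScalars F : V k L ≃ₗ[F] V k L) : V k L →ₗ[F] V k L) ∧
      trHom Φ y = h.restrictScalars F := by
    intro h
    obtain ⟨φ, hφ⟩ : ∃ φ : (Fin n → F) →ₗ[F] (Fin n → F),
        φ = Φ.symm.toLinearMap ∘ₗ (h.restrictScalars F).toLinearMap ∘ₗ Φ.toLinearMap := ⟨_, rfl⟩
    obtain ⟨ψ, hψ⟩ : ∃ ψ : (Fin n → F) →ₗ[F] (Fin n → F),
        ψ = Φ.symm.toLinearMap ∘ₗ (h.symm.restrictScalars F).toLinearMap ∘ₗ Φ.toLinearMap :=
      ⟨_, rfl⟩
    have hφa : ∀ v, φ v = Φ.symm (h (Φ v)) := fun v => by rw [hφ]; rfl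
    have hψa : ∀ v, ψ v = Φ.symm (h.symm (Φ v)) := fun v => by rw [hψ]; rfl
    have h1 : φ ∘ₗ ψ = LinearMap.id := by
      apply LinearMap.ext
      intro v
      rw [LinearMap.comp_apply, hφa, hψa, LinearEquiv.apply_symm_apply,
        LinearEquiv.apply_symm_apply, LinearEquiv.symm_apply_apply, LinearMap.id_apply]
    have h2 : ψ ∘ₗ φ = LinearMap.id := by
      apply LinearMap.ext
      intro v
      rw [LinearMap.comp_apply, hφa, hψa, LinearEquiv.apply_symm_apply,
        LinearEquiv.symm_apply_apply, LinearEquiv.symm_apply_apply, LinearMap.id_apply]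
    have hgv : ∀ v, (glOfLin φ ψ h1 h2).val *ᵥ v = Φ.symm (h (Φ v)) := by
      intro v
      rw [← Matrix.toLin'_apply, glOfLin_toLin', hφa]
    have hmemN : glOfLin φ ψ h1 h2 ∈ Cfsg.Geo.subalgebraNormalizer K := by
      apply Cfsg.Agent.Lib.Helper40.KStr.mem_normalizer_of_comm
      intro x hx
      obtain ⟨a, rfl⟩ := hKι x hx
      apply Cfsg.Agent.Lib.Helper40.KStr.ext_mulVec
      intro v
      rw [← Matrix.mulVec_mulVec, ← Matrix.mulVec_mulVec, hgv, hgv]
      apply Φ.injective
      rw [LinearEquiv.apply_symm_apply, hΦ, hΦ, LinearEquiv.apply_symm_apply, map_smul]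
    refine ⟨glOfLin φ ψ h1 h2, hmemN, ?_, ?_⟩
    · have hd1 : (glOfLin φ ψ h1 h2).val.det = LinearMap.det φ := by
        simp only [glOfLin]
        rw [LinearMap.det_toMatrix']
      rw [hd1, hφ]
      have hc := LinearMap.det_conj ((h.restrictScalars F : V k L ≃ₗ[F] V k L) : V k L →ₗ[F] V k L)
        Φ.symm
      rw [LinearEquiv.symm_symm] at hc
      exact hc
    · apply LinearEquiv.ext
      intro x
      rw [trHom_apply, hgv, LinearEquiv.apply_symm_apply, LinearEquiv.apply_symm_apply]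
      rfl
  -- the core: an overgroup of `N ⊓ SL` with an element outside `N` contains `SL`
  have hcore : ∀ M : Subgroup (GL (Fin n) F),
      Cfsg.Geo.subalgebraNormalizer K ⊓ Cfsg.Geo.specialLinear (Fin n) F ≤ M →
      ∀ g₀ ∈ M, g₀ ∉ Cfsg.Geo.subalgebraNormalizer K →
      Cfsg.Geo.specialLinear (Fin n) F ≤ M := by
    intro M hHM g₀ hg₀M hg₀N
    have hsub : ∀ h : V k L ≃ₗ[L] V k L,
        Algebra.norm F (LinearMap.det (h : V k L →ₗ[L] V k L)) = 1 →
          h.restrictScalars F ∈ M.map (trHom Φ) := by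
      intro h hh
      obtain ⟨y, hyN, hydet, hytr⟩ := hmat h
      have hrs : LinearMap.det ((h.restrictScalars F : V k L ≃ₗ[F] V k L) : V k L →ₗ[F] V k L)
          = Algebra.norm F (LinearMap.det (h : V k L →ₗ[L] V k L)) :=
        LinearMap.det_restrictScalars (f := (h : V k L →ₗ[L] V k L))
      have hyS : y ∈ Cfsg.Geo.specialLinear (Fin n) F := by
        rw [mem_specialLinear_iff, hydet, hrs, hh]
      exact ⟨y, hHM ⟨hyN, hyS⟩, hytr⟩
    obtain ⟨c, hcM⟩ : ∃ c : Ctx F L k, c.M = M.map (trHom Φ) := ⟨⟨M.map (trHom Φ), hsub⟩, rfl⟩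
    have hnon : ∃ g ∈ c.M, ¬ ∀ x, LineAt g x := by
      refine ⟨trHom Φ g₀, by rw [hcM]; exact ⟨g₀, hg₀M, rfl⟩, ?_⟩
      intro hline
      have hall := hSpread F L k hk2 (trHom Φ g₀) hline
      apply hg₀N
      choose t ht using hall
      have hcomm : ∀ a, g₀.val * ι a = ι (t a) * g₀.val := by
        intro a
        apply Cfsg.Agent.Lib.Helper40.KStr.ext_mulVec
        intro v
        rw [← Matrix.mulVec_mulVec, ← Matrix.mulVec_mulVec]
        apply Φ.injective
        have h1 := ht a (Φ v)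
        rw [trHom_apply, trHom_apply, ← hΦ, LinearEquiv.symm_apply_apply,
          LinearEquiv.symm_apply_apply] at h1
        rw [h1, hΦ]
      have hconj : ∀ a, g₀.val * ι a * (g₀⁻¹).val = ι (t a) := by
        intro a
        rw [hcomm, Matrix.mul_assoc, Units.mul_inv, Matrix.mul_one]
      have htinj : Function.Injective t := by
        intro a b hab
        apply hinj
        have h1 := hconj a
        rw [hab, ← hconj b] at h1
        have h2 : (g₀⁻¹).val * (g₀.val * ι a * (g₀⁻¹).val) * g₀.val =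
            (g₀⁻¹).val * (g₀.val * ι b * (g₀⁻¹).val) * g₀.val := by rw [h1]
        simp only [Matrix.mul_assoc, Units.inv_mul, Matrix.mul_one] at h2
        simp only [← Matrix.mul_assoc, Units.inv_mul, Matrix.one_mul] at h2
        exact h2
      have htsurj : Function.Surjective t := Finite.injective_iff_surjective.mp htinj
      show ∀ k' : Matrix (Fin n) (Fin n) F,
        k' ∈ K ↔ g₀.val * k' * (g₀⁻¹).val ∈ K
      intro k'
      constructor
      · intro hk
        obtain ⟨a, rfl⟩ := hKι k' hk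
        rw [hconj]
        exact hιK _
      · intro hk
        obtain ⟨b, hb⟩ := hKι _ hk
        obtain ⟨a, rfl⟩ := htsurj b
        rw [← hconj a] at hb
        have h2 : (g₀⁻¹).val * (g₀.val * ι a * (g₀⁻¹).val) * g₀.val =
            (g₀⁻¹).val * (g₀.val * k' * (g₀⁻¹).val) * g₀.val := by rw [hb]
        simp only [Matrix.mul_assoc, Units.inv_mul, Matrix.mul_one] at h2
        simp only [← Matrix.mul_assoc, Units.inv_mul, Matrix.one_mul] at h2
        rw [← h2]
        exact hιK a
    have hall := hAbs F L k c (by rw [hfr]; exact hr) hk2 hnon (Algebra.trace F L) hτ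
    have hnt : Nontrivial (Fin n) := Fin.nontrivial_iff_two_le.mpr (by omega)
    apply Cfsg.Agent.Lib.Helper94.Tv.specialLinear_le_of_tv
    intro φ' w h
    obtain ⟨φ, hφ⟩ := hDual F L k (Algebra.trace F L) hτ (φ' ∘ₗ Φ.symm.toLinearMap)
    have hφ' : ∀ x : Fin n → F, Algebra.trace F L (φ (Φ x)) = φ' x := by
      intro x
      rw [← hφ, LinearMap.comp_apply, LinearEquiv.coe_coe, LinearEquiv.symm_apply_apply]
    obtain ⟨e, he, hE⟩ := hall (Φ w) φ (by rw [hφ', h])
    rw [hcM] at he
    obtain ⟨g, hg, rfl⟩ := he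
    have heq : g = Cfsg.Agent.Lib.Helper94.Tv.gtv φ' w h := by
      apply Cfsg.Agent.Lib.Helper94.Tv.gl_ext
      intro x
      rw [Cfsg.Agent.Lib.Helper94.Tv.gtv_mulVec]
      apply Φ.injective
      have h1 := hE (Φ x)
      rw [trHom_apply, LinearEquiv.symm_apply_apply] at h1
      rw [h1, map_add, map_smul, hφ']
    rw [← heq]
    exact hg
  -- a determinant-one element outside the normalizer
  have hwit : ∃ g ∈ Cfsg.Geo.specialLinear (Fin n) F, g ∉ Cfsg.Geo.subalgebraNormalizer K := by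
    obtain ⟨i₀, j₀, hij⟩ : ∃ i₀ j₀ : Fin n, i₀ ≠ j₀ :=
      ⟨⟨0, by omega⟩, ⟨1, by omega⟩, by
        intro h
        have := congrArg Fin.val h
        simp at this⟩
    have h0 : (LinearMap.proj j₀ : (Fin n → F) →ₗ[F] F) (Pi.single i₀ 1) = 0 := by
      rw [LinearMap.proj_apply, Pi.single_eq_of_ne (Ne.symm hij)]
    refine ⟨Cfsg.Agent.Lib.Helper94.Tv.gtv (LinearMap.proj j₀) (Pi.single i₀ 1) h0,
      Cfsg.Agent.Lib.Helper94.Tv.gtv_mem_SL _ _ _, ?_⟩
    intro hT
    have hval : (Cfsg.Agent.Lib.Helper94.Tv.gtv (LinearMap.proj j₀ : (Fin n → F) →ₗ[F] F)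
        (Pi.single i₀ 1) h0).val =
        1 + Matrix.vecMulVec (Pi.single i₀ (1 : F)) (Pi.single j₀ (1 : F)) := by
      apply Cfsg.Agent.Lib.Helper40.KStr.ext_mulVec
      intro x
      rw [Cfsg.Agent.Lib.Helper94.Tv.gtv_mulVec, Matrix.add_mulVec, Matrix.one_mulVec,
        Matrix.vecMulVec_mulVec, single_dotProduct, one_mul, LinearMap.proj_apply,
        op_smul_eq_smul]
    have hd : (Pi.single i₀ (1 : F) : Fin n → F) ≠ 0 := by
      intro h
      have := congrFun h i₀
      simp at this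
    have he : (Pi.single j₀ (1 : F) : Fin n → F) ≠ 0 := by
      intro h
      have := congrFun h j₀
      simp at this
    have hcard : 3 ≤ Fintype.card (Fin n) := by
      rw [Fintype.card_fin]
      exact hn3
    have hsc := Cfsg.Agent.Lib.Helper40.KWit.transv_no_norm hcard K
      (fun x hx hx0 => by
        obtain ⟨y, -, hy⟩ := hK.inv x hx hx0
        exact ⟨y, hy⟩)
      (Pi.single i₀ (1 : F)) (Pi.single j₀ (1 : F)) hd he
      ((Cfsg.Agent.Lib.Helper94.Tv.gtv (LinearMap.proj j₀ : (Fin n → F) →ₗ[F] F)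
        (Pi.single i₀ 1) h0)⁻¹).val
      (by rw [← hval]; exact Units.mul_inv _)
      (fun a ha => by rw [← hval]; exact (hT a).mp ha)
    have h1 : ∀ w : L, ∃ c : F, c • (1 : L) = w := by
      intro a
      obtain ⟨l, hl⟩ := hsc (ι a) (hιK a)
      refine ⟨l, hinj ?_⟩
      rw [hl, map_smul, map_one]
    have h2 : Module.finrank F L = 1 :=
      (finrank_eq_one_iff_of_nonzero' (1 : L) one_ne_zero).mpr h1
    rw [hfr] at h2
    omega
  -- determinants of the normalizer
  have hdetN : ∀ x : GL (Fin n) F, ∃ y ∈ Cfsg.Geo.subalgebraNormalizer K,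
      y⁻¹ * x ∈ Cfsg.Geo.specialLinear (Fin n) F := by
    intro x
    have hx0 : x.val.det ≠ 0 := by
      have := (Matrix.isUnit_iff_isUnit_det x.val).mp x.isUnit
      exact this.ne_zero
    obtain ⟨h, hh⟩ := hDet F L k (by omega) x.val.det hx0
    obtain ⟨y, hyN, hydet, -⟩ := hmat h
    refine ⟨y, hyN, ?_⟩
    rw [mem_specialLinear_iff, Units.val_mul, Matrix.det_mul]
    have hy1 : (y⁻¹).val.det * y.val.det = 1 := by
      rw [← Matrix.det_mul, Units.inv_mul, Matrix.det_one]
    rw [hydet, hh] at hy1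
    exact hy1
  constructor
  · constructor
    · intro htop
      obtain ⟨g, -, hg⟩ := hwit
      apply hg
      rw [htop]
      exact Subgroup.mem_top g
    · intro M hlt'
      obtain ⟨g₀, hg₀M, hg₀N⟩ := SetLike.exists_of_lt hlt'
      have hSL := hcore M (inf_le_left.trans hlt'.le) g₀ hg₀M hg₀N
      rw [eq_top_iff]
      intro x _
      obtain ⟨y, hy, hyx⟩ := hdetN x
      have hx : x = y * (y⁻¹ * x) := by group
      rw [hx]
      exact M.mul_mem (hlt'.le hy) (hSL hyx)
  · refine ⟨?_, ?_⟩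
    · refine lt_of_le_of_ne inf_le_right ?_
      intro heq
      obtain ⟨g, hgS, hgN⟩ := hwit
      rw [← heq] at hgS
      exact hgN hgS.1
    · intro M hHM hMS
      by_cases hMH : M = Cfsg.Geo.subalgebraNormalizer K ⊓ Cfsg.Geo.specialLinear (Fin n) F
      · exact Or.inl hMH
      right
      obtain ⟨g₀, hg₀M, hg₀N⟩ : ∃ g ∈ M, g ∉ Cfsg.Geo.subalgebraNormalizer K := by
        by_contra hcon
        push Not at hcon
        apply hMH
        apply le_antisymm
        · intro g hg
          exact ⟨hcon g hg, hMS hg⟩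
        · exact hHM
      exact le_antisymm hMS (hcore M hHM g₀ hg₀M hg₀N)

end Cfsg.Agent.Lib.Helper40.GFTop
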