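import Mathlib
import Cfsg.Agent.Lib.Helper40.SSCount
import Cfsg.Agent.Lib.Helper40.CycloVal
import Cfsg.Agent.S2568

set_option autoImplicit false

namespace Cfsg.Agent.Lib.Helper40.PrimeElts

open Matrix Polynomial

variable {F : Type*} [Field F]

/-- A unipotent element with a single Jordan block of size 3. -/
theorem unip_elt (p : ℕ) [Fact p.Prime] [CharP F p] (hp2 : p ≠ 2) (n : ℕ) (hn : 3 ≤ n) :
    ∃ x₀ : Matrix (Fin n) (Fin n) F, x₀.det = 1 ∧ x₀ ^ p = 1 ∧
      (∀ z : F, x₀ ≠ z • (1 : Matrix (Fin n) (Fin n) F)) ∧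
      ((x₀ - 1) * (x₀ - 1)).rank = 1 := by
  classical
  have hp : p.Prime := Fact.out
  obtain ⟨i0, i1, i2, h01, h12, h02⟩ : ∃ i0 i1 i2 : Fin n, i0 ≠ i1 ∧ i1 ≠ i2 ∧ i0 ≠ i2 :=
    ⟨⟨0, by omega⟩, ⟨1, by omega⟩, ⟨2, by omega⟩, by simp [Fin.ext_iff], by simp [Fin.ext_iff],
      by simp [Fin.ext_iff]⟩
  have : Nonempty (Fin n) := ⟨i0⟩
  obtain ⟨N, hN⟩ : ∃ N : Matrix (Fin n) (Fin n) F,
      N = Matrix.single i0 i1 1 + Matrix.single i1 i2 1 + Matrix.single i0 i2 1 := ⟨_, rfl⟩
  have hNN : N * N = Matrix.single i0 i2 1 := by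
    rw [hN]
    simp [Matrix.add_mul, Matrix.mul_add, Matrix.single_mul_single_of_ne, h01, h12, h02,
      h01.symm, h12.symm, h02.symm]
  have hN3 : N * N * N = 0 := by
    rw [hNN, hN]
    simp [Matrix.mul_add, Matrix.single_mul_single_of_ne, h01, h12, h02,
      h01.symm, h12.symm, h02.symm]
  refine ⟨1 + N, ?_, ?_, ?_, ?_⟩
  · have e : (1 : Matrix (Fin n) (Fin n) F) + N =
        Matrix.transvection i0 i1 1 * Matrix.transvection i1 i2 1 := by
      unfold Matrix.transvection
      rw [Matrix.add_mul, Matrix.one_mul, Matrix.mul_add, Matrix.mul_one,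
        Matrix.single_mul_single_same, hN, mul_one]
      abel
    rw [e, Matrix.det_mul, Matrix.det_transvection_of_ne _ _ h01,
      Matrix.det_transvection_of_ne _ _ h12, mul_one]
  · rw [add_pow_char_of_commute p (Commute.one_left N), one_pow]
    have h3 : 3 ≤ p := by
      have := hp.two_le
      omega
    have e : N ^ p = N * N * N * N ^ (p - 3) := by
      have e1 : p = 3 + (p - 3) := by omega
      conv_lhs => rw [e1]
      rw [pow_add, pow_succ, pow_two]
    rw [e, hN3, Matrix.zero_mul, add_zero]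
  · intro z hz
    have h1 := congrFun (congrFun hz i0) i1
    rw [Matrix.add_apply, Matrix.one_apply_ne h01, hN, Matrix.smul_apply, Matrix.one_apply_ne h01,
      smul_zero] at h1
    simp [Matrix.single_apply, h01, h12, h02, h01.symm, h12.symm, h02.symm] at h1
  · rw [add_sub_cancel_left, hNN]
    have e : Matrix.single i0 i2 (1 : F) =
        (Matrix.diagonal (Pi.single i0 (1 : F))).submatrix (Equiv.refl (Fin n))
          (Equiv.swap i0 i2) := by
      ext a b
      rw [Matrix.single_apply, Matrix.submatrix_apply, Equiv.refl_apply, Matrix.diagonal_apply]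
      by_cases ha : i0 = a
      · subst ha
        by_cases hb : i2 = b
        · subst hb
          simp
        · have h1 : i0 ≠ Equiv.swap i0 i2 b := by
            intro h2
            have h3 := congrArg (Equiv.swap i0 i2) h2
            rw [Equiv.swap_apply_left, Equiv.swap_apply_self] at h3
            exact hb h3
          simp [hb, h1]
      · have h1 : (Pi.single i0 (1 : F) : Fin n → F) a = 0 := Pi.single_eq_of_ne (Ne.symm ha) _
        simp [ha, h1]
    rw [e, Matrix.rank_submatrix, Matrix.rank_diagonal, Fintype.card_subtype]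
    have e2 : (Finset.univ.filter (fun i : Fin n => (Pi.single i0 (1 : F) : Fin n → F) i ≠ 0)) =
        {i0} := by
      ext a
      simp only [Finset.mem_filter, Finset.mem_univ, true_and, Finset.mem_singleton]
      constructor
      · intro h1
        by_contra h2
        exact h1 (Pi.single_eq_of_ne h2 _)
      · rintro rfl
        simp
    rw [e2, Finset.card_singleton]

/-- If `q` has order `≠ 1` modulo `r`, the field has no non-trivial `r`-th roots of unity. -/
theorem root_trivial [Fintype F] (r : ℕ) (hr : r.Prime)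
    (hi : orderOf ((Fintype.card F : ℕ) : ZMod r) ≠ 1) (c : F) (hc : c ^ r = 1) : c = 1 := by
  have hc0 : c ≠ 0 := by
    rintro rfl
    rw [zero_pow hr.ne_zero] at hc
    exact zero_ne_one hc
  have h1 := FiniteField.pow_card_sub_one_eq_one c hc0
  have hnd : ¬ r ∣ Fintype.card F - 1 := by
    intro hd
    apply hi
    rw [orderOf_eq_one_iff]
    have hq : 1 ≤ Fintype.card F := Fintype.card_pos
    have e : Fintype.card F = (Fintype.card F - 1) + 1 := by omega
    rw [e, Nat.cast_add, (ZMod.natCast_eq_zero_iff _ _).mpr hd, zero_add, Nat.cast_one]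
  have hcop : Nat.gcd r (Fintype.card F - 1) = 1 := (Nat.Prime.coprime_iff_not_dvd hr).mpr hnd
  have h2 := pow_gcd_eq_one.mpr ⟨hc, h1⟩
  rw [hcop, pow_one] at h2
  exact h2

theorem fromBlocks_pow' {a b : ℕ} (M : Matrix (Fin a) (Fin a) F) (k : ℕ) :
    (Matrix.fromBlocks M 0 0 (1 : Matrix (Fin b) (Fin b) F)) ^ k =
      Matrix.fromBlocks (M ^ k) 0 0 1 := by
  induction k with
  | zero => rw [pow_zero, pow_zero, Matrix.fromBlocks_one]
  | succ k ih =>
    rw [pow_succ, ih, Matrix.fromBlocks_multiply, pow_succ]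
    simp

theorem rank_fromBlocks' {a b : ℕ} (K : Matrix (Fin a) (Fin a) F) (hK : IsUnit K.det) :
    (Matrix.fromBlocks K 0 0 (0 : Matrix (Fin b) (Fin b) F)).rank = a := by
  classical
  have e : Matrix.fromBlocks K 0 0 (0 : Matrix (Fin b) (Fin b) F) =
      Matrix.fromBlocks K 0 0 (1 : Matrix (Fin b) (Fin b) F) *
        Matrix.fromBlocks (1 : Matrix (Fin a) (Fin a) F) 0 0 (0 : Matrix (Fin b) (Fin b) F) := by
    rw [Matrix.fromBlocks_multiply]
    simp
  have hdet : IsUnit (Matrix.fromBlocks K 0 0 (1 : Matrix (Fin b) (Fin b) F)).det := by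
    rw [Matrix.det_fromBlocks_zero₁₂, Matrix.det_one, mul_one]
    exact hK
  have e2 : Matrix.fromBlocks (1 : Matrix (Fin a) (Fin a) F) 0 0 (0 : Matrix (Fin b) (Fin b) F) =
      Matrix.diagonal (Sum.elim (fun _ => (1 : F)) (fun _ => (0 : F))) := by
    rw [← Matrix.diagonal_one, ← Matrix.diagonal_zero, Matrix.fromBlocks_diagonal]
  rw [e, Matrix.rank_mul_eq_right_of_isUnit_det _ _ hdet, e2, Matrix.rank_diagonal,
    Fintype.card_subtype, Finset.card_filter, Fintype.sum_sum_type]
  simp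

/-- A semisimple element acting irreducibly on an `i`-space and trivially on a complement. -/
theorem block_elt [Fintype F] (p : ℕ) [Fact p.Prime] [CharP F p] (r : ℕ) (hr : r.Prime)
    (hrp : r ≠ p) (i : ℕ) (hi : i = orderOf ((Fintype.card F : ℕ) : ZMod r)) (hi2 : 2 ≤ i)
    (n : ℕ) (hin : i < n) :
    ∃ x₀ : Matrix (Fin n) (Fin n) F, x₀.det = 1 ∧ x₀ ^ r = 1 ∧
      (∀ z : F, x₀ ≠ z • (1 : Matrix (Fin n) (Fin n) F)) ∧
      ((x₀ - 1) * (x₀ - 1)).rank = i := by
  classical
  have : Fact r.Prime := ⟨hr⟩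
  have hp : p.Prime := Fact.out
  have hrq : ¬ r ∣ Fintype.card F := by
    intro hd
    obtain ⟨e, -, he⟩ := FiniteField.card F p
    rw [he] at hd
    exact hrp ((Nat.prime_dvd_prime_iff_eq hr hp).mp (hr.dvd_of_dvd_pow hd))
  have hroot : ∀ c : F, c ^ r = 1 → c = 1 :=
    root_trivial r hr (by rw [← hi]; omega)
  -- `i ∣ r - 1`
  have hidvd : i ∣ r - 1 := by
    rw [hi]
    apply orderOf_dvd_of_pow_eq_one
    apply ZMod.pow_card_sub_one_eq_one
    rw [Ne, ZMod.natCast_eq_zero_iff]
    exact hrq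
  obtain ⟨t, ht⟩ := hidvd
  have ht' : t * i = r - 1 := by rw [ht, mul_comm]
  obtain ⟨S, hScard, hS1, hSirr, hSiff⟩ := Cfsg.Agent.S2568.cyclo_facts (F := F) (p := p) r i t hr hrp hi ht'
  have htpos : 0 < t := by
    rcases Nat.eq_zero_or_pos t with h0 | h0
    · rw [h0, zero_mul] at ht'
      have := hr.two_le
      omega
    · exact h0
  obtain ⟨P, hP⟩ : ∃ P, P ∈ S := by
    apply Finset.card_pos.mp
    rw [hScard]
    exact htpos
  obtain ⟨hPirr, hPm, hPd⟩ := hSirr P hP
  have hPdvd : P ∣ X ^ r - C (1 : F) := (hSiff P hPirr hPm).mpr (Or.inr hP)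
  have hPne : P ≠ X - C (1 : F) := by
    rintro rfl
    exact hS1 hP
  have hP1 : P.eval 1 ≠ 0 := by
    intro h0
    have h1 : X - C (1 : F) ∣ P := Polynomial.dvd_iff_isRoot.mpr h0
    obtain ⟨u, hu⟩ := h1
    have h2 : IsUnit u := by
      rcases hPirr.isUnit_or_isUnit hu with h3 | h3
      · exact absurd h3 (Polynomial.not_isUnit_X_sub_C 1)
      · exact h3
    apply hPne
    apply Polynomial.eq_of_monic_of_associated hPm (Polynomial.monic_X_sub_C 1)
    obtain ⟨u', rfl⟩ := h2
    exact ⟨u'⁻¹, by rw [hu, mul_assoc, Units.mul_inv, mul_one]⟩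
  have hP0 : P.coeff 0 ≠ 0 := by
    intro h0
    have h1 : X ∣ P := Polynomial.X_dvd_iff.mpr h0
    have h2 : (X : F[X]) ∣ X ^ r - C (1 : F) := h1.trans hPdvd
    have h3 := Polynomial.X_dvd_iff.mp h2
    have hr0 : (0 : ℕ) ≠ r := hr.ne_zero.symm
    simp [hr0] at h3
  obtain ⟨M, hMc, -⟩ := Cfsg.Agent.Lib.Helper40.SSCount.exists_charpoly p i P hPm hPd hP0
  have hMr : M ^ r = 1 := by
    have h1 : Polynomial.aeval M P = 0 := by
      rw [← hMc]
      exact Matrix.aeval_self_charpoly M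
    obtain ⟨Q, hQ⟩ := hPdvd
    have h2 := congrArg (Polynomial.aeval M) hQ
    rw [map_mul, h1, zero_mul, map_sub, map_pow, Polynomial.aeval_X, Polynomial.aeval_C, map_one] at h2
    exact sub_eq_zero.mp h2
  have hMdet : M.det = 1 := by
    apply hroot
    rw [← Matrix.det_pow, hMr, Matrix.det_one]
  have hM1 : IsUnit ((M - 1) * (M - 1)).det := by
    have h1 := Matrix.eval_charpoly M 1
    rw [hMc, map_one] at h1
    have h2 : (M - 1).det ≠ 0 := by
      intro h0
      apply hP1
      rw [h1]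
      have e : (1 : Matrix (Fin i) (Fin i) F) - M = -(M - 1) := by abel
      rw [e, Matrix.det_neg, h0, mul_zero]
    rw [Matrix.det_mul]
    exact IsUnit.mk0 _ (mul_ne_zero h2 h2)
  obtain ⟨e, -⟩ : ∃ e : Fin i ⊕ Fin (n - i) ≃ Fin n, True :=
    ⟨finSumFinEquiv.trans (finCongr (by omega)), trivial⟩
  obtain ⟨B, hB⟩ : ∃ B : Matrix (Fin i ⊕ Fin (n - i)) (Fin i ⊕ Fin (n - i)) F,
      B = Matrix.fromBlocks M 0 0 1 := ⟨_, rfl⟩
  have hrank : (((Matrix.reindexAlgEquiv F F e) B - 1) *
      ((Matrix.reindexAlgEquiv F F e) B - 1)).rank = i := by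
    have e1 : ((Matrix.reindexAlgEquiv F F e) B - 1) * ((Matrix.reindexAlgEquiv F F e) B - 1) =
        (Matrix.reindexAlgEquiv F F e) ((B - 1) * (B - 1)) := by
      rw [map_mul, map_sub, map_one]
    have e2 : (B - 1) * (B - 1) = Matrix.fromBlocks ((M - 1) * (M - 1)) 0 0 0 := by
      have e3 : B - 1 = Matrix.fromBlocks (M - 1) 0 0 0 := by
        rw [hB, ← Matrix.fromBlocks_one, sub_eq_add_neg, Matrix.fromBlocks_neg,
          Matrix.fromBlocks_add]
        simp [sub_eq_add_neg]
      rw [e3, Matrix.fromBlocks_multiply]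
      simp
    rw [e1, Matrix.coe_reindexAlgEquiv, Matrix.rank_reindex, e2, rank_fromBlocks' _ hM1]
  refine ⟨(Matrix.reindexAlgEquiv F F e) B, ?_, ?_, ?_, hrank⟩
  · rw [Matrix.det_reindexAlgEquiv, hB, Matrix.det_fromBlocks_zero₁₂, Matrix.det_one, mul_one, hMdet]
  · rw [← map_pow, hB, fromBlocks_pow', hMr, Matrix.fromBlocks_one, map_one]
  · intro z hz
    rw [hz] at hrank
    have e4 : (z • (1 : Matrix (Fin n) (Fin n) F) - 1) * (z • (1 : Matrix (Fin n) (Fin n) F) - 1) =
        ((z - 1) * (z - 1)) • (1 : Matrix (Fin n) (Fin n) F) := by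
      have e5 : z • (1 : Matrix (Fin n) (Fin n) F) - 1 = (z - 1) • (1 : Matrix (Fin n) (Fin n) F) := by
        rw [sub_smul, one_smul]
      rw [e5, Matrix.smul_mul, Matrix.mul_smul, Matrix.one_mul, smul_smul]
    rw [e4] at hrank
    by_cases hz1 : z = 1
    · rw [hz1, sub_self, zero_mul, zero_smul, Matrix.rank_zero] at hrank
      omega
    · have hu : IsUnit (((z - 1) * (z - 1)) • (1 : Matrix (Fin n) (Fin n) F)) := by
        rw [Matrix.isUnit_iff_isUnit_det, Matrix.det_smul, Matrix.det_one, mul_one]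
        exact (IsUnit.mk0 _ (mul_ne_zero (sub_ne_zero.mpr hz1) (sub_ne_zero.mpr hz1))).pow _
      rw [Matrix.rank_of_isUnit _ hu, Fintype.card_fin] at hrank
      omega

/-- The diagonal element `diag(λ, λ, λ, λ⁻³, 1, …, 1)` violates the rank conditions satisfied by
the elements of odd prime order `r` conjugate into a symplectic similarity group. -/
theorem diag_elt (r : ℕ) (hr : r.Prime) (hr2 : r ≠ 2) (n : ℕ) (hn : 4 ≤ n) (he : Even n)
    (hgap : ¬ (n = 6 ∧ r = 3)) (lam : F) (hlam : orderOf lam = r) :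
    ∃ x₀ : Matrix (Fin n) (Fin n) F, x₀.det = 1 ∧ x₀ ^ r = 1 ∧
      (∀ z : F, x₀ ≠ z • (1 : Matrix (Fin n) (Fin n) F)) ∧
      (∀ ν : F, ν ^ r = 1 →
        Even (((x₀ - ν • (1 : Matrix (Fin n) (Fin n) F)) *
          (x₀ - ν • (1 : Matrix (Fin n) (Fin n) F))).rank) →
        (∀ a : F, a ≠ 0 → (x₀ - (ν * a) • (1 : Matrix (Fin n) (Fin n) F)).rank =
          (x₀ - (ν * a⁻¹) • (1 : Matrix (Fin n) (Fin n) F)).rank) → False) := by
  classical
  obtain ⟨k, rfl⟩ := Nat.exists_eq_add_of_le hn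
  have hlr : lam ^ r = 1 := by rw [← hlam]; exact pow_orderOf_eq_one lam
  have hl1 : lam ≠ 1 := by
    rintro rfl
    rw [orderOf_one] at hlam
    exact hr.one_lt.ne hlam
  have hl0 : lam ≠ 0 := by
    rintro rfl
    rw [zero_pow hr.ne_zero] at hlr
    exact zero_ne_one hlr
  have hrodd : Nat.gcd 2 r = 1 := by
    rw [Nat.gcd_comm]
    apply (Nat.Prime.coprime_iff_not_dvd hr).mpr
    intro h2
    exact hr2 ((Nat.prime_dvd_prime_iff_eq hr Nat.prime_two).mp h2)
  have hr4 : Nat.gcd 4 r = 1 := by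
    have h2 : Nat.Coprime (2 * 2) r := Nat.Coprime.mul_left hrodd hrodd
    exact h2
  have hl4 : lam ^ 4 ≠ 1 := by
    intro h4
    have h5 := pow_gcd_eq_one.mpr ⟨h4, hlr⟩
    rw [hr4, pow_one] at h5
    exact hl1 h5
  have h43 : lam⁻¹ ^ 3 ≠ lam := by
    intro h
    apply hl4
    have h2 : lam ^ 4 = lam ^ 3 * lam⁻¹ ^ 3 := by
      rw [h]
      exact pow_succ lam 3
    rw [h2, ← mul_pow, mul_inv_cancel₀ hl0, one_pow]
  obtain ⟨dd, hdd⟩ : ∃ dd : ℕ → F,
      dd = fun j => if j < 3 then lam else if j = 3 then lam⁻¹ ^ 3 else 1 := ⟨_, rfl⟩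
  have e0 : dd 0 = lam := by rw [hdd]; simp
  have e1 : dd 1 = lam := by rw [hdd]; simp
  have e2 : dd 2 = lam := by rw [hdd]; simp
  have e3 : dd 3 = lam⁻¹ ^ 3 := by rw [hdd]; simp
  have e4 : ∀ x : ℕ, dd (4 + x) = 1 := by
    intro x
    rw [hdd]
    show (if 4 + x < 3 then lam else if 4 + x = 3 then lam⁻¹ ^ 3 else 1) = 1
    rw [if_neg (by omega), if_neg (by omega)]
  obtain ⟨d, hd⟩ : ∃ d : Fin (4 + k) → F, d = fun j : Fin (4 + k) => dd (j : ℕ) := ⟨_, rfl⟩
  have hcnt : ∀ s : F, (Finset.univ.filter (fun j : Fin (4 + k) => d j = s)).card =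
      3 * (if lam = s then 1 else 0) + (if lam⁻¹ ^ 3 = s then 1 else 0) +
        k * (if (1 : F) = s then 1 else 0) := by
    intro s
    rw [Finset.card_filter, hd,
      Fin.sum_univ_eq_sum_range (fun j => if dd j = s then 1 else 0) (4 + k),
      Finset.sum_range_add]
    have h1 : ∑ x ∈ Finset.range k, (if dd (4 + x) = s then 1 else 0) =
        k * (if (1 : F) = s then 1 else 0) := by
      rw [Finset.sum_congr rfl (fun x _ => by rw [e4 x]), Finset.sum_const, Finset.card_range,
        smul_eq_mul]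
    rw [h1, Finset.sum_range_succ, Finset.sum_range_succ, Finset.sum_range_succ,
      Finset.sum_range_succ, Finset.sum_range_zero, e0, e1, e2, e3]
    ring
  have hdr : ∀ j, d j ^ r = 1 := by
    intro j
    rw [hd, hdd]
    show (if (j : ℕ) < 3 then lam else if (j : ℕ) = 3 then lam⁻¹ ^ 3 else 1) ^ r = 1
    split_ifs
    · exact hlr
    · rw [← pow_mul, mul_comm, pow_mul, inv_pow, hlr, inv_one, one_pow]
    · exact one_pow r
  have hdet : ∏ j, d j = 1 := by
    rw [hd, Fin.prod_univ_eq_prod_range dd (4 + k), Finset.prod_range_add,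
      Finset.prod_congr rfl (fun x _ => e4 x), Finset.prod_const_one, mul_one,
      Finset.prod_range_succ, Finset.prod_range_succ, Finset.prod_range_succ,
      Finset.prod_range_succ, Finset.prod_range_zero, e0, e1, e2, e3, one_mul]
    have h1 : lam * lam * lam * lam⁻¹ ^ 3 = (lam * lam⁻¹) ^ 3 := by ring
    rw [h1, mul_inv_cancel₀ hl0, one_pow]
  have hrank1 : ∀ s : F, (Matrix.diagonal d - s • (1 : Matrix (Fin (4 + k)) (Fin (4 + k)) F)).rank +
      (Finset.univ.filter (fun j : Fin (4 + k) => d j = s)).card = 4 + k := by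
    intro s
    rw [Matrix.smul_one_eq_diagonal, Matrix.diagonal_sub, Matrix.rank_diagonal,
      Fintype.card_subtype]
    have h1 := Finset.card_filter_add_card_filter_not (s := (Finset.univ : Finset (Fin (4 + k))))
      (fun j => d j = s)
    rw [Finset.card_univ, Fintype.card_fin] at h1
    have h2 : (Finset.univ.filter (fun j : Fin (4 + k) => d j - s ≠ 0)) =
        (Finset.univ.filter (fun j : Fin (4 + k) => ¬ d j = s)) := by
      apply Finset.filter_congr
      intro j _
      rw [Ne, sub_eq_zero]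
    rw [h2]
    omega
  have hrank2 : ∀ s : F, ((Matrix.diagonal d - s • (1 : Matrix (Fin (4 + k)) (Fin (4 + k)) F)) *
      (Matrix.diagonal d - s • (1 : Matrix (Fin (4 + k)) (Fin (4 + k)) F))).rank +
      (Finset.univ.filter (fun j : Fin (4 + k) => d j = s)).card = 4 + k := by
    intro s
    rw [Matrix.smul_one_eq_diagonal, Matrix.diagonal_sub, Matrix.diagonal_mul_diagonal,
      Matrix.rank_diagonal, Fintype.card_subtype]
    have h1 := Finset.card_filter_add_card_filter_not (s := (Finset.univ : Finset (Fin (4 + k))))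
      (fun j => d j = s)
    rw [Finset.card_univ, Fintype.card_fin] at h1
    have h2 : (Finset.univ.filter (fun j : Fin (4 + k) => (d j - s) * (d j - s) ≠ 0)) =
        (Finset.univ.filter (fun j : Fin (4 + k) => ¬ d j = s)) := by
      apply Finset.filter_congr
      intro j _
      rw [Ne, mul_self_eq_zero, sub_eq_zero]
    rw [h2]
    omega
  refine ⟨Matrix.diagonal d, ?_, ?_, ?_, ?_⟩
  · rw [Matrix.det_diagonal, hdet]
  · rw [Matrix.diagonal_pow]
    have h1 : d ^ r = 1 := funext hdr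
    rw [h1]
    exact Matrix.diagonal_one
  · intro z hz
    have h0 := congrFun (congrFun hz ⟨0, by omega⟩) ⟨0, by omega⟩
    have h3 := congrFun (congrFun hz ⟨3, by omega⟩) ⟨3, by omega⟩
    rw [Matrix.diagonal_apply_eq, Matrix.smul_apply, Matrix.one_apply_eq, smul_eq_mul,
      mul_one] at h0 h3
    rw [hd] at h0 h3
    have h0' : dd 0 = z := h0
    have h3' : dd 3 = z := h3
    rw [e0] at h0'
    rw [e3, ← h0'] at h3'
    exact h43 h3'
  · intro ν hν hev hsym
    have hν0 : ν ≠ 0 := by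
      rintro rfl
      rw [zero_pow hr.ne_zero] at hν
      exact zero_ne_one hν
    have h1 := hsym (lam * ν⁻¹) (mul_ne_zero hl0 (inv_ne_zero hν0))
    have ea : ν * (lam * ν⁻¹) = lam := by
      rw [mul_comm lam, ← mul_assoc, mul_inv_cancel₀ hν0, one_mul]
    have eb : ν * (lam * ν⁻¹)⁻¹ = ν * ν * lam⁻¹ := by
      rw [mul_inv, inv_inv, mul_comm lam⁻¹, mul_assoc]
    rw [ea, eb] at h1
    obtain ⟨s, hs⟩ : ∃ s, s = ν * ν * lam⁻¹ := ⟨_, rfl⟩
    rw [← hs] at h1
    have c1 := hcnt lam
    have c2 := hcnt s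
    have r1 := hrank1 lam
    have r2 := hrank1 s
    rw [if_pos rfl, if_neg h43, if_neg (Ne.symm hl1)] at c1
    by_cases hls : lam = s
    · have hνl : ν = lam := by
        have h2 : (ν * lam⁻¹) ^ 2 = 1 := by
          rw [pow_two]
          calc ν * lam⁻¹ * (ν * lam⁻¹) = (ν * ν * lam⁻¹) * lam⁻¹ := by ring
            _ = 1 := by rw [← hs, ← hls, mul_inv_cancel₀ hl0]
        have h3 : (ν * lam⁻¹) ^ r = 1 := by rw [mul_pow, hν, inv_pow, hlr, inv_one, mul_one]
        have h4 := pow_gcd_eq_one.mpr ⟨h2, h3⟩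
        rw [hrodd, pow_one] at h4
        calc ν = ν * lam⁻¹ * lam := by rw [mul_assoc, inv_mul_cancel₀ hl0, mul_one]
          _ = lam := by rw [h4, one_mul]
      have r3 := hrank2 ν
      rw [hνl] at r3 hev
      obtain ⟨a, ha⟩ := hev
      obtain ⟨b, hb⟩ := he
      omega
    · rw [if_neg hls] at c2
      by_cases h1s : (1 : F) = s
      · rw [if_pos h1s] at c2
        by_cases h3 : lam⁻¹ ^ 3 = s
        · rw [if_pos h3] at c2
          have hk : k = 2 := by omega
          have hl3 : lam ^ 3 = 1 := by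
            have h5 : lam⁻¹ ^ 3 = 1 := by rw [h3, ← h1s]
            rw [inv_pow] at h5
            exact inv_eq_one.mp h5
          have hr3 : r = 3 := by
            have h6 := orderOf_dvd_of_pow_eq_one hl3
            rw [hlam] at h6
            exact (Nat.prime_dvd_prime_iff_eq hr Nat.prime_three).mp h6
          exact hgap ⟨by omega, hr3⟩
        · rw [if_neg h3] at c2
          obtain ⟨b, hb⟩ := he
          omega
      · rw [if_neg h1s] at c2
        split_ifs at c2 <;> omega

end Cfsg.Agent.Lib.Helper40.PrimeElts
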