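import Mathlib
import Cfsg.Agent.Lib.Helper40.CycloVal

set_option autoImplicit false

namespace Cfsg.Agent.Lib.Helper40.RootPow

section
variable {F : Type*} [Field F] [Fintype F]

theorem card_units' : Nat.card Fˣ = Fintype.card F - 1 := by
  rw [Nat.card_units, Nat.card_eq_fintype_card]

theorem card_sub_one_ne_zero : Fintype.card F - 1 ≠ 0 := by
  have := Fintype.one_lt_card (α := F)
  omega

/-- `q` has order `1` modulo `r` iff `r ∣ q - 1`. -/
theorem order_eq_one_iff (r : ℕ) [Fact r.Prime] :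
    orderOf ((Fintype.card F : ℕ) : ZMod r) = 1 ↔ r ∣ Fintype.card F - 1 := by
  have h := Cfsg.Agent.Lib.Helper40.CycloVal.dvd_pow_sub_one_iff (Fintype.card F) r
    Fintype.card_pos 1
  rw [pow_one, Nat.dvd_one] at h
  exact h.symm

/-- If `r ∤ q - 1`, every element of the field is an `r`-th power. -/
theorem exists_root (r : ℕ) (hr : r.Prime) (h : ¬ r ∣ Fintype.card F - 1) (c : F) :
    ∃ d : F, d ^ r = c := by
  by_cases hc : c = 0
  · exact ⟨0, by rw [hc, zero_pow hr.ne_zero]⟩
  · have hcop : (Nat.card Fˣ).Coprime r := by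
      rw [card_units', Nat.coprime_comm]
      exact (Nat.Prime.coprime_iff_not_dvd hr).mpr h
    obtain ⟨d, hd⟩ := (powCoprime hcop).surjective (Units.mk0 c hc)
    refine ⟨(d : F), ?_⟩
    have h1 := congrArg Units.val hd
    rw [powCoprime_apply, Units.val_pow_eq_pow_val, Units.val_mk0] at h1
    exact h1

/-- A non-`r`-th-power has order divisible by the full `r`-part of `q - 1`. -/
theorem pow_dvd_orderOf (r : ℕ) [Fact r.Prime] (w : F) (hw : ∀ d : F, d ^ r ≠ w) :
    r ^ padicValNat r (Fintype.card F - 1) ∣ orderOf w := by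
  have hr : r.Prime := Fact.out
  have hw0 : w ≠ 0 := by
    rintro rfl
    exact hw 0 (zero_pow hr.ne_zero)
  obtain ⟨g, hg⟩ := IsCyclic.exists_generator (α := Fˣ)
  have hog : orderOf g = Fintype.card F - 1 := by
    rw [orderOf_eq_card_of_forall_mem_zpowers hg, card_units']
  obtain ⟨k, hk⟩ := (mem_powers_iff_mem_zpowers.mpr (hg (Units.mk0 w hw0)))
  have hk' : g ^ k = Units.mk0 w hw0 := hk
  have hrk : ¬ r ∣ k := by
    rintro ⟨k', rfl⟩
    apply hw ((g ^ k' : Fˣ) : F)
    have h1 := congrArg Units.val hk'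
    rw [Units.val_mk0] at h1
    rw [← h1, ← Units.val_pow_eq_pow_val, ← pow_mul, mul_comm]
  have hq1 : Fintype.card F - 1 ≠ 0 := card_sub_one_ne_zero
  have how : orderOf (Units.mk0 w hw0) =
      (Fintype.card F - 1) / (Fintype.card F - 1).gcd k := by
    rw [← hk', orderOf_pow, hog]
  have how' : orderOf w = orderOf (Units.mk0 w hw0) := by
    rw [← orderOf_units]
    rfl
  rw [how', how]
  have hg0 : 0 < (Fintype.card F - 1).gcd k := Nat.gcd_pos_of_pos_left _ (Nat.pos_of_ne_zero hq1)
  have hcop : (r ^ padicValNat r (Fintype.card F - 1)).Coprime ((Fintype.card F - 1).gcd k) :=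
    Nat.Coprime.pow_left _ ((Nat.Prime.coprime_iff_not_dvd hr).mpr
      (fun h => hrk (h.trans (Nat.gcd_dvd_right _ _))))
  obtain ⟨c, hc⟩ := Nat.gcd_dvd_left (Fintype.card F - 1) k
  obtain ⟨G, hG⟩ : ∃ G, G = (Fintype.card F - 1).gcd k := ⟨_, rfl⟩
  rw [← hG] at hc hg0 hcop ⊢
  have h2 : (Fintype.card F - 1) / G = c := by
    rw [hc]
    exact Nat.mul_div_cancel_left _ hg0
  rw [h2]
  have h1 : r ^ padicValNat r (Fintype.card F - 1) ∣ G * c := by
    rw [← hc]
    exact pow_padicValNat_dvd
  exact hcop.dvd_of_dvd_mul_left h1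

/-- When the arithmetic condition fails there is a non-`r`-th-power `c` with the right
determinant condition. -/
theorem exists_nonpower (r : ℕ) [Fact r.Prime] (hr1 : r ∣ Fintype.card F - 1) (n : ℕ)
    (hn : 1 ≤ n)
    (h : ¬ (padicValNat r n ≤ padicValNat r (Fintype.card F - 1) ∧
      (r = 2 → Even n → Fintype.card F % 4 = 1))) :
    ∃ (c : F) (A : ℕ), n = r * A ∧ (∀ d : F, d ^ r ≠ c) ∧
      (-1 : F) ^ (r * A) * (-c) ^ A = 1 := by
  have hr : r.Prime := Fact.out
  obtain ⟨e, he⟩ : ∃ e, e = padicValNat r (Fintype.card F - 1) := ⟨_, rfl⟩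
  rw [← he] at h
  have hq1 : Fintype.card F - 1 ≠ 0 := card_sub_one_ne_zero
  have he1 : 1 ≤ e := by
    rw [he]
    exact one_le_padicValNat_of_dvd hq1 hr1
  by_cases hv : padicValNat r n ≤ e
  · have h2 : ¬ (r = 2 → Even n → Fintype.card F % 4 = 1) := fun h' => h ⟨hv, h'⟩
    push Not at h2
    obtain ⟨hr2, hev, hq4⟩ := h2
    obtain ⟨A, hA⟩ := hev
    refine ⟨-1, A, by rw [hr2]; omega, ?_, ?_⟩
    · intro d hd
      have hq3 : Fintype.card F % 4 = 3 := by
        rw [hr2] at hr1
        obtain ⟨t, ht⟩ := hr1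
        have := Fintype.one_lt_card (α := F)
        omega
      have h3 := FiniteField.isSquare_neg_one_iff (F := F)
      have h4 : IsSquare (-1 : F) := ⟨d, by rw [← hd, hr2, sq]⟩
      exact (h3.mp h4) hq3
    · rw [neg_neg, one_pow, mul_one, hr2, pow_mul, neg_one_sq, one_pow]
  · push_neg at hv
    have hdvd : r ^ (e + 1) ∣ n := (padicValNat_dvd_iff_le (by omega)).mpr hv
    obtain ⟨B, hB⟩ := hdvd
    obtain ⟨g, hg⟩ := IsCyclic.exists_ofOrder_eq_natCard (α := Fˣ)
    rw [card_units'] at hg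
    have hre : r ^ e ∣ Fintype.card F - 1 := by
      rw [he]
      exact pow_padicValNat_dvd
    obtain ⟨t, ht⟩ := hre
    have ht0 : t ≠ 0 := by
      rintro rfl
      rw [mul_zero] at ht
      exact hq1 ht
    have hord : orderOf (g ^ t) = r ^ e := by
      rw [orderOf_pow_of_dvd ht0 (by rw [hg, ht]; exact Dvd.intro_left _ rfl), hg, ht,
        Nat.mul_div_cancel _ (Nat.pos_of_ne_zero ht0)]
    obtain ⟨c, hc⟩ : ∃ c : Fˣ, c = g ^ t := ⟨_, rfl⟩
    rw [← hc] at hord
    refine ⟨(c : F), r ^ e * B, by rw [hB, pow_succ]; ring, ?_, ?_⟩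
    · intro d hd
      have hd0 : d ≠ 0 := by
        rintro rfl
        rw [zero_pow hr.ne_zero] at hd
        exact c.ne_zero hd.symm
      have hdu : (Units.mk0 d hd0) ^ r = c := by
        apply Units.ext
        rw [Units.val_pow_eq_pow_val, Units.val_mk0]
        exact hd
      have h1 : orderOf (Units.mk0 d hd0) ∣ Fintype.card F - 1 := by
        rw [← card_units']
        exact orderOf_dvd_natCard _
      have h2 : orderOf ((Units.mk0 d hd0) ^ r) =
          orderOf (Units.mk0 d hd0) / (orderOf (Units.mk0 d hd0)).gcd r := orderOf_pow _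
      rw [hdu, hord] at h2
      by_cases hrd : r ∣ orderOf (Units.mk0 d hd0)
      · rw [Nat.gcd_eq_right hrd] at h2
        obtain ⟨s, hs⟩ := hrd
        rw [hs, Nat.mul_div_cancel_left _ hr.pos] at h2
        have h3 : r ^ (e + 1) ∣ Fintype.card F - 1 := by
          rw [pow_succ, h2, mul_comm, ← hs]
          exact h1
        have h4 := (padicValNat_dvd_iff_le hq1).mp h3
        omega
      · have hcop : (orderOf (Units.mk0 d hd0)).gcd r = 1 :=
          Nat.coprime_comm.mp ((Nat.Prime.coprime_iff_not_dvd hr).mpr hrd)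
        rw [hcop, Nat.div_one] at h2
        apply hrd
        rw [← h2]
        exact dvd_pow_self r (by omega)
    · have hcA : (c : F) ^ (r ^ e * B) = 1 := by
        rw [← Units.val_pow_eq_pow_val, pow_mul, ← hord, pow_orderOf_eq_one, one_pow,
          Units.val_one]
      rw [neg_pow (c : F), hcA, mul_one, ← pow_add]
      apply Even.neg_one_pow
      rw [Nat.even_add, Nat.even_mul]
      rcases hr.eq_two_or_odd' with h2 | hodd
      · have hA : Even (r ^ e * B) := by
          rw [Nat.even_mul, Nat.even_pow]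
          left
          exact ⟨by rw [h2]; exact even_two, by omega⟩
        tauto
      · have hno : ¬ Even r := Nat.not_even_iff_odd.mpr hodd
        tauto

end

end Cfsg.Agent.Lib.Helper40.RootPow
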