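import Mathlib
import Cfsg.Agent.Lib.Helper40.InvDims
import Cfsg.Agent.Lib.Helper40.RootPow
import Cfsg.Agent.Lib.Helper40.PrimeElts
import Cfsg.Agent.Lib.Helper40.SSCount
import Cfsg.Agent.Lib.Helper40.RecipPoly

set_option autoImplicit false

namespace Cfsg.Agent.Lib.Helper40.PrimeFix

open Polynomial UniqueFactorizationMonoid Cfsg.Agent.Lib.Helper40.InvDims
  Cfsg.Agent.Lib.Helper40.SSConj

section general
variable {F : Type*} [Field F] {n : ℕ}

theorem fix_smul (x : Matrix (Fin n) (Fin n) F) (a : F) (ha : a ≠ 0)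
    (W : Submodule F (Fin n → F)) :
    W.map (Matrix.toLin' (a • x)) ≤ W ↔ W.map (Matrix.toLin' x) ≤ W := by
  rw [map_smul, Submodule.map_smul _ _ a ha]

/-- Structure of a matrix whose `r`-th power is a scalar which is not an `r`-th power. -/
theorem structure_of_nonpower (r : ℕ) [Fact r.Prime] (hr0 : (r : F) ≠ 0)
    (x : Matrix (Fin n) (Fin n) F) (c : F) (hc : ∀ d : F, d ^ r ≠ c)
    (hx : x ^ r = c • (1 : Matrix (Fin n) (Fin n) F)) :
    ∃ A : ℕ, r * A = n ∧ x.charpoly = (X ^ r - C c) ^ A ∧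
      (∀ m, (∃ W : Submodule F (Fin n → F), Module.finrank F W = m ∧
          W.map (Matrix.toLin' x) ≤ W) ↔ ∃ j, j ≤ A ∧ r * j = m) ∧
      (∀ m, m ≤ n → ((∃ U W : Submodule F (Fin n → F), U ≤ W ∧ Module.finrank F U = m ∧
          Module.finrank F W = n - m ∧ U.map (Matrix.toLin' x) ≤ U ∧
          W.map (Matrix.toLin' x) ≤ W) ↔ ∃ j₁ j₂, j₁ + j₂ ≤ A ∧ r * j₁ = m ∧ r * j₂ = m)) := by
  classical
  have hr : r.Prime := Fact.out
  have hc0 : c ≠ 0 := by
    rintro rfl
    exact hc 0 (zero_pow hr.ne_zero)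
  have hirr : Irreducible (X ^ r - C c) := (X_pow_sub_C_irreducible_iff_of_prime hr).mpr hc
  have hmon : (X ^ r - C c).Monic := monic_X_pow_sub_C c hr.ne_zero
  have hs := isSemisimple_of_pow_eq_smul x r c hc0 hr0 hx
  have hae : aeval x (X ^ r - C c) = 0 := by
    rw [map_sub, map_pow, aeval_X, aeval_C, hx, Algebra.algebraMap_eq_smul_one, sub_self]
  have hfac : ∀ P ∈ normalizedFactors x.charpoly, P = X ^ r - C c := by
    intro P hP
    have h1 := Cfsg.Agent.S2568.dvd_of_mem_nf_charpoly x _ hae P hP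
    have hPi := irreducible_of_normalized_factor P hP
    exact eq_of_monic_of_associated (Cfsg.Agent.S2568.monic_of_mem_nf _ P hP) hmon
      (hPi.associated_of_dvd hirr h1)
  have hdeg : ∀ P ∈ normalizedFactors x.charpoly, P.natDegree = 1 ∨ P.natDegree = r :=
    fun P hP => Or.inr (by rw [hfac P hP, natDegree_X_pow_sub_C])
  have hE : cntOne x = 0 := by
    unfold cntOne
    rw [Multiset.card_eq_zero, Multiset.filter_eq_nil]
    intro P hP
    rw [hfac P hP, natDegree_X_pow_sub_C]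
    exact hr.ne_one
  have hsum := cnt_sum x r hdeg
  rw [hE, zero_add] at hsum
  have hA : cntBig x = Multiset.card (normalizedFactors x.charpoly) := by
    unfold cntBig
    rw [Multiset.filter_eq_self.mpr]
    intro P hP
    rw [hfac P hP, natDegree_X_pow_sub_C]
    exact hr.ne_one
  refine ⟨cntBig x, hsum, ?_, ?_, ?_⟩
  · conv_lhs => rw [← Cfsg.Agent.S2568.prod_nf x.charpoly (Matrix.charpoly_monic x)]
    rw [Multiset.eq_replicate.mpr ⟨hA.symm, hfac⟩, Multiset.prod_replicate]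
  · intro m
    rw [fix_iff x hs r hdeg m, hE]
    constructor
    · rintro ⟨l, j, hl, hj, hm⟩
      exact ⟨j, hj, by omega⟩
    · rintro ⟨j, hj, hm⟩
      exact ⟨0, j, le_rfl, hj, by omega⟩
  · intro m hm
    rw [flag_iff x hs r hdeg m hm, hE]
    constructor
    · rintro ⟨l₁, j₁, l₂, j₂, hl, hj, h1, h2⟩
      exact ⟨j₁, j₂, hj, by omega, by omega⟩
    · rintro ⟨j₁, j₂, hj, h1, h2⟩
      exact ⟨0, j₁, 0, j₂, le_rfl, hj, by omega, by omega⟩

/-- A matrix of determinant `1` whose `r`-th power is a scalar which is not an `r`-th power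
exists only if the arithmetic condition fails. -/
theorem nonpower_arith [Fintype F] (r : ℕ) [Fact r.Prime] (hr0 : (r : F) ≠ 0) (hn : 1 ≤ n)
    (x : Matrix (Fin n) (Fin n) F) (hdet : x.det = 1) (c : F) (hc : ∀ d : F, d ^ r ≠ c)
    (hx : x ^ r = c • (1 : Matrix (Fin n) (Fin n) F)) :
    ¬ (padicValNat r n ≤ padicValNat r (Fintype.card F - 1) ∧
      (r = 2 → Even n → Fintype.card F % 4 = 1)) := by
  have hr : r.Prime := Fact.out
  obtain ⟨A, hA, hcp, -, -⟩ := structure_of_nonpower r hr0 x c hc hx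
  rintro ⟨hv, h2⟩
  have hdet'' : x.det = (-1 : F) ^ n * (-c) ^ A := by
    rw [Matrix.det_eq_sign_charpoly_coeff, Fintype.card_fin, hcp, coeff_zero_eq_eval_zero,
      eval_pow, eval_sub, eval_pow, eval_X, eval_C, zero_pow hr.ne_zero, zero_sub]
  have hdet' : (-1 : F) ^ n * (-c) ^ A = 1 := by
    rw [← hdet'', hdet]
  have hA1 : 1 ≤ A := by
    rcases A with _ | A
    · rw [mul_zero] at hA
      omega
    · omega
  obtain ⟨w, hw⟩ : ∃ w : F, w = (-1) ^ (r + 1) * c := ⟨_, rfl⟩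
  have hwA : w ^ A = 1 := by
    have e : (-1 : F) ^ ((r + 1) * A) * c ^ A = (-1) ^ n * (-c) ^ A := by
      rw [← hA, neg_pow c, ← mul_assoc, ← pow_add]
      congr 2
      ring
    rw [hw, mul_pow, ← pow_mul, e, hdet']
  have hwnp : ∀ d : F, d ^ r ≠ w := by
    rcases hr.eq_two_or_odd' with hr2 | hodd
    · have hev : Even n := ⟨A, by rw [← hA, hr2]; ring⟩
      have hq := h2 hr2 hev
      obtain ⟨s, hs⟩ := (FiniteField.isSquare_neg_one_iff (F := F)).mpr (by omega)
      intro d hd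
      rw [hw, hr2] at hd
      apply hc (s * d)
      rw [hr2, mul_pow, hd, sq, ← hs]
      ring
    · intro d hd
      apply hc d
      rw [hd, hw, Even.neg_one_pow (Odd.add_one hodd), one_mul]
  have h3 := Cfsg.Agent.Lib.Helper40.RootPow.pow_dvd_orderOf r w hwnp
  have h4 : orderOf w ∣ A := orderOf_dvd_of_pow_eq_one hwA
  have h5 : r ^ (padicValNat r (Fintype.card F - 1) + 1) ∣ n := by
    rw [← hA, pow_succ, mul_comm]
    exact Nat.mul_dvd_mul_left r (h3.trans h4)
  have h6 := (padicValNat_dvd_iff_le (by omega)).mp h5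
  omega

/-- Existence of a matrix of determinant `1` with `x ^ r = c`. -/
theorem exists_bad [Finite F] (p : ℕ) [Fact p.Prime] [CharP F p] (r : ℕ) [Fact r.Prime] (c : F)
    (A : ℕ) (hc : c ≠ 0) (hdet : (-1 : F) ^ (r * A) * (-c) ^ A = 1) :
    ∃ x : Matrix (Fin (r * A)) (Fin (r * A)) F, x.det = 1 ∧
      x ^ r = c • (1 : Matrix (Fin (r * A)) (Fin (r * A)) F) := by
  classical
  have hr : r.Prime := Fact.out
  have hpp : p.Prime := Fact.out
  have hmon : (X ^ r - C c).Monic := monic_X_pow_sub_C c hr.ne_zero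
  obtain ⟨g, hg, N, hN0, hNp, hgN⟩ := Cfsg.Agent.Lib.Helper40.SSCount.exists_charpoly p (r * A)
    ((X ^ r - C c) ^ A) (hmon.pow A)
    (by rw [natDegree_pow, natDegree_X_pow_sub_C, mul_comm])
    (by
      rw [coeff_zero_eq_eval_zero, eval_pow, eval_sub, eval_pow, eval_X, eval_C,
        zero_pow hr.ne_zero, zero_sub]
      exact pow_ne_zero _ (neg_ne_zero.mpr hc))
  have hN : (N : F) ≠ 0 := by
    intro h0
    have h1 := (CharP.cast_eq_zero_iff F p N).mp h0
    have h3 : p ∣ Nat.gcd N p := Nat.dvd_gcd h1 dvd_rfl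
    rw [Nat.Coprime.gcd_eq_one hNp] at h3
    exact hpp.one_lt.ne' (Nat.dvd_one.mp h3)
  have hs := isSemisimple_toLin' g N hN hgN
  have hae := aeval_eq_zero_of_charpoly_dvd_pow g hs (X ^ r - C c) A (by rw [hg])
  rw [map_sub, map_pow, aeval_X, aeval_C, Algebra.algebraMap_eq_smul_one, sub_eq_zero] at hae
  refine ⟨g, ?_, hae⟩
  rw [Matrix.det_eq_sign_charpoly_coeff, Fintype.card_fin, hg, coeff_zero_eq_eval_zero, eval_pow,
    eval_sub, eval_pow, eval_X, eval_C, zero_pow hr.ne_zero, zero_sub]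
  exact hdet

end general

section finite
variable {F : Type*} [Field F] [Fintype F] {p : ℕ} [Fact p.Prime] [CharP F p] {n : ℕ}

theorem cast_ne_zero' (r : ℕ) [Fact r.Prime] (hrp : r ≠ p) : (r : F) ≠ 0 := by
  rw [Ne, CharP.cast_eq_zero_iff F p]
  intro h
  exact hrp ((Nat.prime_dvd_prime_iff_eq Fact.out Fact.out).mp h).symm

theorem not_dvd_card (r : ℕ) [Fact r.Prime] (hrp : r ≠ p) : ¬ r ∣ Fintype.card F := by
  obtain ⟨k, hk1, hk⟩ := FiniteField.card F p
  rw [hk]
  intro h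
  exact hrp ((Nat.prime_dvd_prime_iff_eq Fact.out hk1).mp ((Fact.out : r.Prime).dvd_of_dvd_pow h))

theorem order_dvd (r : ℕ) [Fact r.Prime] (hrp : r ≠ p) :
    orderOf ((Fintype.card F : ℕ) : ZMod r) ∣ r - 1 := by
  apply orderOf_dvd_of_pow_eq_one
  apply ZMod.pow_card_sub_one_eq_one
  rw [Ne, ZMod.natCast_eq_zero_iff]
  exact not_dvd_card (F := F) (p := p) r hrp

theorem factors_of_pow_eq_one [DecidableEq F] (r : ℕ) [Fact r.Prime] (hrp : r ≠ p)
    (x : Matrix (Fin n) (Fin n) F) (hx : x ^ r = 1) :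
    ∀ P ∈ normalizedFactors x.charpoly,
      P = X - C 1 ∨ P.natDegree = orderOf ((Fintype.card F : ℕ) : ZMod r) := by
  have hr : r.Prime := Fact.out
  obtain ⟨t, ht⟩ := order_dvd (F := F) (p := p) r hrp
  obtain ⟨S, hScard, hS1, hS, hdiv⟩ := Cfsg.Agent.S2568.cyclo_facts (F := F) (p := p) r _ t hr hrp
    rfl (by rw [ht, mul_comm])
  intro P hP
  have h1 : P ∣ X ^ r - C (1 : F) := Cfsg.Agent.S2568.dvd_of_mem_nf_charpoly x _
    (by rw [map_sub, map_pow, aeval_X, aeval_C, map_one, hx, sub_self]) P hP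
  rcases (hdiv P (irreducible_of_normalized_factor P hP)
    (Cfsg.Agent.S2568.monic_of_mem_nf _ P hP)).mp h1 with h2 | h2
  · exact Or.inl h2
  · exact Or.inr (hS P h2).2.2

/-- Structure of a matrix whose `r`-th power is a scalar which is an `r`-th power. -/
theorem structure_of_power (r : ℕ) [Fact r.Prime] (hrp : r ≠ p) (i : ℕ)
    (hi : i = orderOf ((Fintype.card F : ℕ) : ZMod r))
    (x : Matrix (Fin n) (Fin n) F) (d : F) (hd : d ≠ 0)
    (hx : x ^ r = (d ^ r) • (1 : Matrix (Fin n) (Fin n) F)) :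
    ∃ E A : ℕ, E + i * A = n ∧
      (2 ≤ i → (∀ c : F, x ≠ c • (1 : Matrix (Fin n) (Fin n) F)) → 1 ≤ A) ∧
      (∀ m, (∃ W : Submodule F (Fin n → F), Module.finrank F W = m ∧
          W.map (Matrix.toLin' x) ≤ W) ↔ ∃ l j, l ≤ E ∧ j ≤ A ∧ l + i * j = m) ∧
      (∀ m, m ≤ n → ((∃ U W : Submodule F (Fin n → F), U ≤ W ∧ Module.finrank F U = m ∧
          Module.finrank F W = n - m ∧ U.map (Matrix.toLin' x) ≤ U ∧
          W.map (Matrix.toLin' x) ≤ W) ↔
        ∃ l₁ j₁ l₂ j₂, l₁ + l₂ ≤ E ∧ j₁ + j₂ ≤ A ∧ l₁ + i * j₁ = m ∧ l₂ + i * j₂ = m)) := by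
  classical
  subst hi
  obtain ⟨x', hx'⟩ : ∃ x' : Matrix (Fin n) (Fin n) F, x' = d⁻¹ • x := ⟨_, rfl⟩
  have hx'r : x' ^ r = 1 := by
    rw [hx', _root_.smul_pow, hx, smul_smul, inv_pow, inv_mul_cancel₀ (pow_ne_zero r hd), one_smul]
  have hr0 : (r : F) ≠ 0 := cast_ne_zero' (p := p) r hrp
  have hs : Module.End.IsSemisimple (Matrix.toLin' x') := isSemisimple_toLin' x' r hr0 hx'r
  have hfac := factors_of_pow_eq_one (p := p) r hrp x' hx'r
  have hdeg : ∀ P ∈ normalizedFactors x'.charpoly, P.natDegree = 1 ∨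
      P.natDegree = orderOf ((Fintype.card F : ℕ) : ZMod r) := by
    intro P hP
    rcases hfac P hP with h | h
    · left
      rw [h]
      exact natDegree_X_sub_C 1
    · right
      exact h
  have hfix : ∀ W : Submodule F (Fin n → F),
      W.map (Matrix.toLin' x') ≤ W ↔ W.map (Matrix.toLin' x) ≤ W := by
    intro W
    rw [hx']
    exact fix_smul x d⁻¹ (inv_ne_zero hd) W
  refine ⟨cntOne x', cntBig x', cnt_sum x' _ hdeg, ?_, ?_, ?_⟩
  · intro hi hns
    by_contra hA
    have hA0 : cntBig x' = 0 := by omega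
    unfold cntBig at hA0
    rw [Multiset.card_eq_zero, Multiset.filter_eq_nil] at hA0
    have h1 : ∀ P ∈ normalizedFactors x'.charpoly, P ∣ X - C (1 : F) := by
      intro P hP
      rcases hfac P hP with h | h
      · rw [h]
      · exfalso
        have h2 := hA0 P hP
        rw [not_not] at h2
        omega
    have h2 : x'.charpoly ∣ (X - C (1 : F)) ^ Multiset.card (normalizedFactors x'.charpoly) := by
      conv_lhs => rw [← Cfsg.Agent.S2568.prod_nf x'.charpoly (Matrix.charpoly_monic x')]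
      exact Cfsg.Agent.S2568.prod_dvd_pow _ _ h1
    have h3 := aeval_eq_zero_of_charpoly_dvd_pow x' hs _ _ h2
    rw [map_sub, aeval_X, aeval_C, map_one, sub_eq_zero] at h3
    apply hns d
    have h4 : x = d • x' := by
      rw [hx', smul_smul, mul_inv_cancel₀ hd, one_smul]
    rw [h4, h3]
  · intro m
    rw [← fix_iff x' hs _ hdeg m]
    constructor
    · rintro ⟨W, h1, h2⟩
      exact ⟨W, h1, (hfix W).mpr h2⟩
    · rintro ⟨W, h1, h2⟩
      exact ⟨W, h1, (hfix W).mp h2⟩
  · intro m hm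
    rw [← flag_iff x' hs _ hdeg m hm]
    constructor
    · rintro ⟨U, W, h1, h2, h3, h4, h5⟩
      exact ⟨U, W, h1, h2, h3, (hfix U).mpr h4, (hfix W).mpr h5⟩
    · rintro ⟨U, W, h1, h2, h3, h4, h5⟩
      exact ⟨U, W, h1, h2, h3, (hfix U).mp h4, (hfix W).mp h5⟩

/-- A non-scalar element of order `r` with as few invariant subspaces as possible. -/
theorem exists_big (r : ℕ) [Fact r.Prime] (hrp : r ≠ p) (i : ℕ)
    (hi : i = orderOf ((Fintype.card F : ℕ) : ZMod r)) (hi2 : 2 ≤ i) (n : ℕ) (hin : i ≤ n) :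
    ∃ x : Matrix (Fin n) (Fin n) F, x.det = 1 ∧ x ^ r = 1 ∧
      (∀ c : F, x ≠ c • (1 : Matrix (Fin n) (Fin n) F)) ∧
      (∀ m, (∃ W : Submodule F (Fin n → F), Module.finrank F W = m ∧
          W.map (Matrix.toLin' x) ≤ W) ↔ ∃ l j, l ≤ n % i ∧ j ≤ n / i ∧ l + i * j = m) ∧
      (∀ m, m ≤ n → ((∃ U W : Submodule F (Fin n → F), U ≤ W ∧ Module.finrank F U = m ∧
          Module.finrank F W = n - m ∧ U.map (Matrix.toLin' x) ≤ U ∧
          W.map (Matrix.toLin' x) ≤ W) ↔
        ∃ l₁ j₁ l₂ j₂, l₁ + l₂ ≤ n % i ∧ j₁ + j₂ ≤ n / i ∧ l₁ + i * j₁ = m ∧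
          l₂ + i * j₂ = m)) := by
  classical
  have hr : r.Prime := Fact.out
  have hpp : p.Prime := Fact.out
  obtain ⟨t, ht⟩ := order_dvd (F := F) (p := p) r hrp
  rw [← hi] at ht
  obtain ⟨S, hScard, hS1, hS, hdiv⟩ := Cfsg.Agent.S2568.cyclo_facts (F := F) (p := p) r i t hr hrp
    hi (by rw [ht, mul_comm])
  have ht1 : 1 ≤ t := by
    rcases t with _ | t
    · rw [mul_zero] at ht
      have := hr.two_le
      omega
    · omega
  obtain ⟨P, hP⟩ : ∃ P, P ∈ S := by
    have h1 : 0 < S.card := by omega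
    exact Finset.card_pos.mp h1
  obtain ⟨hPirr, hPmon, hPdeg⟩ := hS P hP
  have hLirr : Irreducible (X - C (1 : F)) := irreducible_X_sub_C 1
  have hLmon : (X - C (1 : F)).Monic := monic_X_sub_C 1
  have hPdvd : P ∣ X ^ r - C (1 : F) := (hdiv P hPirr hPmon).mpr (Or.inr hP)
  have hP0 : P.coeff 0 ≠ 0 := by
    apply Cfsg.Agent.Lib.Helper40.RecipPoly.coeff0_of_dvd hPdvd
    rw [coeff_zero_eq_eval_zero, eval_sub, eval_pow, eval_X, eval_C, zero_pow hr.ne_zero, zero_sub]
    exact neg_ne_zero.mpr one_ne_zero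
  obtain ⟨M, hM⟩ : ∃ M : Multiset F[X], M = Multiset.replicate (n / i) P +
      Multiset.replicate (n % i) (X - C (1 : F)) := ⟨_, rfl⟩
  have hMfac : ∀ Q ∈ M, Irreducible Q ∧ Q.Monic := by
    intro Q hQ
    rw [hM, Multiset.mem_add] at hQ
    rcases hQ with hQ | hQ
    · rw [Multiset.eq_of_mem_replicate hQ]
      exact ⟨hPirr, hPmon⟩
    · rw [Multiset.eq_of_mem_replicate hQ]
      exact ⟨hLirr, hLmon⟩
  have hMprod : M.prod = P ^ (n / i) * (X - C (1 : F)) ^ (n % i) := by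
    rw [hM, Multiset.prod_add, Multiset.prod_replicate, Multiset.prod_replicate]
  have hmonic : M.prod.Monic := by
    rw [hMprod]
    exact (hPmon.pow _).mul (hLmon.pow _)
  have hnd : M.prod.natDegree = n := by
    rw [hMprod, (hPmon.pow _).natDegree_mul (hLmon.pow _), hPmon.natDegree_pow,
      hLmon.natDegree_pow, hPdeg, natDegree_X_sub_C, mul_one, mul_comm]
    exact Nat.div_add_mod n i
  have hc0 : M.prod.coeff 0 ≠ 0 := by
    rw [hMprod, mul_coeff_zero]
    apply mul_ne_zero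
    · rw [coeff_zero_eq_eval_zero, eval_pow, ← coeff_zero_eq_eval_zero]
      exact pow_ne_zero _ hP0
    · rw [coeff_zero_eq_eval_zero, eval_pow, eval_sub, eval_X, eval_C, zero_sub]
      exact pow_ne_zero _ (neg_ne_zero.mpr one_ne_zero)
  obtain ⟨g, hg, N, hN0, hNp, hgN⟩ := Cfsg.Agent.Lib.Helper40.SSCount.exists_charpoly p n M.prod
    hmonic hnd hc0
  have hnf : normalizedFactors g.charpoly = M := by
    rw [hg]
    exact Cfsg.Agent.S2568.nf_prod M hMfac
  have hgr : g ^ r = 1 := by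
    apply Cfsg.Agent.S2568.pow_eq_one_of_charpoly (p := p) g r N hNp hgN
    intro Q hQ
    rw [hnf, hM, Multiset.mem_add] at hQ
    rcases hQ with hQ | hQ
    · rw [Multiset.eq_of_mem_replicate hQ]
      exact hPdvd
    · rw [Multiset.eq_of_mem_replicate hQ]
      exact (hdiv _ hLirr hLmon).mpr (Or.inl rfl)
  have hr0 : (r : F) ≠ 0 := cast_ne_zero' (p := p) r hrp
  have hs : Module.End.IsSemisimple (Matrix.toLin' g) := isSemisimple_toLin' g r hr0 hgr
  have hdet : g.det = 1 := by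
    apply Cfsg.Agent.Lib.Helper40.PrimeElts.root_trivial r hr (by rw [← hi]; omega)
    rw [← Matrix.det_pow, hgr, Matrix.det_one]
  have hni : 1 ≤ n / i := Nat.div_pos hin (by omega)
  have hPM : P ∈ normalizedFactors g.charpoly := by
    rw [hnf, hM, Multiset.mem_add]
    left
    rw [Multiset.mem_replicate]
    exact ⟨by omega, rfl⟩
  have hns : ∀ c : F, g ≠ c • (1 : Matrix (Fin n) (Fin n) F) := by
    intro c hgc
    have hae : aeval g (X - C c) = 0 := by
      rw [map_sub, aeval_X, aeval_C, Algebra.algebraMap_eq_smul_one, hgc, sub_self]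
    have h1 := Cfsg.Agent.S2568.dvd_of_mem_nf_charpoly g _ hae P hPM
    have h2 := natDegree_le_of_dvd h1 (X_sub_C_ne_zero c)
    rw [hPdeg, natDegree_X_sub_C] at h2
    omega
  have hdeg : ∀ Q ∈ normalizedFactors g.charpoly, Q.natDegree = 1 ∨ Q.natDegree = i := by
    intro Q hQ
    rw [hnf, hM, Multiset.mem_add] at hQ
    rcases hQ with hQ | hQ
    · right
      rw [Multiset.eq_of_mem_replicate hQ]
      exact hPdeg
    · left
      rw [Multiset.eq_of_mem_replicate hQ]
      exact natDegree_X_sub_C 1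
  have hf1 : Multiset.filter (fun Q : F[X] => Q.natDegree = 1) (Multiset.replicate (n / i) P) = 0 :=
    Multiset.filter_eq_nil.mpr (fun Q hQ => by
      rw [Multiset.eq_of_mem_replicate hQ, hPdeg]
      omega)
  have hf2 : Multiset.filter (fun Q : F[X] => Q.natDegree = 1)
      (Multiset.replicate (n % i) (X - C (1 : F))) = Multiset.replicate (n % i) (X - C 1) :=
    Multiset.filter_eq_self.mpr (fun Q hQ => by
      rw [Multiset.eq_of_mem_replicate hQ]
      exact natDegree_X_sub_C 1)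
  have hf3 : Multiset.filter (fun Q : F[X] => ¬ Q.natDegree = 1) (Multiset.replicate (n / i) P) =
      Multiset.replicate (n / i) P :=
    Multiset.filter_eq_self.mpr (fun Q hQ => by
      rw [Multiset.eq_of_mem_replicate hQ, hPdeg]
      omega)
  have hf4 : Multiset.filter (fun Q : F[X] => ¬ Q.natDegree = 1)
      (Multiset.replicate (n % i) (X - C (1 : F))) = 0 :=
    Multiset.filter_eq_nil.mpr (fun Q hQ => by
      rw [Multiset.eq_of_mem_replicate hQ, not_not]
      exact natDegree_X_sub_C 1)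
  have hE : cntOne g = n % i := by
    unfold cntOne
    rw [hnf, hM, Multiset.filter_add, hf1, hf2, zero_add, Multiset.card_replicate]
  have hA : cntBig g = n / i := by
    unfold cntBig
    rw [hnf, hM, Multiset.filter_add, hf3, hf4, add_zero, Multiset.card_replicate]
  refine ⟨g, hdet, hgr, hns, ?_, ?_⟩
  · intro m
    rw [fix_iff g hs i hdeg m, hE, hA]
  · intro m hm
    rw [flag_iff g hs i hdeg m hm, hE, hA]

end finite

end Cfsg.Agent.Lib.Helper40.PrimeFix
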