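import Mathlib
import Cfsg.Agent.Lib.Helper40.SUCount
import Cfsg.Agent.Lib.Helper43.RegUnip
import Cfsg.Agent.Lib.Helper43.Shift
import Cfsg.Agent.Lib.Helper43.PolyMatMore

set_option autoImplicit false

namespace Cfsg.Agent.Lib.Helper40.SURegUnip

open Matrix
open Cfsg.Agent.Lib.Helper40.HermAdj Cfsg.Agent.Lib.Helper40.SSConj Cfsg.Agent.Lib.Helper40.HermDiag
  Cfsg.Agent.Lib.Helper40.UnitDet Cfsg.Agent.Lib.Helper40.SUCount
open Cfsg.Agent.Lib.Helper43.RegNilpComm Cfsg.Agent.Lib.Helper43.RegUnip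
  Cfsg.Agent.Lib.Helper43.Shift Cfsg.Agent.Lib.Helper43.PolyMatMore

universe u

variable {K : Type u} [Field K]

/-- Regular unipotent unitary matrices. -/
def RU (φ : K →+* K) {n : ℕ} (U : Matrix (Fin n) (Fin n) K) : Prop :=
  adj φ U * U = 1 ∧ (U - 1) ^ n = 0 ∧ (U - 1).rank = n - 1

theorem conj_pow {n : ℕ} (z zi M : Matrix (Fin n) (Fin n) K) (hzi : zi * z = 1) (k : ℕ) :
    (z * M * zi) ^ (k + 1) = z * M ^ (k + 1) * zi := by
  induction k with
  | zero => rw [pow_one, pow_one]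
  | succ k ih =>
    rw [pow_succ, ih, pow_succ _ (k + 1)]
    calc z * M ^ (k + 1) * zi * (z * M * zi) = z * M ^ (k + 1) * (zi * z) * M * zi := by
          simp only [mul_assoc]
      _ = z * (M ^ (k + 1) * M) * zi := by rw [hzi, mul_one, mul_assoc z]

theorem adj_smul (φ : K →+* K) {n : ℕ} (a : K) (M : Matrix (Fin n) (Fin n) K) :
    adj φ (a • M) = φ a • adj φ M := by
  ext i j
  simp [adj_apply]

theorem adj_neg (φ : K →+* K) {n : ℕ} (M : Matrix (Fin n) (Fin n) K) :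
    adj φ (-M) = -adj φ M := by
  ext i j
  simp [adj_apply]

theorem adj_polyMat (φ : K →+* K) {n : ℕ} (N : Matrix (Fin n) (Fin n) K)
    (a : Fin (Fintype.card (Fin n)) → K) :
    adj φ (polyMat N a) = polyMat (adj φ N) (φ ∘ a) := by
  unfold polyMat
  ext i j
  rw [adj_apply, Matrix.sum_apply, Matrix.sum_apply, map_sum]
  apply Finset.sum_congr rfl
  intro k _
  rw [Matrix.smul_apply, Matrix.smul_apply, ← adj_pow, adj_apply, smul_eq_mul, smul_eq_mul,
    map_mul]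
  rfl

/-- From a conjugating matrix between unitary matrices to a unitary conjugating matrix. -/
theorem unitary_conj_of_conj [Fintype K] (φ : K →+* K) (hφ : ∀ x, φ (φ x) = x) (l : K)
    (hl : φ l ≠ l) {n : ℕ} (A B P : Matrix (Fin n) (Fin n) K) (hA : adj φ A * A = 1)
    (hB : adj φ B * B = 1) (hPu : IsUnit P) (hPA : P * A = B * P) :
    ∃ G : Matrix (Fin n) (Fin n) K, adj φ G * G = 1 ∧ G * A = B * G := by
  classical
  obtain ⟨Q, hPQ⟩ := hPu.exists_right_inv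
  have hQP : Q * P = 1 := mul_eq_one_comm.mp hPQ
  obtain ⟨C, hCA, hCC⟩ := unitary_core φ hφ l hl P A B hPu hA hB hPA
  have hCu : IsUnit C := by
    have h1 : IsUnit (adj φ C * C) := by
      rw [hCC]
      apply IsUnit.of_mul_eq_one (Q * adj φ Q)
      calc adj φ P * P * (Q * adj φ Q) = adj φ P * (P * Q) * adj φ Q := by
            simp only [mul_assoc]
        _ = 1 := by rw [hPQ, mul_one, ← adj_mul, hQP, adj_one]
    rw [Matrix.isUnit_iff_isUnit_det] at h1 ⊢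
    rw [Matrix.det_mul] at h1
    exact isUnit_of_mul_isUnit_right h1
  obtain ⟨Ci, hCi1⟩ := hCu.exists_right_inv
  have hCi2 : Ci * C = 1 := mul_eq_one_comm.mp hCi1
  have hCiA : Ci * A = A * Ci := by
    calc Ci * A = Ci * A * (C * Ci) := by rw [hCi1, mul_one]
      _ = Ci * (A * C) * Ci := by simp only [mul_assoc]
      _ = Ci * (C * A) * Ci := by rw [hCA]
      _ = (Ci * C) * A * Ci := by simp only [mul_assoc]
      _ = A * Ci := by rw [hCi2, one_mul]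
  refine ⟨P * Ci, ?_, ?_⟩
  · rw [adj_mul]
    calc adj φ Ci * adj φ P * (P * Ci) = adj φ Ci * (adj φ P * P) * Ci := by
          simp only [mul_assoc]
      _ = adj φ Ci * adj φ C * (C * Ci) := by
          rw [← hCC]
          simp only [mul_assoc]
      _ = 1 := by rw [hCi1, mul_one, ← adj_mul, hCi1, adj_one]
  · rw [mul_assoc, hCiA, ← mul_assoc, hPA, mul_assoc]

/-- Any two regular unipotent unitary matrices are conjugate by a unitary matrix. -/
theorem conj_RU [Fintype K] (φ : K →+* K) (hφ : ∀ x, φ (φ x) = x) (l : K) (hl : φ l ≠ l)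
    {n : ℕ} (hn : 0 < n) (U U' : Matrix (Fin n) (Fin n) K) (hU : RU φ U) (hU' : RU φ U') :
    ∃ G : Matrix (Fin n) (Fin n) K, adj φ G * G = 1 ∧ G * U = U' * G := by
  classical
  obtain ⟨P, hPdet, hPN⟩ := exists_conj_of_regular (U - 1) (U' - 1)
    (by rw [Fintype.card_fin]; exact hU.2.1) (by rw [Fintype.card_fin]; exact hU.2.2)
    (by rw [Fintype.card_fin]; exact hU'.2.1) (by rw [Fintype.card_fin]; exact hU'.2.2)
    (by rw [Fintype.card_fin]; exact hn)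
  have hPu : IsUnit P := (Matrix.isUnit_iff_isUnit_det P).mpr hPdet
  have hPU : P * U = U' * P := by
    rw [mul_sub, sub_mul, mul_one, one_mul] at hPN
    exact sub_left_injective hPN
  exact unitary_conj_of_conj φ hφ l hl U U' P hU.1 hU'.1 hPu hPU

/-- A unitary matrix commuting with a regular unipotent unitary matrix has determinant `a ^ n`
with `a` of norm one. -/
theorem det_commute_RU (φ : K →+* K) {n : ℕ} (hn : 0 < n)
    (U c : Matrix (Fin n) (Fin n) K) (hU : RU φ U) (hc : adj φ c * c = 1) (hcU : c * U = U * c) :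
    ∃ a : K, a * φ a = 1 ∧ c.det = a ^ n := by
  classical
  have hpos : 0 < Fintype.card (Fin n) := by rw [Fintype.card_fin]; exact hn
  have hnil : (U - 1) ^ Fintype.card (Fin n) = 0 := by rw [Fintype.card_fin]; exact hU.2.1
  have hreg : (U - 1).rank = Fintype.card (Fin n) - 1 := by rw [Fintype.card_fin]; exact hU.2.2
  have hcN : Commute c (U - 1) := by
    show c * (U - 1) = (U - 1) * c
    rw [mul_sub, sub_mul, mul_one, one_mul, hcU]
  obtain ⟨a, ha⟩ := exists_polyMat_of_commute (U - 1) hnil hreg hpos c hcN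
  obtain ⟨v₀, hv₀, hNv₀⟩ := exists_ker_ne_zero (U - 1) hnil hpos
  have hUv₀ : U *ᵥ v₀ = v₀ := by
    rw [Matrix.sub_mulVec, Matrix.one_mulVec] at hNv₀
    exact sub_eq_zero.mp hNv₀
  have hadjN : adj φ (U - 1) *ᵥ v₀ = 0 := by
    rw [adj_sub', adj_one, Matrix.sub_mulVec, Matrix.one_mulVec]
    have h1 : adj φ U *ᵥ (U *ᵥ v₀) = v₀ := by
      rw [Matrix.mulVec_mulVec, hU.1, Matrix.one_mulVec]
    rw [hUv₀] at h1
    rw [h1, sub_self]
  have h1 : c *ᵥ v₀ = a ⟨0, hpos⟩ • v₀ := by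
    rw [ha]
    exact polyMat_mulVec_ker (U - 1) a hpos v₀ hNv₀
  have h2 : adj φ c *ᵥ v₀ = φ (a ⟨0, hpos⟩) • v₀ := by
    rw [ha, adj_polyMat]
    exact polyMat_mulVec_ker (adj φ (U - 1)) (φ ∘ a) hpos v₀ hadjN
  have h3 : adj φ c *ᵥ (c *ᵥ v₀) = v₀ := by
    rw [Matrix.mulVec_mulVec, hc, Matrix.one_mulVec]
  rw [h1, Matrix.mulVec_smul, h2, smul_smul] at h3
  have h4 : (a ⟨0, hpos⟩ * φ (a ⟨0, hpos⟩) - 1) • v₀ = 0 := by
    rw [sub_smul, h3, one_smul, sub_self]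
  refine ⟨a ⟨0, hpos⟩, ?_, ?_⟩
  · rcases smul_eq_zero.mp h4 with h5 | h5
    · exact sub_eq_zero.mp h5
    · exact absurd h5 hv₀
  · rw [ha, det_polyMat (U - 1) hnil a hpos]
    congr 1
    exact Fintype.card_fin n

/-- Conjugating a unitary matrix by an invertible matrix whose Gram matrix it preserves. -/
theorem unitary_conj {n : ℕ} (φ : K →+* K) (z zi J : Matrix (Fin n) (Fin n) K)
    (hzi1 : z * zi = 1) (hz : adj φ J * (adj φ z * z) * J = adj φ z * z) :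
    adj φ (z * J * zi) * (z * J * zi) = 1 := by
  rw [adj_mul, adj_mul]
  calc adj φ zi * (adj φ J * adj φ z) * (z * J * zi)
      = adj φ zi * (adj φ J * (adj φ z * z) * J) * zi := by simp only [mul_assoc]
    _ = adj φ zi * adj φ z * (z * zi) := by
        rw [hz]
        simp only [mul_assoc]
    _ = 1 := by rw [hzi1, mul_one, ← adj_mul, hzi1, adj_one]

/-- Existence of a regular unipotent unitary matrix. -/
theorem exists_RU [Finite K] (φ : K →+* K) (hφ : ∀ x, φ (φ x) = x) (l : K) (hl : φ l ≠ l)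
    {n : ℕ} (hn : 0 < n) : ∃ U : Matrix (Fin n) (Fin n) K, RU φ U := by
  classical
  obtain ⟨N, hN⟩ : ∃ N, N = shift K n := ⟨_, rfl⟩
  have hNn : N ^ n = 0 := by
    rw [hN]
    exact shift_pow_card n
  have hNr : N.rank = n - 1 := by
    rw [hN]
    exact shift_rank n
  have hNnil : IsNilpotent N := ⟨n, hNn⟩
  obtain ⟨J, hJ⟩ : ∃ J, J = 1 + N := ⟨_, rfl⟩
  have hJdet : J.det = 1 := by
    have h1 := det_smul_one_add_of_isNilpotent (1 : K) N hNnil
    rw [one_smul, one_pow] at h1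
    rw [hJ]
    exact h1
  have hJu : IsUnit J := by
    rw [Matrix.isUnit_iff_isUnit_det, hJdet]
    exact isUnit_one
  obtain ⟨Ji, hJJi⟩ := hJu.exists_right_inv
  have hJiJ : Ji * J = 1 := mul_eq_one_comm.mp hJJi
  have hadjN : adj φ N = Nᵀ := by
    rw [hN]
    ext i j
    rw [adj_apply, Matrix.transpose_apply]
    unfold shift
    split_ifs
    · exact map_one φ
    · exact map_zero φ
  have hadjNn : adj φ N ^ n = 0 := by rw [← adj_pow, hNn, adj_zero]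
  have hadjNr : (adj φ N).rank = n - 1 := by rw [hadjN, Matrix.rank_transpose, hNr]
  have hadjJ : adj φ J = 1 + adj φ N := by rw [hJ, adj_add, adj_one]
  have h1 : adj φ J * adj φ Ji = 1 := by rw [← adj_mul, hJiJ, adj_one]
  have h2 : adj φ Ji * adj φ J = 1 := by rw [← adj_mul, hJJi, adj_one]
  have hN' : adj φ Ji - 1 = (-adj φ Ji) * adj φ N := by
    have h3 : adj φ Ji * (1 + adj φ N) = 1 := by
      rw [← hadjJ]
      exact h2
    rw [mul_add, mul_one] at h3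
    rw [neg_mul, eq_neg_iff_add_eq_zero, sub_add_eq_add_sub, h3, sub_self]
  have hcomm : Commute (adj φ Ji) (adj φ N) := by
    apply commute_of_inverse (adj φ N) (adj φ J) (adj φ Ji) _ h1 h2
    show adj φ J * adj φ N = adj φ N * adj φ J
    rw [hadjJ, add_mul, mul_add, one_mul, mul_one]
  have hJiu : IsUnit (-adj φ Ji) := (IsUnit.of_mul_eq_one _ h2).neg
  have hN'n : (adj φ Ji - 1) ^ n = 0 := by
    rw [hN', hcomm.neg_left.mul_pow, hadjNn, mul_zero]
  have hN'r : (adj φ Ji - 1).rank = n - 1 := by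
    rw [hN', Matrix.rank_mul_eq_right_of_isUnit_det _ _
      ((Matrix.isUnit_iff_isUnit_det _).mp hJiu), hadjNr]
  obtain ⟨P, hPdet, hPN⟩ := exists_conj_of_regular N (adj φ Ji - 1)
    (by rw [Fintype.card_fin]; exact hNn) (by rw [Fintype.card_fin]; exact hNr)
    (by rw [Fintype.card_fin]; exact hN'n) (by rw [Fintype.card_fin]; exact hN'r)
    (by rw [Fintype.card_fin]; exact hn)
  have hPu : IsUnit P := (Matrix.isUnit_iff_isUnit_det P).mpr hPdet
  have hPJ : P * J = adj φ Ji * P := by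
    rw [hJ, mul_add, mul_one, hPN, sub_mul, one_mul]
    abel
  have hAx : adj φ J * P * J = P := by
    rw [mul_assoc, hPJ, ← mul_assoc, h1, one_mul]
  obtain ⟨z, hzu, hz⟩ := gu_conj_core φ hφ l hl J P hJu hPu hAx
  obtain ⟨zi, hzi1⟩ := hzu.exists_right_inv
  have hzi2 : zi * z = 1 := mul_eq_one_comm.mp hzi1
  have h3 : z * J * zi - 1 = z * N * zi := by
    rw [hJ, mul_add, add_mul, mul_one, hzi1]
    abel
  refine ⟨z * J * zi, unitary_conj φ z zi J hzi1 hz, ?_, ?_⟩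
  · rw [h3]
    obtain ⟨k, rfl⟩ : ∃ k, n = k + 1 := ⟨n - 1, by omega⟩
    rw [conj_pow z zi N hzi2 k, hNn, mul_zero, zero_mul]
  · rw [h3, Matrix.rank_mul_eq_left_of_isUnit_det _ _
      ((Matrix.isUnit_iff_isUnit_det _).mp (IsUnit.of_mul_eq_one _ hzi2)),
      Matrix.rank_mul_eq_right_of_isUnit_det _ _ ((Matrix.isUnit_iff_isUnit_det _).mp hzu), hNr]


section cyclic

theorem two_le_q [Fintype K] {q : ℕ} (hK : Fintype.card K = q ^ 2) : 2 ≤ q := by
  by_contra h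
  have h1 : 1 < Fintype.card K := Fintype.one_lt_card
  rw [hK] at h1
  have h2 : q ≤ 1 := by omega
  have h3 : q ^ 2 ≤ 1 ^ 2 := Nat.pow_le_pow_left h2 2
  omega

/-- A primitive `(q+1)`-th root of unity in the field with `q²` elements. -/
theorem exists_primitive [Fintype K] {q : ℕ} (hK : Fintype.card K = q ^ 2) :
    ∃ ζ : K, IsPrimitiveRoot ζ (q + 1) := by
  classical
  have hq := two_le_q hK
  obtain ⟨g, hg⟩ := IsCyclic.exists_generator (α := Kˣ)
  have hord : orderOf g = q ^ 2 - 1 := by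
    rw [orderOf_eq_card_of_forall_mem_zpowers hg, Nat.card_units, Nat.card_eq_fintype_card, hK]
  have h2 : q ^ 2 - 1 = (q + 1) * (q - 1) := by
    obtain ⟨k, rfl⟩ : ∃ k, q = k + 2 := ⟨q - 2, by omega⟩
    have h3 : (k + 2) ^ 2 = (k + 2 + 1) * (k + 2 - 1) + 1 := by
      have h4 : k + 2 - 1 = k + 1 := by omega
      rw [h4]
      ring
    omega
  have h1 : orderOf (g ^ (q - 1)) = q + 1 := by
    rw [orderOf_pow' _ (by omega : q - 1 ≠ 0), hord, h2,
      Nat.gcd_eq_right (Dvd.intro_left _ rfl), Nat.mul_div_cancel _ (by omega)]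
  refine ⟨((g ^ (q - 1) : Kˣ) : K), ?_⟩
  rw [IsPrimitiveRoot.coe_units_iff, ← h1]
  exact IsPrimitiveRoot.orderOf _

theorem exists_nth_root_of {q n : ℕ} (ζ : K) (hζ : IsPrimitiveRoot ζ (q + 1)) (x : K)
    (hx : x ^ (q + 1) = 1) (hxe : x ^ ((q + 1) / Nat.gcd n (q + 1)) = 1) :
    ∃ a : K, a ^ (q + 1) = 1 ∧ x = a ^ n := by
  have hdvd : Nat.gcd n (q + 1) ∣ q + 1 := Nat.gcd_dvd_right n (q + 1)
  have hdpos : 0 < Nat.gcd n (q + 1) := Nat.gcd_pos_of_pos_right n (Nat.succ_pos q)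
  obtain ⟨e, he⟩ : ∃ e, e = (q + 1) / Nat.gcd n (q + 1) := ⟨_, rfl⟩
  have hde : Nat.gcd n (q + 1) * e = q + 1 := by
    rw [he]
    exact Nat.mul_div_cancel' hdvd
  have hepos : 0 < e := by
    rcases Nat.eq_zero_or_pos e with h | h
    · rw [h, mul_zero] at hde
      omega
    · exact h
  rw [← he] at hxe
  obtain ⟨j, hj, rfl⟩ := hζ.eq_pow_of_pow_eq_one hx
  rw [← pow_mul, hζ.pow_eq_one_iff_dvd, ← hde] at hxe
  have hdj : Nat.gcd n (q + 1) ∣ j := Nat.dvd_of_mul_dvd_mul_right hepos hxe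
  obtain ⟨j', rfl⟩ := hdj
  have hζ0 : ζ ≠ 0 := hζ.ne_zero (Nat.succ_ne_zero q)
  have hbez := Nat.gcd_eq_gcd_ab n (q + 1)
  have hζq : ζ ^ ((q + 1 : ℕ) : ℤ) = 1 := by
    rw [zpow_natCast]
    exact hζ.pow_eq_one
  have h1 : ζ ^ (Nat.gcd n (q + 1)) = (ζ ^ (Nat.gcdA n (q + 1))) ^ n := by
    have e1 : ζ ^ ((Nat.gcd n (q + 1) : ℕ) : ℤ) = ζ ^ ((n : ℤ) * Nat.gcdA n (q + 1)) *
        ζ ^ (((q + 1 : ℕ) : ℤ) * Nat.gcdB n (q + 1)) := by
      rw [hbez, zpow_add₀ hζ0]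
    have e2 : ζ ^ (((q + 1 : ℕ) : ℤ) * Nat.gcdB n (q + 1)) = 1 := by
      rw [_root_.zpow_mul, hζq, _root_.one_zpow]
    have e3 : ζ ^ ((n : ℤ) * Nat.gcdA n (q + 1)) = (ζ ^ (Nat.gcdA n (q + 1))) ^ n := by
      rw [mul_comm, _root_.zpow_mul, zpow_natCast]
    rw [← zpow_natCast ζ (Nat.gcd n (q + 1)), e1, e2, e3, mul_one]
  have e4 : (ζ ^ (Nat.gcdA n (q + 1))) ^ (q + 1) = 1 := by
    rw [← zpow_natCast (ζ ^ Nat.gcdA n (q + 1)) (q + 1), ← _root_.zpow_mul, mul_comm,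
      _root_.zpow_mul, hζq, _root_.one_zpow]
  refine ⟨(ζ ^ (Nat.gcdA n (q + 1))) ^ j', ?_, ?_⟩
  · rw [← pow_mul, mul_comm, pow_mul, e4, one_pow]
  · rw [pow_mul, h1, ← pow_mul, ← pow_mul, mul_comm]

theorem exists_pow_eq {q n : ℕ} (ζ : K) (hζ : IsPrimitiveRoot ζ (q + 1)) (y : K)
    (hy : y ^ Nat.gcd n (q + 1) = 1) :
    ∃ x : K, x ^ (q + 1) = 1 ∧ x ^ ((q + 1) / Nat.gcd n (q + 1)) = y := by
  have hdvd : Nat.gcd n (q + 1) ∣ q + 1 := Nat.gcd_dvd_right n (q + 1)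
  have hdpos : 0 < Nat.gcd n (q + 1) := Nat.gcd_pos_of_pos_right n (Nat.succ_pos q)
  obtain ⟨e, he⟩ : ∃ e, e = (q + 1) / Nat.gcd n (q + 1) := ⟨_, rfl⟩
  have hde : e * Nat.gcd n (q + 1) = q + 1 := by
    rw [he]
    exact Nat.div_mul_cancel hdvd
  rw [← he]
  have hyq : y ^ (q + 1) = 1 := by
    rw [← hde, mul_comm, pow_mul, hy, one_pow]
  obtain ⟨j, hj, rfl⟩ := hζ.eq_pow_of_pow_eq_one hyq
  rw [← pow_mul, hζ.pow_eq_one_iff_dvd] at hy
  have hy' : e * Nat.gcd n (q + 1) ∣ j * Nat.gcd n (q + 1) := by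
    rw [hde]
    exact hy
  have hej : e ∣ j := Nat.dvd_of_mul_dvd_mul_right hdpos hy'
  obtain ⟨j', rfl⟩ := hej
  refine ⟨ζ ^ j', ?_, ?_⟩
  · rw [← pow_mul, mul_comm, pow_mul, hζ.pow_eq_one, one_pow]
  · rw [← pow_mul, mul_comm]

theorem card_roots [Fintype K] {q n : ℕ} (ζ : K) (hζ : IsPrimitiveRoot ζ (q + 1)) :
    Nat.card {y : K // y ^ Nat.gcd n (q + 1) = 1} = Nat.gcd n (q + 1) := by
  classical
  have hdvd : Nat.gcd n (q + 1) ∣ q + 1 := Nat.gcd_dvd_right n (q + 1)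
  have hdpos : 0 < Nat.gcd n (q + 1) := Nat.gcd_pos_of_pos_right n (Nat.succ_pos q)
  have hd : IsPrimitiveRoot (ζ ^ ((q + 1) / Nat.gcd n (q + 1))) (Nat.gcd n (q + 1)) :=
    hζ.pow (Nat.succ_pos q) (Nat.div_mul_cancel hdvd).symm
  rw [Nat.card_eq_fintype_card, Fintype.card_of_subtype
    (Polynomial.nthRootsFinset (Nat.gcd n (q + 1)) (1 : K))]
  · exact hd.card_nthRootsFinset
  · intro x
    exact Polynomial.mem_nthRootsFinset hdpos 1

end cyclic


theorem norm_det (φ : K →+* K) {n : ℕ} (G : Matrix (Fin n) (Fin n) K) (h : adj φ G * G = 1) :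
    φ G.det * G.det = 1 := by
  have h1 := congrArg Matrix.det h
  rw [Matrix.det_mul, det_adj, Matrix.det_one] at h1
  exact h1

theorem RU_det (φ : K →+* K) {n : ℕ} (U : Matrix (Fin n) (Fin n) K) (hU : RU φ U) :
    U.det = 1 := by
  classical
  have h1 := det_smul_one_add_of_isNilpotent (1 : K) (U - 1) ⟨n, hU.2.1⟩
  rw [one_smul, one_pow, add_sub_cancel] at h1
  exact h1

/-- Transport of the intertwining relation to the adjoint. -/
theorem adj_intertwine (φ : K →+* K) {n : ℕ} (G U₀ U : Matrix (Fin n) (Fin n) K)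
    (hG : adj φ G * G = 1) (h : G * U₀ = U * G) : adj φ G * U = U₀ * adj φ G := by
  have hG' : G * adj φ G = 1 := mul_eq_one_comm.mp hG
  calc adj φ G * U = adj φ G * U * (G * adj φ G) := by rw [hG', mul_one]
    _ = adj φ G * (U * G) * adj φ G := by simp only [mul_assoc]
    _ = adj φ G * (G * U₀) * adj φ G := by rw [h]
    _ = (adj φ G * G) * U₀ * adj φ G := by simp only [mul_assoc]
    _ = U₀ * adj φ G := by rw [hG, one_mul]

theorem mul_e_eq {q n : ℕ} : ∃ n', n * ((q + 1) / Nat.gcd n (q + 1)) = (q + 1) * n' := by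
  have hdvd : Nat.gcd n (q + 1) ∣ q + 1 := Nat.gcd_dvd_right n (q + 1)
  obtain ⟨n', hn'⟩ := Nat.gcd_dvd_left n (q + 1)
  refine ⟨n', ?_⟩
  have h1 : Nat.gcd n (q + 1) * ((q + 1) / Nat.gcd n (q + 1)) = q + 1 := Nat.mul_div_cancel' hdvd
  calc n * ((q + 1) / Nat.gcd n (q + 1))
      = (Nat.gcd n (q + 1) * n') * ((q + 1) / Nat.gcd n (q + 1)) := by rw [← hn']
    _ = (Nat.gcd n (q + 1) * ((q + 1) / Nat.gcd n (q + 1))) * n' := by ring
    _ = (q + 1) * n' := by rw [h1]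

/-- The determinant invariant is constant on special unitary classes. -/
theorem det_pow_eq_of_conj {q : ℕ} (φ : K →+* K) (hφq : ∀ x, φ x = x ^ q) {n : ℕ} (hn : 0 < n)
    (U₀ U U' G₁ G₂ S : Matrix (Fin n) (Fin n) K) (hU₀ : RU φ U₀) (hφ : ∀ x, φ (φ x) = x)
    (hG₁ : adj φ G₁ * G₁ = 1) (hG₂ : adj φ G₂ * G₂ = 1) (h1 : G₁ * U₀ = U * G₁)
    (h2 : G₂ * U₀ = U' * G₂) (hS : adj φ S * S = 1) (hSdet : S.det = 1)
    (hSU : S * U = U' * S) :
    G₁.det ^ ((q + 1) / Nat.gcd n (q + 1)) = G₂.det ^ ((q + 1) / Nat.gcd n (q + 1)) := by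
  have hG₂' : G₂ * adj φ G₂ = 1 := mul_eq_one_comm.mp hG₂
  have h2' := adj_intertwine φ G₂ U₀ U' hG₂ h2
  obtain ⟨c, hc⟩ : ∃ c, c = adj φ G₂ * S * G₁ := ⟨_, rfl⟩
  have hcu : adj φ c * c = 1 := by
    rw [hc, adj_mul, adj_mul, adj_adj φ hφ]
    calc adj φ G₁ * (adj φ S * G₂) * (adj φ G₂ * S * G₁)
        = adj φ G₁ * (adj φ S * (G₂ * adj φ G₂) * S) * G₁ := by simp only [mul_assoc]
      _ = 1 := by rw [hG₂', mul_one, hS, mul_one, hG₁]
  have hcU : c * U₀ = U₀ * c := by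
    rw [hc]
    calc adj φ G₂ * S * G₁ * U₀ = adj φ G₂ * S * (G₁ * U₀) := by simp only [mul_assoc]
      _ = adj φ G₂ * (S * U) * G₁ := by
          rw [h1]
          simp only [mul_assoc]
      _ = (adj φ G₂ * U') * S * G₁ := by
          rw [hSU]
          simp only [mul_assoc]
      _ = U₀ * (adj φ G₂ * S * G₁) := by
          rw [h2']
          simp only [mul_assoc]
  obtain ⟨a, ha, hdet⟩ := det_commute_RU φ hn U₀ c hU₀ hcu hcU
  rw [hc, Matrix.det_mul, Matrix.det_mul, det_adj, hSdet, mul_one] at hdet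
  have h3 : G₁.det = G₂.det * a ^ n := by
    have h4 := norm_det φ G₂ hG₂
    calc G₁.det = (φ G₂.det * G₂.det) * G₁.det := by rw [h4, one_mul]
      _ = G₂.det * (φ G₂.det * G₁.det) := by ring
      _ = G₂.det * a ^ n := by rw [hdet]
  have ha' : a ^ (q + 1) = 1 := by
    rw [pow_succ', ← hφq]
    exact ha
  obtain ⟨n', hn'⟩ := mul_e_eq (q := q) (n := n)
  rw [h3, mul_pow, ← pow_mul, hn', pow_mul, ha', one_pow, mul_one]

/-- Equal determinant invariants force conjugacy under the special unitary group. -/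
theorem exists_conj_of_det_pow_eq {q : ℕ} (φ : K →+* K) (hφq : ∀ x, φ x = x ^ q)
    (hφ : ∀ x, φ (φ x) = x) {n : ℕ} (ζ : K) (hζ : IsPrimitiveRoot ζ (q + 1))
    (U₀ U U' G₁ G₂ : Matrix (Fin n) (Fin n) K)
    (hG₁ : adj φ G₁ * G₁ = 1) (hG₂ : adj φ G₂ * G₂ = 1) (h1 : G₁ * U₀ = U * G₁)
    (h2 : G₂ * U₀ = U' * G₂)
    (hdet : G₁.det ^ ((q + 1) / Nat.gcd n (q + 1)) = G₂.det ^ ((q + 1) / Nat.gcd n (q + 1))) :
    ∃ S : Matrix (Fin n) (Fin n) K, adj φ S * S = 1 ∧ S.det = 1 ∧ S * U = U' * S := by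
  have hG₁' : G₁ * adj φ G₁ = 1 := mul_eq_one_comm.mp hG₁
  have h1' := adj_intertwine φ G₁ U₀ U hG₁ h1
  have hn1 := norm_det φ G₁ hG₁
  have hn2 := norm_det φ G₂ hG₂
  obtain ⟨x, hx⟩ : ∃ x, x = G₂.det * φ G₁.det := ⟨_, rfl⟩
  have hxq : x ^ (q + 1) = 1 := by
    rw [pow_succ', ← hφq, hx, map_mul, hφ]
    calc G₂.det * φ G₁.det * (φ G₂.det * G₁.det)
        = (φ G₂.det * G₂.det) * (φ G₁.det * G₁.det) := by ring
      _ = 1 := by rw [hn1, hn2, one_mul]
  have hxe : x ^ ((q + 1) / Nat.gcd n (q + 1)) = 1 := by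
    rw [hx, mul_pow, ← hdet, ← mul_pow, mul_comm, hn1, one_pow]
  obtain ⟨a, haq, hxa⟩ := exists_nth_root_of ζ hζ x hxq hxe
  have ha : φ a * a = 1 := by
    rw [hφq, ← pow_succ]
    exact haq
  refine ⟨G₂ * (φ a • adj φ G₁), ?_, ?_, ?_⟩
  · rw [adj_mul, adj_smul, hφ, adj_adj φ hφ]
    calc a • G₁ * adj φ G₂ * (G₂ * φ a • adj φ G₁)
        = a • G₁ * (adj φ G₂ * G₂) * φ a • adj φ G₁ := by simp only [mul_assoc]
      _ = 1 := by
          rw [hG₂, mul_one, Matrix.smul_mul, Matrix.mul_smul, smul_smul, hG₁', mul_comm, ha,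
            one_smul]
  · rw [Matrix.det_mul, Matrix.det_smul, det_adj, Fintype.card_fin]
    calc G₂.det * (φ a ^ n * φ G₁.det) = (G₂.det * φ G₁.det) * φ a ^ n := by ring
      _ = 1 := by rw [← hx, hxa, ← mul_pow, mul_comm, ha, one_pow]
  · calc G₂ * (φ a • adj φ G₁) * U = φ a • (G₂ * (adj φ G₁ * U)) := by
          rw [Matrix.mul_smul, Matrix.smul_mul, mul_assoc]
      _ = φ a • ((G₂ * U₀) * adj φ G₁) := by rw [h1', mul_assoc]
      _ = φ a • (U' * (G₂ * adj φ G₁)) := by rw [h2, mul_assoc]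
      _ = U' * (G₂ * (φ a • adj φ G₁)) := by rw [Matrix.mul_smul, Matrix.mul_smul]


theorem adj_diagonal (φ : K →+* K) {n : ℕ} (v : Fin n → K) :
    adj φ (Matrix.diagonal v) = Matrix.diagonal (φ ∘ v) := by
  ext i j
  rw [adj_apply]
  by_cases h : i = j
  · subst h
    simp
  · rw [Matrix.diagonal_apply_ne _ (Ne.symm h), Matrix.diagonal_apply_ne _ h, map_zero]

theorem conj_pow' {n : ℕ} (z zi M : Matrix (Fin n) (Fin n) K) (hzi : zi * z = 1) (k : ℕ)
    (hk : 0 < k) : (z * M * zi) ^ k = z * M ^ k * zi := by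
  obtain ⟨k', rfl⟩ : ∃ k', k = k' + 1 := ⟨k - 1, by omega⟩
  exact conj_pow z zi M hzi k'

/-- The number of classes of regular unipotent elements in a group of special unitary
matrices. -/
theorem su_regunip_count [Fintype K] {q : ℕ} (hK : Fintype.card K = q ^ 2) (φ : K →+* K)
    (hφq : ∀ x, φ x = x ^ q) (hφ : ∀ x, φ (φ x) = x) (l : K) (hl : φ l ≠ l) {n : ℕ}
    (hn : 0 < n) {G : Type*} [Group G] (gm : G →* Matrix (Fin n) (Fin n) K)
    (hinj : Function.Injective gm) (hu : ∀ g, adj φ (gm g) * gm g = 1)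
    (hd : ∀ g, (gm g).det = 1)
    (hsurj : ∀ U : Matrix (Fin n) (Fin n) K, adj φ U * U = 1 → U.det = 1 → ∃ g, gm g = U) :
    Nat.card {C : ConjClasses G // ∃ u : G, ConjClasses.mk u = C ∧ (gm u - 1) ^ n = 0 ∧
      (gm u - 1).rank = n - 1} = Nat.gcd n (q + 1) := by
  classical
  obtain ⟨ζ, hζ⟩ := exists_primitive hK
  obtain ⟨U₀, hU₀⟩ := exists_RU φ hφ l hl hn
  have hdvd : Nat.gcd n (q + 1) ∣ q + 1 := Nat.gcd_dvd_right n (q + 1)
  have hchoose : ∀ C : {C : ConjClasses G // ∃ u : G, ConjClasses.mk u = C ∧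
      (gm u - 1) ^ n = 0 ∧ (gm u - 1).rank = n - 1},
      ∃ u : G, ConjClasses.mk u = C.1 ∧ (gm u - 1) ^ n = 0 ∧ (gm u - 1).rank = n - 1 :=
    fun C => C.2
  choose rep hrep using hchoose
  have hG : ∀ C : {C : ConjClasses G // ∃ u : G, ConjClasses.mk u = C ∧
      (gm u - 1) ^ n = 0 ∧ (gm u - 1).rank = n - 1},
      ∃ G₁ : Matrix (Fin n) (Fin n) K, adj φ G₁ * G₁ = 1 ∧ G₁ * U₀ = gm (rep C) * G₁ :=
    fun C => conj_RU φ hφ l hl hn U₀ (gm (rep C)) hU₀ ⟨hu _, (hrep C).2.1, (hrep C).2.2⟩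
  choose Gf hGf1 hGf2 using hG
  have hpow : ∀ M : Matrix (Fin n) (Fin n) K, adj φ M * M = 1 →
      (M.det ^ ((q + 1) / Nat.gcd n (q + 1))) ^ Nat.gcd n (q + 1) = 1 := by
    intro M hM
    rw [← pow_mul, Nat.div_mul_cancel hdvd, pow_succ', ← hφq, mul_comm]
    exact norm_det φ M hM
  obtain ⟨Ψ, hΨ⟩ : ∃ Ψ : {C : ConjClasses G // ∃ u : G, ConjClasses.mk u = C ∧
      (gm u - 1) ^ n = 0 ∧ (gm u - 1).rank = n - 1} → {y : K // y ^ Nat.gcd n (q + 1) = 1},
      ∀ C, (Ψ C).1 = (Gf C).det ^ ((q + 1) / Nat.gcd n (q + 1)) :=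
    ⟨fun C => ⟨_, hpow (Gf C) (hGf1 C)⟩, fun _ => rfl⟩
  have hbij : Function.Bijective Ψ := by
    constructor
    · intro C C' hCC
      have h1 : (Gf C).det ^ ((q + 1) / Nat.gcd n (q + 1)) =
          (Gf C').det ^ ((q + 1) / Nat.gcd n (q + 1)) := by
        rw [← hΨ, ← hΨ, hCC]
      obtain ⟨S, hS1, hSdet, hSU⟩ := exists_conj_of_det_pow_eq φ hφq hφ ζ hζ U₀ (gm (rep C))
        (gm (rep C')) (Gf C) (Gf C') (hGf1 C) (hGf1 C') (hGf2 C) (hGf2 C') h1
      obtain ⟨s, hs⟩ := hsurj S hS1 hSdet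
      apply Subtype.ext
      rw [← (hrep C).1, ← (hrep C').1, ConjClasses.mk_eq_mk_iff_isConj]
      refine isConj_iff.mpr ⟨s, ?_⟩
      rw [mul_inv_eq_iff_eq_mul]
      apply hinj
      rw [map_mul, map_mul, hs]
      exact hSU
    · rintro ⟨y, hy⟩
      obtain ⟨x, hxq, hxe⟩ := exists_pow_eq ζ hζ y hy
      have hx : φ x * x = 1 := by
        rw [hφq, ← pow_succ]
        exact hxq
      obtain ⟨dv, hdv⟩ : ∃ dv : Fin n → K, dv = fun i => if i = ⟨0, hn⟩ then x else 1 :=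
        ⟨_, rfl⟩
      obtain ⟨D, hD⟩ : ∃ D : Matrix (Fin n) (Fin n) K, D = Matrix.diagonal dv := ⟨_, rfl⟩
      have hD1 : adj φ D * D = 1 := by
        rw [hD, adj_diagonal, Matrix.diagonal_mul_diagonal, ← Matrix.diagonal_one]
        congr 1
        funext i
        rw [hdv]
        show φ (if i = ⟨0, hn⟩ then x else 1) * (if i = ⟨0, hn⟩ then x else 1) = 1
        split_ifs
        · exact hx
        · rw [map_one, one_mul]
      have hD1' : D * adj φ D = 1 := mul_eq_one_comm.mp hD1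
      have hDdet : D.det = x := by
        rw [hD, Matrix.det_diagonal, hdv, Finset.prod_ite_eq']
        simp
      obtain ⟨U, hUdef⟩ : ∃ U, U = D * U₀ * adj φ D := ⟨_, rfl⟩
      have hU1 : adj φ U * U = 1 := by
        rw [hUdef, adj_mul, adj_mul, adj_adj φ hφ]
        calc D * (adj φ U₀ * adj φ D) * (D * U₀ * adj φ D)
            = D * (adj φ U₀ * (adj φ D * D) * U₀) * adj φ D := by simp only [mul_assoc]
          _ = 1 := by rw [hD1, mul_one, hU₀.1, mul_one, hD1']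
      have hUsub : U - 1 = D * (U₀ - 1) * adj φ D := by
        rw [hUdef, mul_sub, sub_mul, mul_one, hD1']
      have hUnil : (U - 1) ^ n = 0 := by
        rw [hUsub, conj_pow' D (adj φ D) (U₀ - 1) hD1 n hn, hU₀.2.1, mul_zero, zero_mul]
      have hUrank : (U - 1).rank = n - 1 := by
        rw [hUsub, Matrix.rank_mul_eq_left_of_isUnit_det _ _
          ((Matrix.isUnit_iff_isUnit_det _).mp (IsUnit.of_mul_eq_one _ hD1)),
          Matrix.rank_mul_eq_right_of_isUnit_det _ _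
          ((Matrix.isUnit_iff_isUnit_det _).mp (IsUnit.of_mul_eq_one _ hD1')), hU₀.2.2]
      have hUdet : U.det = 1 := RU_det φ U ⟨hU1, hUnil, hUrank⟩
      obtain ⟨u, hu'⟩ := hsurj U hU1 hUdet
      have hDU : D * U₀ = U * D := by
        rw [hUdef, mul_assoc, hD1, mul_one]
      obtain ⟨C₀, hC₀⟩ : ∃ C₀ : {C : ConjClasses G // ∃ u : G, ConjClasses.mk u = C ∧
          (gm u - 1) ^ n = 0 ∧ (gm u - 1).rank = n - 1},
          C₀ = ⟨ConjClasses.mk u, u, rfl, by rw [hu']; exact hUnil, by rw [hu']; exact hUrank⟩ :=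
        ⟨_, rfl⟩
      refine ⟨C₀, ?_⟩
      have hconj : IsConj (rep C₀) u :=
        ConjClasses.mk_eq_mk_iff_isConj.mp (by rw [(hrep C₀).1, hC₀])
      obtain ⟨s, hs⟩ := isConj_iff.mp hconj
      have hsU : gm s * gm (rep C₀) = U * gm s := by
        rw [← hu', ← map_mul, ← map_mul, ← hs]
        congr 1
        group
      apply Subtype.ext
      rw [hΨ]
      show (Gf C₀).det ^ ((q + 1) / Nat.gcd n (q + 1)) = y
      rw [det_pow_eq_of_conj φ hφq hn U₀ (gm (rep C₀)) U (Gf C₀) D (gm s) hU₀ hφ (hGf1 C₀) hD1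
        (hGf2 C₀) hDU (hu s) (hd s) hsU, hDdet, hxe]
  rw [Nat.card_eq_of_bijective Ψ hbij, card_roots ζ hζ]


end Cfsg.Agent.Lib.Helper40.SURegUnip
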